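import Mathlib
import Cfsg.Prelude.Def_Characters
import Cfsg.Agent.Lib.Helper80.Eigen
import Cfsg.Agent.Lib.Helper80.CharKer
import Cfsg.Agent.Lib.Helper80.GalConj

/-!
# Groups of central type: quotient by the kernel

* `commutator_mem_irrKer_of_norm`: if `|χ(w)| = χ(1)` for an irreducible `χ`, then `w` is central
  modulo the kernel of `χ`.
* `central_type_quotient`: if `χ ∈ Irr(X)` has absolute value `χ(1)` on a subgroup `W` with
  `χ(1)² |W| = |X|`, then `X / ker χ` has centre `W / ker χ` and the character induced by `χ` on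
  `X / ker χ` is faithful with `χ(1)² = |X / ker χ : Z(X / ker χ)|`.
-/

set_option autoImplicit false
set_option linter.unusedSectionVars false
set_option linter.style.haveILetI false

namespace Cfsg.Agent.Lib.Helper81

open scoped commutatorElement

universe u

section CT

variable {X : Type u} [Group X] [Finite X]

/-- an element on which an irreducible character has maximal absolute value is central modulo
the kernel -/
theorem commutator_mem_irrKer_of_norm (χ : Cfsg.IrrCharacter X) {w : X}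
    (hw : ‖(χ : X → ℂ) w‖ = ‖(χ : X → ℂ) 1‖) (g : X) : ⁅w, g⁆ ∈ Helper80.irrKer χ := by
  rw [Helper80.mem_irrKer]
  obtain ⟨n, ρ, hirr, hρ⟩ := χ.2
  rw [← hρ] at hw ⊢
  rw [Representation.char_one] at hw ⊢
  have h1 : ‖ρ.character w‖ = (Module.finrank ℂ (Fin n → ℂ) : ℝ) := by
    rw [hw]
    simp
  obtain ⟨c, hc⟩ := (Helper80.norm_char_eq_finrank_iff ρ w).mp h1
  rw [Helper80.char_eq_finrank_iff]
  have h2 : ρ (w * g) = ρ (g * w) := by
    rw [map_mul, map_mul, hc]
    ext v : 1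
    simp
  have h3 : ⁅w, g⁆ = (w * g) * (g * w)⁻¹ := by
    rw [commutatorElement_def]; group
  rw [h3, map_mul, h2, ← map_mul, mul_inv_cancel, map_one]

/-- the quotient of a group by the kernel of an irreducible character which is "fully ramified"
over a subgroup `W` -/
theorem central_type_quotient (χ : Cfsg.IrrCharacter X) (W : Subgroup X)
    (hW : ∀ w ∈ W, ‖(χ : X → ℂ) w‖ = ‖(χ : X → ℂ) 1‖)
    (hcard : Cfsg.charDegree (χ : X → ℂ) ^ 2 * Nat.card W = Nat.card X) :
    Helper80.centerMod (Helper80.irrKer χ) = W ∧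
    ∃ χ' : Cfsg.IrrCharacter (X ⧸ Helper80.irrKer χ),
      (∀ g : X, (χ' : X ⧸ Helper80.irrKer χ → ℂ) (g : X ⧸ Helper80.irrKer χ) = (χ : X → ℂ) g) ∧
      (∀ h, (χ' : X ⧸ Helper80.irrKer χ → ℂ) h = (χ' : X ⧸ Helper80.irrKer χ → ℂ) 1 → h = 1) ∧
      Cfsg.charDegree (χ' : X ⧸ Helper80.irrKer χ → ℂ) ^ 2 =
        (Subgroup.center (X ⧸ Helper80.irrKer χ)).index := by
  classical
  set K := Helper80.irrKer χ with hK
  have hWle : W ≤ Helper80.centerMod K := by
    intro w hw
    rw [Helper80.mem_centerMod]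
    intro x
    exact commutator_mem_irrKer_of_norm χ (hW w hw) x
  let χ' : Cfsg.IrrCharacter (X ⧸ K) :=
    (Helper80.irrQuotientEquiv K).symm ⟨χ, fun x hx => (Helper80.mem_irrKer χ x).mp hx⟩
  have hχ' : ∀ g : X, (χ' : X ⧸ K → ℂ) (g : X ⧸ K) = (χ : X → ℂ) g := fun g =>
    Helper80.irrQuotientEquiv_symm_apply K ⟨χ, fun x hx => (Helper80.mem_irrKer χ x).mp hx⟩ g
  have hχ'1 : (χ' : X ⧸ K → ℂ) 1 = (χ : X → ℂ) 1 := hχ' 1
  have hdeg : Cfsg.charDegree (χ' : X ⧸ K → ℂ) = Cfsg.charDegree (χ : X → ℂ) := by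
    unfold Cfsg.charDegree
    rw [hχ'1]
  have hfaith : ∀ h, (χ' : X ⧸ K → ℂ) h = (χ' : X ⧸ K → ℂ) 1 → h = 1 := by
    intro h hh
    obtain ⟨g, rfl⟩ := QuotientGroup.mk_surjective h
    rw [hχ' g, hχ'1] at hh
    exact (QuotientGroup.eq_one_iff g).mpr ((Helper80.mem_irrKer χ g).mpr hh)
  -- counting
  have h1 := Helper80.charDegree_sq_mul_card_center_le χ'
  rw [hdeg] at h1
  have h2 : Nat.card (Helper80.centerMod K) = Nat.card K * Nat.card (Subgroup.center (X ⧸ K)) :=
    QuotientGroup.card_preimage_mk K ((Subgroup.center (X ⧸ K) : Set (X ⧸ K)))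
  have h3 : Nat.card W ≤ Nat.card (Helper80.centerMod K) := Subgroup.card_le_of_le hWle
  have h4 : Nat.card X = Nat.card (X ⧸ K) * Nat.card K :=
    Subgroup.card_eq_card_quotient_mul_card_subgroup K
  have hKpos : 0 < Nat.card K := Nat.card_pos
  have hZpos : 0 < Nat.card (Subgroup.center (X ⧸ K)) := Nat.card_pos
  set d := Cfsg.charDegree (χ : X → ℂ) with hd
  set zH := Nat.card (Subgroup.center (X ⧸ K)) with hzH
  -- |H| ≤ d² z_H
  have h5 : Nat.card (X ⧸ K) * Nat.card K ≤ d ^ 2 * zH * Nat.card K := by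
    calc Nat.card (X ⧸ K) * Nat.card K = d ^ 2 * Nat.card W := by rw [← h4, hcard]
      _ ≤ d ^ 2 * (Nat.card K * zH) := Nat.mul_le_mul_left _ (h2 ▸ h3)
      _ = d ^ 2 * zH * Nat.card K := by ring
  have h6 : Nat.card (X ⧸ K) ≤ d ^ 2 * zH := Nat.le_of_mul_le_mul_right h5 hKpos
  have h7 : d ^ 2 * zH = Nat.card (X ⧸ K) := le_antisymm h1 h6
  refine ⟨?_, χ', hχ', hfaith, ?_⟩
  · symm
    apply Subgroup.eq_of_le_of_card_ge hWle
    rw [h2]
    have h8 : d ^ 2 * (Nat.card K * zH) = d ^ 2 * Nat.card W := by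
      calc d ^ 2 * (Nat.card K * zH) = (d ^ 2 * zH) * Nat.card K := by ring
        _ = Nat.card (X ⧸ K) * Nat.card K := by rw [h7]
        _ = d ^ 2 * Nat.card W := by rw [← h4, hcard]
    have hd0 : 0 < d ^ 2 := by
      rcases Nat.eq_zero_or_pos (d ^ 2) with h0 | h0
      · rw [h0, zero_mul] at h7
        have : 0 < Nat.card (X ⧸ K) := Nat.card_pos
        omega
      · exact h0
    exact (Nat.eq_of_mul_eq_mul_left hd0 h8).le
  · rw [hdeg]
    have h9 := Subgroup.index_mul_card (Subgroup.center (X ⧸ K))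
    rw [← h7] at h9
    exact (Nat.eq_of_mul_eq_mul_right hZpos h9).symm

end CT

end Cfsg.Agent.Lib.Helper81
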