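import Mathlib
import Cfsg.Agent.Lib.Helper81.CType1
import Cfsg.Agent.Lib.Helper81.PiChar
import Cfsg.Agent.Lib.Helper81.WreathM2
import Cfsg.Agent.Lib.Helper81.MinNormal
import Cfsg.Agent.Lib.Helper25.IndNorm
import Cfsg.Agent.Lib.Helper15.LinIrr
import Cfsg.Agent.Lib.Helper15.LinChar

/-!
# The twisted wreath product used for groups of central type

`TwGrp H₀ α = ((Q → H₀) × A) ⋊ Q`, where `Q` permutes the coordinates of `Q → H₀` regularly and
acts on the abelian group `A` through `α`.  The character `twPsi` of the base group is the product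
of the coordinatewise values of `χ₀` and of a linear character `μ` of `A`; if the `Q`-conjugates
of `μ` are distinct, the induced character is irreducible.
-/

set_option autoImplicit false
set_option linter.unusedSectionVars false
set_option linter.style.haveILetI false

namespace Cfsg.Agent.Lib.Helper81

open scoped ComplexConjugate
open Cfsg.Agent.Lib.Helper3 (isCharacter_of_irr isClassFunction_of_isCharacter)

universe u

section Tw

variable {H₀ Q : Type u} [Group H₀] [Group Q] {A : Type} [CommGroup A] (α : Q →* MulAut A)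

/-- the action of `Q` on `(Q → H₀) × A` -/
def twAct : Q →* MulAut ((Q → H₀) × A) where
  toFun q := MulEquiv.prodCongr (mulAutArrow (G := Q) (M := H₀) (A := Q) q) (α q)
  map_one' := by
    apply MulEquiv.ext
    intro b
    show (mulAutArrow (G := Q) (M := H₀) (A := Q) 1 b.1, α 1 b.2) = b
    rw [map_one, map_one]
    rfl
  map_mul' q q' := by
    apply MulEquiv.ext
    intro b
    show (mulAutArrow (G := Q) (M := H₀) (A := Q) (q * q') b.1, α (q * q') b.2) =
      (mulAutArrow (G := Q) (M := H₀) (A := Q) q (mulAutArrow (G := Q) (M := H₀) (A := Q) q' b.1),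
        α q (α q' b.2))
    rw [map_mul, map_mul]
    rfl

theorem twAct_apply (q : Q) (b : (Q → H₀) × A) :
    twAct (H₀ := H₀) α q b = (fun x => b.1 (q⁻¹ * x), α q b.2) := rfl

/-- the twisted wreath product -/
abbrev TwGrp (H₀ : Type u) [Group H₀] {Q : Type u} [Group Q] {A : Type} [CommGroup A]
    (α : Q →* MulAut A) : Type u :=
  ((Q → H₀) × A) ⋊[twAct (H₀ := H₀) α] Q

/-- the base group -/
def twBase : Subgroup (TwGrp H₀ α) :=
  (SemidirectProduct.rightHom : TwGrp H₀ α →* Q).ker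

instance twBase_normal : (twBase (H₀ := H₀) α).Normal :=
  MonoidHom.normal_ker _

theorem mem_twBase (g : TwGrp H₀ α) : g ∈ twBase (H₀ := H₀) α ↔ g.right = 1 := by
  unfold twBase
  rw [MonoidHom.mem_ker]
  rfl

theorem inl_mem_twBase (b : (Q → H₀) × A) :
    (SemidirectProduct.inl b : TwGrp H₀ α) ∈ twBase (H₀ := H₀) α := by
  rw [mem_twBase]
  rfl

/-- the projection of the base group onto `(Q → H₀) × A` -/
def twLeft : ↥(twBase (H₀ := H₀) α) →* (Q → H₀) × A where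
  toFun n := n.1.left
  map_one' := rfl
  map_mul' n n' := by
    show (n.1 * n'.1).left = n.1.left * n'.1.left
    rw [SemidirectProduct.mul_left, (mem_twBase α n.1).mp n.2, map_one]
    rfl

theorem twLeft_surjective : Function.Surjective (twLeft (H₀ := H₀) α) := by
  intro b
  exact ⟨⟨SemidirectProduct.inl b, inl_mem_twBase α b⟩, rfl⟩

theorem eq_inl_of_mem_twBase {g : TwGrp H₀ α} (hg : g ∈ twBase (H₀ := H₀) α) :
    g = SemidirectProduct.inl g.left := by
  apply SemidirectProduct.ext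
  · rfl
  · exact (mem_twBase α g).mp hg

variable [Fintype Q]

/-- the character of `(Q → H₀) × A` -/
noncomputable def twPsi' (χ₀ : H₀ → ℂ) (μ : A →* ℂˣ) : (Q → H₀) × A → ℂ :=
  fun b => (∏ x, χ₀ (b.1 x)) * ((μ b.2 : ℂˣ) : ℂ)

/-- the character of the base group -/
noncomputable def twPsi (χ₀ : H₀ → ℂ) (μ : A →* ℂˣ) : ↥(twBase (H₀ := H₀) α) → ℂ :=
  fun n => twPsi' χ₀ μ n.1.left

theorem isIrrCharacter_twPsi' [Finite H₀] [Finite A] {χ₀ : H₀ → ℂ}
    (hχ₀ : Cfsg.IsIrrCharacter H₀ χ₀) (μ : A →* ℂˣ) :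
    Cfsg.IsIrrCharacter ((Q → H₀) × A) (twPsi' (Q := Q) χ₀ μ) := by
  classical
  haveI : Fintype H₀ := Fintype.ofFinite H₀
  haveI : Fintype (Q → H₀) := Fintype.ofFinite _
  have h1 : Cfsg.IsIrrCharacter (Q → H₀) (prodChar (fun _ : Q => χ₀)) :=
    isIrrCharacter_prodChar (fun _ : Q => χ₀) (fun _ => hχ₀)
  have h2 : Cfsg.IsIrrCharacter ((Q → H₀) × A)
      (fun b => prodChar (fun _ : Q => χ₀) ((MonoidHom.fst (Q → H₀) A) b)) :=
    Helper80.isIrrCharacter_comp (MonoidHom.fst (Q → H₀) A)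
      (fun f => ⟨(f, 1), rfl⟩) h1
  have h3 : Cfsg.IsCharacter ((Q → H₀) × A)
      (fun b => (((μ.comp (MonoidHom.snd (Q → H₀) A)) b : ℂˣ) : ℂ)) :=
    Helper15.isCharacter_of_hom (μ.comp (MonoidHom.snd (Q → H₀) A))
  have h4 := Helper15.isIrrCharacter_lin_mul h3 (by
    show (((μ.comp (MonoidHom.snd (Q → H₀) A)) 1 : ℂˣ) : ℂ) = 1
    rw [map_one]; rfl) h2
  have h5 : twPsi' (Q := Q) χ₀ μ =
      (fun b => (((μ.comp (MonoidHom.snd (Q → H₀) A)) b : ℂˣ) : ℂ)) *
        (fun b => prodChar (fun _ : Q => χ₀) ((MonoidHom.fst (Q → H₀) A) b)) := by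
    funext b
    show (∏ x, χ₀ (b.1 x)) * ((μ b.2 : ℂˣ) : ℂ) = ((μ b.2 : ℂˣ) : ℂ) * ∏ x, χ₀ (b.1 x)
    rw [mul_comm]
  rw [h5]
  exact h4

theorem isIrrCharacter_twPsi [Finite H₀] [Finite A] {χ₀ : H₀ → ℂ}
    (hχ₀ : Cfsg.IsIrrCharacter H₀ χ₀) (μ : A →* ℂˣ) :
    Cfsg.IsIrrCharacter ↥(twBase (H₀ := H₀) α) (twPsi α χ₀ μ) :=
  Helper80.isIrrCharacter_comp (twLeft α) (twLeft_surjective α) (isIrrCharacter_twPsi' hχ₀ μ)

end Tw

section Ind

variable {H₀ Q : Type u} [Group H₀] [Group Q] {A : Type} [CommGroup A] (α : Q →* MulAut A)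

/-- conjugation of a base element -/
theorem tw_conj_inl (g : TwGrp H₀ α) (b : (Q → H₀) × A) :
    g * SemidirectProduct.inl b * g⁻¹ =
      SemidirectProduct.inl (g.left * twAct (H₀ := H₀) α g.right b * g.left⁻¹) := by
  apply SemidirectProduct.ext
  · rw [SemidirectProduct.mul_left, SemidirectProduct.mul_left, SemidirectProduct.mul_right,
      SemidirectProduct.inv_left, SemidirectProduct.left_inl, SemidirectProduct.right_inl,
      SemidirectProduct.left_inl, mul_one, ← MulAut.mul_apply, ← map_mul, mul_inv_cancel, map_one]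
    rfl
  · rw [SemidirectProduct.mul_right, SemidirectProduct.mul_right, SemidirectProduct.inv_right,
      SemidirectProduct.right_inl, SemidirectProduct.right_inl, mul_one, mul_inv_cancel]

theorem twBase_index [Finite Q] : (twBase (H₀ := H₀) α).index = Nat.card Q := by
  unfold twBase
  rw [Subgroup.index_ker, MonoidHom.range_eq_top.mpr SemidirectProduct.rightHom_surjective,
    Subgroup.card_top]

variable [Fintype Q]

theorem twPsi'_conj {χ₀ : H₀ → ℂ} (hcf : Cfsg.IsClassFunction H₀ χ₀) (μ : A →* ℂˣ)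
    (c b : (Q → H₀) × A) : twPsi' χ₀ μ (c * b * c⁻¹) = twPsi' χ₀ μ b := by
  unfold twPsi'
  have h1 : (c * b * c⁻¹).2 = b.2 := by
    show c.2 * b.2 * c.2⁻¹ = b.2
    rw [mul_comm c.2, mul_assoc, mul_inv_cancel, mul_one]
  rw [h1]
  congr 1
  refine Finset.prod_congr rfl (fun x _ => ?_)
  show χ₀ (c.1 x * b.1 x * (c.1 x)⁻¹) = χ₀ (b.1 x)
  exact hcf (b.1 x) (c.1 x)

theorem twPsi'_act {χ₀ : H₀ → ℂ} (μ : A →* ℂˣ) (q : Q) (f : Q → H₀) (a : A) :
    twPsi' χ₀ μ (twAct (H₀ := H₀) α q (f, a)) =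
      (∏ x, χ₀ (f x)) * ((μ (α q a) : ℂˣ) : ℂ) := by
  unfold twPsi'
  rw [twAct_apply]
  congr 1
  exact Fintype.prod_equiv (Equiv.mulLeft q⁻¹) (fun y => χ₀ (f (q⁻¹ * y))) (fun y => χ₀ (f y))
    (fun y => rfl)

variable [Fintype H₀] [Fintype A] [Fintype (TwGrp H₀ α)]

/-- the induced character is irreducible when the conjugates of `μ` are distinct -/
theorem twChi_irr {χ₀ : H₀ → ℂ} (hχ₀ : Cfsg.IsIrrCharacter H₀ χ₀) (μ : A →* ℂˣ)
    (hμ : ∀ q : Q, q ≠ 1 → ∃ a : A, μ (α q a) ≠ μ a) :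
    Cfsg.IsIrrCharacter (TwGrp H₀ α) (Cfsg.indFun (twBase α) (twPsi α χ₀ μ)) ∧
    Cfsg.charDegree (Cfsg.indFun (twBase α) (twPsi α χ₀ μ)) =
      Cfsg.charDegree χ₀ ^ Nat.card Q * Nat.card Q := by
  classical
  haveI : Fintype ↥(twBase (H₀ := H₀) α) := Fintype.ofFinite _
  have hirr := isIrrCharacter_twPsi α hχ₀ μ
  have hχ₀1 := Helper80.char_one_ne_zero hχ₀
  have hcf₀ := isClassFunction_of_isCharacter (isCharacter_of_irr hχ₀)
  have hI : ∀ g : TwGrp H₀ α, g ∈ twBase (H₀ := H₀) α ↔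
      ∀ n n' : ↥(twBase (H₀ := H₀) α), (n' : TwGrp H₀ α) = g * (n : TwGrp H₀ α) * g⁻¹ →
        twPsi α χ₀ μ n' = twPsi α χ₀ μ n := by
    intro g
    constructor
    · intro hg n n' hn
      have hcf := isClassFunction_of_isCharacter (isCharacter_of_irr hirr)
      have h1 : n' = ⟨g, hg⟩ * n * ⟨g, hg⟩⁻¹ := Subtype.ext hn
      rw [h1]
      exact hcf n ⟨g, hg⟩
    · intro h
      by_contra hg
      rw [mem_twBase] at hg
      obtain ⟨a, ha⟩ := hμ g.right hg
      have h1 := h ⟨SemidirectProduct.inl (1, a), inl_mem_twBase α _⟩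
        ⟨SemidirectProduct.inl (g.left * twAct (H₀ := H₀) α g.right (1, a) * g.left⁻¹),
          inl_mem_twBase α _⟩ (tw_conj_inl α g (1, a)).symm
      have h2 : twPsi' χ₀ μ (g.left * twAct (H₀ := H₀) α g.right (1, a) * g.left⁻¹) =
          twPsi' χ₀ μ ((1 : Q → H₀), a) := h1
      rw [twPsi'_conj hcf₀, twPsi'_act] at h2
      have h3 : twPsi' χ₀ μ ((1 : Q → H₀), a) =
          (∏ x : Q, χ₀ ((1 : Q → H₀) x)) * ((μ a : ℂˣ) : ℂ) := rfl
      rw [h3] at h2
      have h4 : (∏ x : Q, χ₀ ((1 : Q → H₀) x)) ≠ 0 := by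
        apply Finset.prod_ne_zero_iff.mpr
        intro x _
        exact hχ₀1
      exact ha (Units.ext (mul_left_cancel₀ h4 h2))
  have h := indFun_irr_of_ext (twBase (H₀ := H₀) α) ⟨twPsi α χ₀ μ, hirr⟩ (twBase (H₀ := H₀) α) hI
    le_rfl ⟨twPsi α χ₀ μ, hirr⟩ (fun n => rfl)
  refine ⟨h.1, ?_⟩
  rw [h.2.1, twBase_index]
  congr 1
  -- the degree of twPsi
  unfold Cfsg.charDegree
  have h5 : twPsi α χ₀ μ 1 = ((Cfsg.charDegree χ₀ ^ Nat.card Q : ℕ) : ℂ) := by
    show (∏ x : Q, χ₀ ((1 : Q → H₀) x)) * ((μ (1 : A) : ℂˣ) : ℂ) = _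
    rw [map_one, Units.val_one, mul_one]
    have h6 : ∀ x : Q, χ₀ ((1 : Q → H₀) x) = (Cfsg.charDegree χ₀ : ℂ) := fun x =>
      Helper80.char_one_eq_charDegree (isCharacter_of_irr hχ₀)
    rw [Finset.prod_congr rfl (fun x _ => h6 x), Finset.prod_const, Finset.card_univ,
      Nat.card_eq_fintype_card]
    push_cast
    rfl
  show ⌊(twPsi α χ₀ μ 1).re⌋₊ = _
  rw [h5, Complex.natCast_re, Nat.floor_natCast]
  rfl

/-- the values of the induced character on base elements with `Q`-fixed `A`-component -/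
theorem twChi_inl {χ₀ : H₀ → ℂ} (hcf₀ : Cfsg.IsClassFunction H₀ χ₀) (μ : A →* ℂˣ)
    (f : Q → H₀) (a : A) (ha : ∀ q, α q a = a) :
    Cfsg.indFun (twBase α) (twPsi α χ₀ μ) (SemidirectProduct.inl (f, a) : TwGrp H₀ α) =
      (Nat.card Q : ℂ) * ((∏ x, χ₀ (f x)) * ((μ a : ℂˣ) : ℂ)) := by
  classical
  have h1 := Helper25.indFun_apply_coe (twBase (H₀ := H₀) α) (twPsi α χ₀ μ)
    ⟨SemidirectProduct.inl (f, a), inl_mem_twBase α _⟩
  have h2 : ∀ x : TwGrp H₀ α, Helper25.cj (twBase (H₀ := H₀) α) (twPsi α χ₀ μ) x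
      ⟨SemidirectProduct.inl (f, a), inl_mem_twBase α _⟩ =
        (∏ y, χ₀ (f y)) * ((μ a : ℂˣ) : ℂ) := by
    intro x
    show twPsi' χ₀ μ (x * SemidirectProduct.inl (f, a) * x⁻¹).left = _
    rw [tw_conj_inl, SemidirectProduct.left_inl, twPsi'_conj hcf₀, twPsi'_act, ha]
  rw [Finset.sum_congr rfl (fun x _ => h2 x), Finset.sum_const, Finset.card_univ,
    nsmul_eq_mul] at h1
  have h3 : (SemidirectProduct.inl (f, a) : TwGrp H₀ α) =
      ((⟨SemidirectProduct.inl (f, a), inl_mem_twBase α _⟩ : ↥(twBase (H₀ := H₀) α)) :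
        TwGrp H₀ α) := rfl
  rw [h3, h1]
  have h4 : (Fintype.card (TwGrp H₀ α) : ℂ) =
      (Nat.card ↥(twBase (H₀ := H₀) α) : ℂ) * (Nat.card Q : ℂ) := by
    rw [← Nat.card_eq_fintype_card, ← Subgroup.card_mul_index (twBase (H₀ := H₀) α),
      twBase_index]
    push_cast
    rfl
  have h5 : (Nat.card ↥(twBase (H₀ := H₀) α) : ℂ) ≠ 0 := Nat.cast_ne_zero.mpr Nat.card_pos.ne'
  rw [h4]
  field_simp

end Ind

end Cfsg.Agent.Lib.Helper81
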