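import Mathlib
import Cfsg.Agent.Lib.Helper81.CType2

/-!
# The step of Gagola's construction

`ct_step`: from a group `H₀` of central type and a twist datum for a group `Q` of prime order we
get a group `H` of central type whose central quotient contains the wreath product of
`H₀ / Z(H₀)` with `Q`.
-/

set_option autoImplicit false
set_option linter.unusedSectionVars false
set_option linter.style.haveILetI false

namespace Cfsg.Agent.Lib.Helper81

open scoped ComplexConjugate
open Cfsg.Agent.Lib.Helper3 (isCharacter_of_irr isClassFunction_of_isCharacter)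

universe u

section WrMap

variable {M M' Q : Type u} [Group M] [Group M'] [Group Q]

/-- functoriality of the wreath product in the base -/
def wrMap (φ : M →* M') : Wr81 M Q →* Wr81 M' Q :=
  SemidirectProduct.map (MonoidHom.compLeft φ Q) (MonoidHom.id Q) (by
    intro q
    rfl)

theorem wrMap_left (φ : M →* M') (w : Wr81 M Q) (x : Q) :
    (wrMap φ w).left x = φ (w.left x) := rfl

theorem wrMap_right (φ : M →* M') (w : Wr81 M Q) : (wrMap φ w).right = w.right := rfl

theorem wrMap_surjective (φ : M →* M') (hφ : Function.Surjective φ) :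
    Function.Surjective (wrMap (Q := Q) φ) := by
  intro y
  refine ⟨⟨fun x => Function.surjInv hφ (y.left x), y.right⟩, ?_⟩
  apply SemidirectProduct.ext
  · funext x
    exact Function.surjInv_eq hφ (y.left x)
  · rfl

theorem wrMap_eq_one_iff (φ : M →* M') (w : Wr81 M Q) :
    wrMap φ w = 1 ↔ w.right = 1 ∧ ∀ x, φ (w.left x) = 1 := by
  constructor
  · intro h
    refine ⟨?_, fun x => ?_⟩
    · have := congrArg SemidirectProduct.right h
      exact this
    · have := congrArg SemidirectProduct.left h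
      exact congrFun this x
  · rintro ⟨h1, h2⟩
    apply SemidirectProduct.ext
    · funext x
      exact h2 x
    · exact h1

end WrMap

section TwW

variable {H₀ Q : Type u} [Group H₀] [Group Q] {A : Type} [CommGroup A] (α : Q →* MulAut A)

/-- the embedding of the wreath product in the twisted wreath product -/
def twIncl : Wr81 H₀ Q →* TwGrp H₀ α :=
  SemidirectProduct.map (MonoidHom.inl (Q → H₀) A) (MonoidHom.id Q) (by
    intro q
    apply MonoidHom.ext
    intro f
    show ((mulAutArrow (G := Q) (M := H₀) (A := Q) q) f, (1 : A)) =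
      ((mulAutArrow (G := Q) (M := H₀) (A := Q) q) f, α q 1)
    rw [map_one])

theorem twIncl_left (w : Wr81 H₀ Q) : (twIncl α w).left = (w.left, 1) := rfl

theorem twIncl_right (w : Wr81 H₀ Q) : (twIncl α w).right = w.right := rfl

/-- the subgroup which becomes the centre -/
def twW (A₀ : Subgroup A) : Subgroup (TwGrp H₀ α) where
  carrier := {g | g.right = 1 ∧ (∀ x, g.left.1 x ∈ Subgroup.center H₀) ∧ g.left.2 ∈ A₀}
  one_mem' := ⟨rfl, fun x => Subgroup.one_mem _, A₀.one_mem⟩
  mul_mem' := by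
    rintro g h ⟨hg1, hg2, hg3⟩ ⟨hh1, hh2, hh3⟩
    have hl : (g * h).left = g.left * h.left := by
      rw [SemidirectProduct.mul_left, hg1, map_one]
      rfl
    refine ⟨by rw [SemidirectProduct.mul_right, hg1, hh1, mul_one], fun x => ?_, ?_⟩
    · rw [hl]
      exact Subgroup.mul_mem _ (hg2 x) (hh2 x)
    · rw [hl]
      exact A₀.mul_mem hg3 hh3
  inv_mem' := by
    rintro g ⟨hg1, hg2, hg3⟩
    have hl : (g⁻¹).left = g.left⁻¹ := by
      rw [SemidirectProduct.inv_left, hg1, inv_one, map_one]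
      rfl
    refine ⟨by rw [SemidirectProduct.inv_right, hg1, inv_one], fun x => ?_, ?_⟩
    · rw [hl]
      exact Subgroup.inv_mem _ (hg2 x)
    · rw [hl]
      exact A₀.inv_mem hg3

theorem mem_twW (A₀ : Subgroup A) (g : TwGrp H₀ α) :
    g ∈ twW (H₀ := H₀) α A₀ ↔
      g.right = 1 ∧ (∀ x, g.left.1 x ∈ Subgroup.center H₀) ∧ g.left.2 ∈ A₀ := Iff.rfl

/-- the underlying set of `twW` -/
def twWEquiv (A₀ : Subgroup A) :
    ↥(twW (H₀ := H₀) α A₀) ≃ (Q → ↥(Subgroup.center H₀)) × ↥A₀ where
  toFun w := (fun x => ⟨w.1.left.1 x, w.2.2.1 x⟩, ⟨w.1.left.2, w.2.2.2⟩)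
  invFun p := ⟨SemidirectProduct.inl (fun x => (p.1 x : H₀), (p.2 : A)),
    ⟨rfl, fun x => (p.1 x).2, p.2.2⟩⟩
  left_inv w := by
    apply Subtype.ext
    apply SemidirectProduct.ext
    · rfl
    · exact w.2.1.symm
  right_inv p := rfl

theorem card_twW [Finite Q] (A₀ : Subgroup A) :
    Nat.card ↥(twW (H₀ := H₀) α A₀) =
      Nat.card ↥(Subgroup.center H₀) ^ Nat.card Q * Nat.card ↥A₀ := by
  rw [Nat.card_congr (twWEquiv α A₀), Nat.card_prod, Nat.card_fun]

theorem card_twGrp [Finite Q] :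
    Nat.card (TwGrp H₀ α) = Nat.card H₀ ^ Nat.card Q * Nat.card A * Nat.card Q := by
  rw [SemidirectProduct.card, Nat.card_prod, Nat.card_fun]

end TwW

section Step

variable {H₀ Q : Type u} [Group H₀] [Group Q] [Finite H₀] [Finite Q] {A : Type} [CommGroup A]
  [Finite A]

/-- the irreducible character of the twisted wreath product -/
theorem tw_exists_char (α : Q →* MulAut A) (μ : A →* ℂˣ)
    (hμ : ∀ q : Q, q ≠ 1 → ∃ a : A, μ (α q a) ≠ μ a) (χ₀ : Cfsg.IrrCharacter H₀) :
    ∃ χ : Cfsg.IrrCharacter (TwGrp H₀ α),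
      (∀ (f : Q → H₀) (a : A), (∀ q, α q a = a) →
        (χ : TwGrp H₀ α → ℂ) (SemidirectProduct.inl (f, a)) =
          (Nat.card Q : ℂ) * ((∏ᶠ x, (χ₀ : H₀ → ℂ) (f x)) * ((μ a : ℂˣ) : ℂ))) ∧
      Cfsg.charDegree (χ : TwGrp H₀ α → ℂ) =
        Cfsg.charDegree (χ₀ : H₀ → ℂ) ^ Nat.card Q * Nat.card Q := by
  classical
  haveI : Fintype H₀ := Fintype.ofFinite _
  haveI : Fintype Q := Fintype.ofFinite _
  haveI : Fintype A := Fintype.ofFinite _
  haveI : Finite (TwGrp H₀ α) := Finite.of_equiv _ SemidirectProduct.equivProd.symm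
  haveI : Fintype (TwGrp H₀ α) := Fintype.ofFinite _
  obtain ⟨hirr, hdeg⟩ := twChi_irr α χ₀.2 μ hμ
  have hcf₀ := isClassFunction_of_isCharacter (isCharacter_of_irr χ₀.2)
  refine ⟨⟨Cfsg.indFun (twBase α) (twPsi α (χ₀ : H₀ → ℂ) μ), hirr⟩, ?_, hdeg⟩
  intro f a ha
  rw [finprod_eq_prod_of_fintype]
  exact twChi_inl α hcf₀ μ f a ha

end Step

end Cfsg.Agent.Lib.Helper81
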