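import Mathlib
import Cfsg.Agent.Lib.Helper80.OneDegree
import Cfsg.Agent.Lib.Helper81.CType1
import Cfsg.Agent.Lib.Helper81.CType3

/-!
# The step of Gagola's construction, II

`ct_step`: from a group `H₀` of central type and a twist datum for a group `Q` of prime order we
get a group `H` of central type whose central quotient contains the wreath product of
`H₀ / Z(H₀)` with `Q`.
-/

set_option autoImplicit false
set_option linter.unusedSectionVars false
set_option linter.style.haveILetI false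

namespace Cfsg.Agent.Lib.Helper81

universe u

section Step2

variable {H₀ Q : Type u} [Group H₀] [Group Q] [Finite H₀] [Finite Q] {A : Type} [CommGroup A]
  [Finite A]

theorem tw_inl_pow (α : Q →* MulAut A) (b : (Q → H₀) × A) (n : ℕ) :
    (SemidirectProduct.inl b : TwGrp H₀ α) ^ n = SemidirectProduct.inl (b ^ n) := by
  rw [map_pow]

theorem tw_eq_inl_of_right (α : Q →* MulAut A) (w : TwGrp H₀ α) (hw : w.right = 1) :
    w = SemidirectProduct.inl (w.left.1, w.left.2) := by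
  apply SemidirectProduct.ext
  · rfl
  · exact hw

set_option maxHeartbeats 1000000 in
/-- the inductive step of Gagola's construction -/
theorem ct_step (α : Q →* MulAut A) (μ : A →* ℂˣ) (A₀ : Subgroup A)
    (hQ : (Nat.card Q).Prime)
    (hμ : ∀ q : Q, q ≠ 1 → ∃ a : A, μ (α q a) ≠ μ a)
    (hfix : ∀ a ∈ A₀, ∀ q, α q a = a)
    (hidx : A₀.index = Nat.card Q)
    (hexp : ∀ a ∈ A₀, a ^ Nat.card Q = 1)
    (ha₀ : ∃ a ∈ A₀, μ a ≠ 1)
    (χ₀ : Cfsg.IrrCharacter H₀)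
    (hf₀ : ∀ h, (χ₀ : H₀ → ℂ) h = (χ₀ : H₀ → ℂ) 1 → h = 1)
    (hc₀ : Cfsg.charDegree (χ₀ : H₀ → ℂ) ^ 2 = (Subgroup.center H₀).index) :
    ∃ (H : Type u) (_ : Group H) (_ : Finite H) (χ : Cfsg.IrrCharacter H),
      (∀ h, (χ : H → ℂ) h = (χ : H → ℂ) 1 → h = 1) ∧
      Cfsg.charDegree (χ : H → ℂ) ^ 2 = (Subgroup.center H).index ∧
      (∃ Φ : Wr81 (H₀ ⧸ Subgroup.center H₀) Q →* H ⧸ Subgroup.center H, Function.Injective Φ) ∧
      Nat.card H ∣ Nat.card H₀ ^ Nat.card Q * Nat.card A * Nat.card Q ∧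
      Nat.card (Subgroup.center H₀) ∣ Nat.card (Subgroup.center H) ∧
      Nat.card Q ∣ Nat.card (Subgroup.center H) ∧
      Nat.card (Subgroup.center H) ∣ Nat.lcm (Nat.card (Subgroup.center H₀)) (Nat.card Q) := by
  classical
  haveI : Fintype Q := Fintype.ofFinite _
  haveI : Finite (TwGrp H₀ α) := Finite.of_equiv _ SemidirectProduct.equivProd.symm
  obtain ⟨χ, hval, hdeg⟩ := tw_exists_char α μ hμ χ₀
  have hq0 : (Nat.card Q : ℂ) ≠ 0 := by exact_mod_cast hQ.pos.ne'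
  have hχ₀1 : (χ₀ : H₀ → ℂ) 1 ≠ 0 := Helper80.char_one_ne_zero χ₀.2
  have hval' : ∀ (f : Q → H₀) (a : A), (∀ q, α q a = a) →
      (χ : TwGrp H₀ α → ℂ) (SemidirectProduct.inl (f, a)) =
        (Nat.card Q : ℂ) * ((∏ x, (χ₀ : H₀ → ℂ) (f x)) * ((μ a : ℂˣ) : ℂ)) := by
    intro f a ha
    rw [hval f a ha, finprod_eq_prod_of_fintype]
  have hone : (χ : TwGrp H₀ α → ℂ) 1 = (Nat.card Q : ℂ) * (χ₀ : H₀ → ℂ) 1 ^ Nat.card Q := by
    have h := hval' 1 1 (fun q => map_one _)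
    rw [show (SemidirectProduct.inl ((1 : Q → H₀), (1 : A)) : TwGrp H₀ α) = 1 from map_one _] at h
    rw [h, map_one, Units.val_one, mul_one]
    simp [Nat.card_eq_fintype_card]
  have hμnorm : ∀ a : A, ‖((μ a : ℂˣ) : ℂ)‖ = 1 := by
    intro a
    have : ((μ a : ℂˣ) : ℂ) ^ orderOf a = 1 := by
      rw [← Units.val_pow_eq_pow_val, ← map_pow, pow_orderOf_eq_one, map_one, Units.val_one]
    exact Complex.norm_eq_one_of_pow_eq_one this (orderOf_pos _).ne'
  have hWnorm : ∀ w ∈ twW (H₀ := H₀) α A₀,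
      ‖(χ : TwGrp H₀ α → ℂ) w‖ = ‖(χ : TwGrp H₀ α → ℂ) 1‖ := by
    intro w hw
    obtain ⟨hw1, hw2, hw3⟩ := hw
    rw [tw_eq_inl_of_right α w hw1, hval' _ _ (hfix _ hw3), hone, norm_mul, norm_mul, norm_mul,
      norm_prod, norm_pow]
    have h1 : ∀ x ∈ Finset.univ, ‖(χ₀ : H₀ → ℂ) (w.left.1 x)‖ = ‖(χ₀ : H₀ → ℂ) 1‖ :=
      fun x _ => Helper80.norm_char_central χ₀.2 (hw2 x)
    rw [Finset.prod_congr rfl h1, Finset.prod_const, Finset.card_univ, ← Nat.card_eq_fintype_card,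
      hμnorm, mul_one]
  have hcard : Cfsg.charDegree (χ : TwGrp H₀ α → ℂ) ^ 2 * Nat.card (twW (H₀ := H₀) α A₀) =
      Nat.card (TwGrp H₀ α) := by
    rw [hdeg, card_twW, card_twGrp]
    have h1 : (Subgroup.center H₀).index * Nat.card (Subgroup.center H₀) = Nat.card H₀ :=
      Subgroup.index_mul_card _
    have h2 : A₀.index * Nat.card A₀ = Nat.card A := Subgroup.index_mul_card _
    rw [← h1, ← h2, ← hc₀, hidx]
    ring
  obtain ⟨hcm, χ', hχ', hfaith, hct⟩ :=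
    central_type_quotient χ (twW (H₀ := H₀) α A₀) hWnorm hcard
  -- membership of the centre
  have hcen : ∀ w : TwGrp H₀ α, w ∈ twW (H₀ := H₀) α A₀ →
      ((w : TwGrp H₀ α ⧸ Helper80.irrKer χ)) ∈ Subgroup.center (TwGrp H₀ α ⧸ Helper80.irrKer χ) := by
    intro w hw
    rw [← hcm] at hw
    exact hw
  have hcen' : ∀ w : TwGrp H₀ α,
      ((w : TwGrp H₀ α ⧸ Helper80.irrKer χ)) ∈ Subgroup.center (TwGrp H₀ α ⧸ Helper80.irrKer χ) →
      w ∈ twW (H₀ := H₀) α A₀ := by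
    intro w hw
    rw [← hcm]
    exact hw
  have hker : ∀ w : TwGrp H₀ α, ((w : TwGrp H₀ α ⧸ Helper80.irrKer χ)) = 1 ↔
      (χ : TwGrp H₀ α → ℂ) w = (χ : TwGrp H₀ α → ℂ) 1 := by
    intro w
    rw [QuotientGroup.eq_one_iff, Helper80.mem_irrKer]
  refine ⟨TwGrp H₀ α ⧸ Helper80.irrKer χ, inferInstance, inferInstance, χ', hfaith, hct,
    ?_, ?_, ?_, ?_, ?_⟩
  · -- the embedding
    let ρ : Wr81 H₀ Q →* Wr81 (H₀ ⧸ Subgroup.center H₀) Q :=
      wrMap (QuotientGroup.mk' (Subgroup.center H₀))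
    have hρ : Function.Surjective ρ := wrMap_surjective _ (QuotientGroup.mk'_surjective _)
    let Ψ : Wr81 H₀ Q →* (TwGrp H₀ α ⧸ Helper80.irrKer χ) ⧸
        Subgroup.center (TwGrp H₀ α ⧸ Helper80.irrKer χ) :=
      (QuotientGroup.mk' _).comp ((QuotientGroup.mk' (Helper80.irrKer χ)).comp (twIncl α))
    have hiff : ∀ w, Ψ w = 1 ↔ ρ w = 1 := by
      intro w
      have h1 : Ψ w = 1 ↔ twIncl α w ∈ twW (H₀ := H₀) α A₀ := by
        constructor
        · intro h
          exact hcen' _ ((QuotientGroup.eq_one_iff _).mp h)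
        · intro h
          exact (QuotientGroup.eq_one_iff _).mpr (hcen _ h)
      rw [h1, mem_twW, wrMap_eq_one_iff, twIncl_right, twIncl_left]
      constructor
      · rintro ⟨h1, h2, -⟩
        exact ⟨h1, fun x => (QuotientGroup.eq_one_iff _).mpr (h2 x)⟩
      · rintro ⟨h1, h2⟩
        exact ⟨h1, fun x => (QuotientGroup.eq_one_iff _).mp (h2 x), A₀.one_mem⟩
    refine ⟨ρ.liftOfSurjective hρ ⟨Ψ, ?_⟩, ?_⟩
    · intro w hw
      rw [MonoidHom.mem_ker] at hw ⊢
      exact (hiff w).mpr hw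
    · rw [injective_iff_map_eq_one]
      intro y hy
      obtain ⟨w, rfl⟩ := hρ y
      rw [MonoidHom.liftOfRightInverse_comp_apply] at hy
      exact (hiff w).mp hy
  · -- order of `H`
    rw [← card_twGrp (H₀ := H₀) α]
    exact Subgroup.card_quotient_dvd_card _
  · -- `Z(H₀)` embeds in `Z(H)`
    let j₀ : H₀ →* TwGrp H₀ α ⧸ Helper80.irrKer χ :=
      (QuotientGroup.mk' (Helper80.irrKer χ)).comp
        ((SemidirectProduct.inl : (Q → H₀) × A →* TwGrp H₀ α).comp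
          ((MonoidHom.inl (Q → H₀) A).comp (MonoidHom.mulSingle (fun _ : Q => H₀) 1)))
    have hj₀ : ∀ z : H₀, j₀ z =
        ((SemidirectProduct.inl (Pi.mulSingle 1 z, 1) : TwGrp H₀ α) :
          TwGrp H₀ α ⧸ Helper80.irrKer χ) := fun z => rfl
    have hj₀c : ∀ z : Subgroup.center H₀,
        j₀ (z : H₀) ∈ Subgroup.center (TwGrp H₀ α ⧸ Helper80.irrKer χ) := by
      intro z
      rw [hj₀]
      apply hcen
      refine ⟨rfl, fun x => ?_, A₀.one_mem⟩
      show (Pi.mulSingle (1 : Q) (z : H₀) : Q → H₀) x ∈ Subgroup.center H₀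
      by_cases hx : x = 1
      · rw [hx, Pi.mulSingle_eq_same]
        exact z.2
      · rw [Pi.mulSingle_eq_of_ne hx]
        exact Subgroup.one_mem _
    let j : Subgroup.center H₀ →* Subgroup.center (TwGrp H₀ α ⧸ Helper80.irrKer χ) :=
      (j₀.comp (Subgroup.center H₀).subtype).codRestrict _ hj₀c
    apply Subgroup.card_dvd_of_injective j
    rw [injective_iff_map_eq_one]
    intro z hz
    have hz1 : j₀ (z : H₀) = 1 := congrArg Subtype.val hz
    rw [hj₀, hker, hval' _ _ (fun q => map_one _), hone, map_one, Units.val_one, mul_one] at hz1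
    have h2 : ∏ x : Q, (χ₀ : H₀ → ℂ) ((Pi.mulSingle (1 : Q) (z : H₀) : Q → H₀) x) =
        (χ₀ : H₀ → ℂ) (z : H₀) * (χ₀ : H₀ → ℂ) 1 ^ (Nat.card Q - 1) := by
      rw [Fintype.prod_eq_mul_prod_compl (1 : Q), Pi.mulSingle_eq_same]
      congr 1
      have h3 : ∀ x ∈ ({1}ᶜ : Finset Q),
          (χ₀ : H₀ → ℂ) ((Pi.mulSingle (1 : Q) (z : H₀) : Q → H₀) x) = (χ₀ : H₀ → ℂ) 1 := by
        intro x hx
        rw [Pi.mulSingle_eq_of_ne (by simpa using hx)]
      rw [Finset.prod_congr rfl h3, Finset.prod_const, Finset.card_compl, Finset.card_singleton,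
        Nat.card_eq_fintype_card]
    rw [h2] at hz1
    have h4 : (χ₀ : H₀ → ℂ) 1 ^ Nat.card Q =
        (χ₀ : H₀ → ℂ) 1 * (χ₀ : H₀ → ℂ) 1 ^ (Nat.card Q - 1) := by
      rw [← pow_succ', Nat.sub_add_cancel hQ.pos]
    rw [h4] at hz1
    have h5 := mul_left_cancel₀ hq0 hz1
    have h6 := mul_right_cancel₀ (pow_ne_zero _ hχ₀1) h5
    exact Subtype.ext (hf₀ _ h6)
  · -- `|Q|` divides `|Z(H)|`
    obtain ⟨a₀, ha₀m, ha₀⟩ := ha₀
    set c : TwGrp H₀ α ⧸ Helper80.irrKer χ :=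
      ((SemidirectProduct.inl ((1 : Q → H₀), a₀) : TwGrp H₀ α) :
        TwGrp H₀ α ⧸ Helper80.irrKer χ) with hc
    have hcc : c ∈ Subgroup.center (TwGrp H₀ α ⧸ Helper80.irrKer χ) :=
      hcen _ ⟨rfl, fun x => Subgroup.one_mem _, ha₀m⟩
    have hc1 : c ≠ 1 := by
      intro h
      rw [hc, hker, hval' _ _ (hfix _ ha₀m), hone] at h
      have h2 : ∏ x : Q, (χ₀ : H₀ → ℂ) ((1 : Q → H₀) x) = (χ₀ : H₀ → ℂ) 1 ^ Nat.card Q := by
        simp [Nat.card_eq_fintype_card]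
      rw [h2] at h
      have h3 := mul_left_cancel₀ hq0 h
      have h4 : ((μ a₀ : ℂˣ) : ℂ) = 1 := by
        have h5 : (χ₀ : H₀ → ℂ) 1 ^ Nat.card Q * ((μ a₀ : ℂˣ) : ℂ) =
            (χ₀ : H₀ → ℂ) 1 ^ Nat.card Q * 1 := by rw [h3, mul_one]
        exact mul_left_cancel₀ (pow_ne_zero _ hχ₀1) h5
      exact ha₀ (Units.ext h4)
    have hcq : c ^ Nat.card Q = 1 := by
      rw [hc, ← QuotientGroup.mk_pow, tw_inl_pow]
      have : (((1 : Q → H₀), a₀) : (Q → H₀) × A) ^ Nat.card Q = 1 := by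
        rw [Prod.pow_mk, one_pow, hexp a₀ ha₀m]
        rfl
      rw [this, map_one]
      rfl
    have hord : orderOf c = Nat.card Q := by
      have h1 := orderOf_dvd_of_pow_eq_one hcq
      rcases (Nat.dvd_prime hQ).mp h1 with h | h
      · exact absurd (orderOf_eq_one_iff.mp h) hc1
      · exact h
    have h1 : Subgroup.zpowers c ≤ Subgroup.center (TwGrp H₀ α ⧸ Helper80.irrKer χ) := by
      rw [Subgroup.zpowers_le]
      exact hcc
    have h2 := Subgroup.card_dvd_of_le h1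
    rw [Nat.card_zpowers, hord] at h2
    exact h2
  · -- `|Z(H)|` divides the lcm
    have hbot : Helper80.irrKer χ' = ⊥ := by
      rw [eq_bot_iff]
      intro x hx
      rw [Helper80.mem_irrKer] at hx
      exact hfaith x hx
    haveI := Helper80.isCyclic_center_of_faithful χ' hbot
    obtain ⟨g, hg⟩ := IsCyclic.exists_generator
      (α := Subgroup.center (TwGrp H₀ α ⧸ Helper80.irrKer χ))
    rw [← orderOf_eq_card_of_forall_mem_zpowers hg]
    apply orderOf_dvd_of_pow_eq_one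
    apply Subtype.ext
    rw [Subgroup.coe_pow]
    obtain ⟨w, hw⟩ := QuotientGroup.mk_surjective (g : TwGrp H₀ α ⧸ Helper80.irrKer χ)
    have hwW : w ∈ twW (H₀ := H₀) α A₀ := by
      apply hcen'
      rw [hw]
      exact g.2
    obtain ⟨hw1, hw2, hw3⟩ := hwW
    rw [← hw, ← QuotientGroup.mk_pow, tw_eq_inl_of_right α w hw1, tw_inl_pow]
    have : ((w.left.1, w.left.2) : (Q → H₀) × A) ^
        Nat.lcm (Nat.card (Subgroup.center H₀)) (Nat.card Q) = 1 := by
      rw [Prod.pow_mk]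
      have h1 : w.left.1 ^ Nat.lcm (Nat.card (Subgroup.center H₀)) (Nat.card Q) = 1 := by
        funext x
        rw [Pi.pow_apply, Pi.one_apply]
        obtain ⟨k, hk⟩ := Nat.dvd_lcm_left (Nat.card (Subgroup.center H₀)) (Nat.card Q)
        rw [hk, pow_mul]
        have h2 : (⟨w.left.1 x, hw2 x⟩ : Subgroup.center H₀) ^ Nat.card (Subgroup.center H₀) = 1 :=
          pow_card_eq_one'
        have h3 := congrArg Subtype.val h2
        rw [Subgroup.coe_pow] at h3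
        rw [h3, Subgroup.coe_one, one_pow]
      have h2 : w.left.2 ^ Nat.lcm (Nat.card (Subgroup.center H₀)) (Nat.card Q) = 1 := by
        obtain ⟨k, hk⟩ := Nat.dvd_lcm_right (Nat.card (Subgroup.center H₀)) (Nat.card Q)
        rw [hk, pow_mul, hexp _ hw3, one_pow]
      rw [h1, h2]
      rfl
    rw [this, map_one]
    rfl

end Step2

end Cfsg.Agent.Lib.Helper81
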