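import Mathlib

/-!
# A twist datum for a group of prime order

For a group `Q` of prime order `n` we take `A = (ℤ/n)²`, on which `Q ≅ ℤ/n` acts by shears, the
character `μ (j, k) = ζ^k` and the subgroup `A₀ = {(0, k)}`.
-/

set_option autoImplicit false
set_option linter.unusedSectionVars false
set_option linter.style.haveILetI false

namespace Cfsg.Agent.Lib.Helper81

universe u

/-- the shear `(j, k) ↦ (j, k + c j)` -/
def zShear (n : ℕ) (c : ZMod n) : (ZMod n × ZMod n) ≃+ (ZMod n × ZMod n) where
  toFun v := (v.1, v.2 + c * v.1)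
  invFun v := (v.1, v.2 - c * v.1)
  left_inv v := by
    ext
    · rfl
    · show v.2 + c * v.1 - c * v.1 = v.2
      ring
  right_inv v := by
    ext
    · rfl
    · show v.2 - c * v.1 + c * v.1 = v.2
      ring
  map_add' v w := by
    ext
    · rfl
    · show (v.2 + w.2) + c * (v.1 + w.1) = (v.2 + c * v.1) + (w.2 + c * w.1)
      ring

/-- the shear action -/
def zShearHom (n : ℕ) : Multiplicative (ZMod n) →* MulAut (Multiplicative (ZMod n × ZMod n)) where
  toFun c := AddEquiv.toMultiplicative (zShear n (Multiplicative.toAdd c))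
  map_one' := by
    apply MulEquiv.ext
    intro v
    apply Multiplicative.toAdd.injective
    show ((Multiplicative.toAdd v).1, (Multiplicative.toAdd v).2 + (0 : ZMod n) * (Multiplicative.toAdd v).1) = Multiplicative.toAdd v
    ext
    · rfl
    · show (Multiplicative.toAdd v).2 + (0 : ZMod n) * (Multiplicative.toAdd v).1 = _
      ring
  map_mul' c d := by
    apply MulEquiv.ext
    intro v
    apply Multiplicative.toAdd.injective
    show ((Multiplicative.toAdd v).1, (Multiplicative.toAdd v).2 +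
      (Multiplicative.toAdd c + Multiplicative.toAdd d) * (Multiplicative.toAdd v).1) =
      ((Multiplicative.toAdd v).1, ((Multiplicative.toAdd v).2 +
        Multiplicative.toAdd d * (Multiplicative.toAdd v).1) +
        Multiplicative.toAdd c * (Multiplicative.toAdd v).1)
    ext
    · rfl
    · show (Multiplicative.toAdd v).2 +
        (Multiplicative.toAdd c + Multiplicative.toAdd d) * (Multiplicative.toAdd v).1 =
        ((Multiplicative.toAdd v).2 +
        Multiplicative.toAdd d * (Multiplicative.toAdd v).1) +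
        Multiplicative.toAdd c * (Multiplicative.toAdd v).1
      ring

theorem zShearHom_apply (n : ℕ) (c : Multiplicative (ZMod n)) (v : ZMod n × ZMod n) :
    zShearHom n c (Multiplicative.ofAdd v) =
      Multiplicative.ofAdd (v.1, v.2 + Multiplicative.toAdd c * v.1) := rfl

/-- the character `(j, k) ↦ ζ^k` -/
noncomputable def zMu (n : ℕ) [NeZero n] : Multiplicative (ZMod n × ZMod n) →* ℂˣ :=
  ((AddChar.toMonoidHom (ZMod.stdAddChar (N := n))).comp
    (AddMonoidHom.toMultiplicative (AddMonoidHom.snd (ZMod n) (ZMod n)))).toHomUnits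

theorem zMu_apply (n : ℕ) [NeZero n] (v : ZMod n × ZMod n) :
    ((zMu n (Multiplicative.ofAdd v) : ℂˣ) : ℂ) = ZMod.stdAddChar (N := n) v.2 := rfl

theorem zMu_eq_iff (n : ℕ) [NeZero n] (v w : ZMod n × ZMod n) :
    zMu n (Multiplicative.ofAdd v) = zMu n (Multiplicative.ofAdd w) ↔ v.2 = w.2 := by
  constructor
  · intro h
    have h1 := congrArg (fun x : ℂˣ => (x : ℂ)) h
    simp only [zMu_apply] at h1
    exact ZMod.injective_stdAddChar h1
  · intro h
    apply Units.ext
    rw [zMu_apply, zMu_apply, h]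

/-- the first coordinate -/
def zFst (n : ℕ) : Multiplicative (ZMod n × ZMod n) →* Multiplicative (ZMod n) :=
  AddMonoidHom.toMultiplicative (AddMonoidHom.fst (ZMod n) (ZMod n))

theorem zFst_apply (n : ℕ) (v : ZMod n × ZMod n) :
    zFst n (Multiplicative.ofAdd v) = Multiplicative.ofAdd v.1 := rfl

theorem card_mult_zmod (n : ℕ) : Nat.card (Multiplicative (ZMod n)) = n := by
  rw [Nat.card_congr Multiplicative.toAdd, Nat.card_zmod]

/-- the twist datum -/
theorem exists_twist (Q : Type u) [Group Q] [Finite Q] (hQ : (Nat.card Q).Prime) :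
    ∃ (A : Type) (_ : CommGroup A) (_ : Finite A) (α : Q →* MulAut A) (μ : A →* ℂˣ)
      (A₀ : Subgroup A),
      (∀ q : Q, q ≠ 1 → ∃ a : A, μ (α q a) ≠ μ a) ∧
      (∀ a ∈ A₀, ∀ q, α q a = a) ∧ A₀.index = Nat.card Q ∧ (∀ a ∈ A₀, a ^ Nat.card Q = 1) ∧
      (∃ a ∈ A₀, μ a ≠ 1) ∧ Nat.card A = Nat.card Q ^ 2 := by
  classical
  haveI : Fact (Nat.card Q).Prime := ⟨hQ⟩
  haveI : NeZero (Nat.card Q) := ⟨hQ.pos.ne'⟩
  have hcyc : IsCyclic Q := isCyclic_of_prime_card rfl
  let φ : Q →* Multiplicative (ZMod (Nat.card Q)) := (zmodCyclicMulEquiv hcyc).symm.toMonoidHom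
  have hφ : Function.Injective φ := (zmodCyclicMulEquiv hcyc).symm.injective
  have h10 : (1 : ZMod (Nat.card Q)) ≠ 0 := one_ne_zero
  refine ⟨Multiplicative (ZMod (Nat.card Q) × ZMod (Nat.card Q)), inferInstance, inferInstance,
    (zShearHom (Nat.card Q)).comp φ, zMu (Nat.card Q), (zFst (Nat.card Q)).ker,
    ?_, ?_, ?_, ?_, ?_, ?_⟩
  · intro q hq
    refine ⟨Multiplicative.ofAdd (1, 0), ?_⟩
    rw [MonoidHom.comp_apply, zShearHom_apply, Ne, zMu_eq_iff]
    show ¬ ((0 : ZMod (Nat.card Q)) + Multiplicative.toAdd (φ q) * 1 = 0)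
    rw [zero_add, mul_one]
    intro h
    apply hq
    apply hφ
    rw [map_one]
    exact Multiplicative.toAdd.injective h
  · intro a ha q
    rw [MonoidHom.mem_ker] at ha
    obtain ⟨v, rfl⟩ := Multiplicative.ofAdd.surjective a
    rw [zFst_apply] at ha
    have hv : v.1 = 0 := Multiplicative.ofAdd.injective ha
    rw [MonoidHom.comp_apply, zShearHom_apply, hv, mul_zero, add_zero]
    congr 1
    ext
    · exact hv.symm
    · rfl
  · rw [Subgroup.index_ker]
    have hsurj : Function.Surjective (zFst (Nat.card Q)) := by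
      intro c
      exact ⟨Multiplicative.ofAdd (Multiplicative.toAdd c, 0), rfl⟩
    rw [MonoidHom.range_eq_top.mpr hsurj, Subgroup.card_top, card_mult_zmod]
  · intro a _
    obtain ⟨v, rfl⟩ := Multiplicative.ofAdd.surjective a
    rw [← ofAdd_nsmul]
    have : Nat.card Q • v = 0 := by
      ext
      · show Nat.card Q • v.1 = 0
        rw [nsmul_eq_mul, ZMod.natCast_self, zero_mul]
      · show Nat.card Q • v.2 = 0
        rw [nsmul_eq_mul, ZMod.natCast_self, zero_mul]
    rw [this]
    rfl
  · refine ⟨Multiplicative.ofAdd (0, 1), ?_, ?_⟩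
    · rw [MonoidHom.mem_ker, zFst_apply]
      rfl
    · have h1 : (1 : ℂˣ) = zMu (Nat.card Q) (Multiplicative.ofAdd (0, 0)) := by
        rw [show (Multiplicative.ofAdd ((0 : ZMod (Nat.card Q)), (0 : ZMod (Nat.card Q))) :
          Multiplicative (ZMod (Nat.card Q) × ZMod (Nat.card Q))) = 1 from rfl, map_one]
      rw [h1, Ne, zMu_eq_iff]
      exact h10
  · rw [Nat.card_congr Multiplicative.toAdd, Nat.card_prod, Nat.card_zmod, sq]

end Cfsg.Agent.Lib.Helper81
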