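import Mathlib
import Cfsg.Agent.Lib.Helper81.CharCore
import Cfsg.Agent.Lib.Helper81.WreathM4
import Cfsg.Agent.Lib.Helper81.CType4
import Cfsg.Agent.Lib.Helper81.CType5

/-!
# Gagola: every finite solvable group embeds in `H / Z(H)` for a group `H` of central type
-/

set_option autoImplicit false
set_option linter.unusedSectionVars false
set_option linter.style.haveILetI false

namespace Cfsg.Agent.Lib.Helper81

universe u

theorem squarefree_lcm_prime {z p : ℕ} (hz : Squarefree z) (hp : p.Prime) :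
    Squarefree (Nat.lcm z p) := by
  by_cases h : p ∣ z
  · rw [Nat.lcm_eq_left h]
    exact hz
  · have hcop : Nat.Coprime z p := (Nat.Prime.coprime_iff_not_dvd hp).mpr h |>.symm
    rw [hcop.lcm_eq_mul]
    exact (Nat.squarefree_mul hcop).mpr ⟨hz, hp.squarefree⟩

theorem solvable_central_type_aux : ∀ (n : ℕ) (G : Type u) [Group G] [Finite G],
    Group.IsSolvable G → Nat.card G = n →
    ∃ (H : Type u) (_ : Group H) (_ : Finite H) (χ : Cfsg.IrrCharacter H),
      (∀ h : H, (χ : H → ℂ) h = (χ : H → ℂ) 1 → h = 1) ∧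
      (Cfsg.charDegree (χ : H → ℂ)) ^ 2 = (Subgroup.center H).index ∧
      (∃ f : G →* H ⧸ Subgroup.center H, Function.Injective f) ∧
      (∀ p : ℕ, p.Prime → ((p ∣ Nat.card H ↔ p ∣ Nat.card G) ∧
        (p ∣ Nat.card (Subgroup.center H) ↔ p ∣ Nat.card G))) ∧
      Squarefree (Nat.card (Subgroup.center H)) := by
  intro n
  induction n using Nat.strong_induction_on with
  | _ n ih =>
  intro G _ _ hsolv hn
  by_cases htriv : Subsingleton G
  · have hcG : Nat.card G = 1 := Nat.card_eq_one_iff_unique.mpr ⟨htriv, ⟨1⟩⟩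
    have hcZ : Nat.card (Subgroup.center G) = 1 :=
      Nat.card_eq_one_iff_unique.mpr ⟨inferInstance, ⟨1⟩⟩
    refine ⟨G, inferInstance, inferInstance, ⟨fun _ => (1 : ℂ), isIrrCharacter_one⟩,
      fun h _ => Subsingleton.elim _ _, ?_, ⟨QuotientGroup.mk' _, fun a b _ => Subsingleton.elim _ _⟩,
      fun p _ => ⟨Iff.rfl, by rw [hcZ, hcG]⟩, by rw [hcZ]; exact squarefree_one⟩
    have h1 : Cfsg.charDegree (fun _ : G => (1 : ℂ)) = 1 := by
      unfold Cfsg.charDegree
      simp
    have h2 : (Subgroup.center G).index = 1 := by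
      have h3 := Subgroup.index_mul_card (Subgroup.center G)
      rw [hcZ, hcG, mul_one] at h3
      exact h3
    show Cfsg.charDegree (fun _ : G => (1 : ℂ)) ^ 2 = _
    rw [h1, h2, one_pow]
  · rw [not_subsingleton_iff_nontrivial] at htriv
    obtain ⟨N, hN, hidx⟩ := exists_normal_prime_index hsolv
    have hcard : Nat.card N * Nat.card (G ⧸ N) = Nat.card G := by
      rw [← Subgroup.index_eq_card]
      exact N.card_mul_index
    have hQ : (Nat.card (G ⧸ N)).Prime := by rw [← Subgroup.index_eq_card]; exact hidx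
    have hlt : Nat.card N < n := by
      rw [← hn, ← hcard]
      have h2 := hQ.one_lt
      have hpos : 0 < Nat.card N := Nat.card_pos
      nlinarith
    haveI := hsolv
    obtain ⟨H₀, hgrp, hfin, χ₀, hf₀, hc₀, ⟨ι, hι⟩, hpr₀, hsf₀⟩ :=
      ih (Nat.card N) hlt N inferInstance rfl
    obtain ⟨A, hA, hAfin, α, μ, A₀, hμ, hfix, hAidx, hexp, ha₀, hcA⟩ := exists_twist (G ⧸ N) hQ
    obtain ⟨H, hHg, hHf, χ, hf, hc, ⟨Φ, hΦ⟩, hdvdH, hZ₀, hQZ, hZlcm⟩ :=
      ct_step α μ A₀ hQ hμ hfix hAidx hexp ha₀ χ₀ hf₀ hc₀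
    have hZH : Nat.card (Subgroup.center H) ∣ Nat.card H := Subgroup.card_subgroup_dvd_card _
    -- a prime dividing `|G|` divides `|Z(H)|`
    have hback : ∀ r : ℕ, r.Prime → r ∣ Nat.card G → r ∣ Nat.card (Subgroup.center H) := by
      intro r hr hrG
      rw [← hcard] at hrG
      rcases (Nat.Prime.dvd_mul hr).mp hrG with h | h
      · exact dvd_trans (((hpr₀ r hr).2).mpr h) hZ₀
      · exact dvd_trans h hQZ
    have hforw : ∀ r : ℕ, r.Prime → r ∣ Nat.card H → r ∣ Nat.card G := by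
      intro r hr hrH
      have h1 := dvd_trans hrH hdvdH
      rw [← hcard]
      rcases (Nat.Prime.dvd_mul hr).mp h1 with h | h
      · rcases (Nat.Prime.dvd_mul hr).mp h with h | h
        · exact dvd_mul_of_dvd_left (((hpr₀ r hr).1).mp (hr.dvd_of_dvd_pow h)) _
        · rw [hcA] at h
          exact dvd_mul_of_dvd_right (hr.dvd_of_dvd_pow h) _
      · exact dvd_mul_of_dvd_right h _
    refine ⟨H, hHg, hHf, χ, hf, hc, ⟨Φ.comp (kkHom N ι), ?_⟩, ?_, ?_⟩
    · exact hΦ.comp (kkHom_injective N ι hι)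
    · intro r hr
      exact ⟨⟨hforw r hr, fun h => dvd_trans (hback r hr h) hZH⟩,
        ⟨fun h => hforw r hr (dvd_trans h hZH), hback r hr⟩⟩
    · exact Squarefree.squarefree_of_dvd hZlcm (squarefree_lcm_prime hsf₀ hQ)

/-- **Gagola**: every finite solvable group embeds in `H / Z(H)` for a group `H` of central type
with the same prime divisors and squarefree centre. -/
theorem solvable_central_type {G : Type u} [Group G] [Finite G] (hsolv : Group.IsSolvable G) :
    ∃ (H : Type u) (_ : Group H) (_ : Finite H) (χ : Cfsg.IrrCharacter H),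
      (∀ h : H, (χ : H → ℂ) h = (χ : H → ℂ) 1 → h = 1) ∧
      (Cfsg.charDegree (χ : H → ℂ)) ^ 2 = (Subgroup.center H).index ∧
      (∃ f : G →* H ⧸ Subgroup.center H, Function.Injective f) ∧
      (∀ p : ℕ, p.Prime → ((p ∣ Nat.card H ↔ p ∣ Nat.card G) ∧
        (p ∣ Nat.card (Subgroup.center H) ↔ p ∣ Nat.card G))) ∧
      Squarefree (Nat.card (Subgroup.center H)) :=
  solvable_central_type_aux _ G hsolv rfl

end Cfsg.Agent.Lib.Helper81
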