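import Mathlib
import Cfsg.Prelude.Def_Characters
import Cfsg.Agent.Lib.Helper81.GlaubRel
import Cfsg.Agent.S0160

/-!
# Real characters and real classes under a `p`-group of operators

The Glauberman correspondence commutes with complex conjugation, so it matches the invariant
real-valued irreducible characters with the real-valued irreducible characters of the fixed
points; invariant real classes correspond to real classes of the fixed points.
-/

set_option autoImplicit false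
set_option linter.unusedSectionVars false
set_option linter.style.haveILetI false

namespace Cfsg.Agent.Lib.Helper81

open scoped ComplexConjugate

universe u

/-- conjugating both arguments conjugates the inner product -/
theorem classInner_conj_conj {C : Type*} [Group C] [Fintype C] (f h : C → ℂ) :
    Cfsg.classInner (fun c => conj (f c)) (fun c => conj (h c)) = conj (Cfsg.classInner f h) := by
  unfold Cfsg.classInner
  rw [map_mul, map_sum, map_inv₀, Complex.conj_natCast]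
  congr 1
  refine Finset.sum_congr rfl fun g _ => ?_
  rw [map_mul]

/-- a Glauberman correspondence restricts to a bijection of real-valued characters -/
theorem glaub_card_real {p : ℕ} {G : Type u} {C : Type u} [Group G] [Group C] [Finite G]
    [Fintype C] {ι : C →* G} {Inv : (G → ℂ) → Prop} (gl : Helper75.GlaubCorr p ι Inv)
    (hp : p.Prime) (hconj : ∀ χ : G → ℂ, Inv χ → Inv (fun g => conj (χ g))) :
    Nat.card {χ : Cfsg.IrrCharacter G // (∀ g : G, ((χ : G → ℂ) g).im = 0) ∧ Inv (χ : G → ℂ)} =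
      Nat.card {β : Cfsg.IrrCharacter C // ∀ c : C, ((β : C → ℂ) c).im = 0} := by
  classical
  have hreal : ∀ {X : Type u} (f : X → ℂ), (∀ x, (f x).im = 0) → (fun x => conj (f x)) = f :=
    fun f hf => funext fun x => Complex.conj_eq_iff_im.2 (hf x)
  have hex : ∀ χ : {χ : Cfsg.IrrCharacter G // (∀ g : G, ((χ : G → ℂ) g).im = 0) ∧
      Inv (χ : G → ℂ)},
      ∃ β : {β : Cfsg.IrrCharacter C // ∀ c : C, ((β : C → ℂ) c).im = 0}, ∃ m : ℕ,
        Cfsg.classInner (fun c => (χ.1 : G → ℂ) (ι c)) (β.1 : C → ℂ) = (m : ℂ) ∧ ¬ p ∣ m := by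
    intro χ
    obtain ⟨β₀, ε, hβ₀, hε, h⟩ := gl.1 χ.1.1 χ.1.2 χ.2.2
    obtain ⟨m, hm, hm1, -⟩ := h β₀ hβ₀
    have hpm : ¬ p ∣ m := Helper75.not_dvd_of_modEq_sign hp hε (hm1 rfl)
    have hβc : Cfsg.IsIrrCharacter C (fun c => conj (β₀ c)) := Helper80.isIrrCharacter_conj hβ₀
    have h1 : Cfsg.classInner (fun c => (χ.1 : G → ℂ) (ι c)) (fun c => conj (β₀ c)) = (m : ℂ) := by
      have h2 := classInner_conj_conj (fun c => (χ.1 : G → ℂ) (ι c)) β₀
      rw [hm, Complex.conj_natCast] at h2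
      rw [← h2]
      congr 1
      funext c
      exact (Complex.conj_eq_iff_im.2 (χ.2.1 (ι c))).symm
    have h3 := glaub_unique gl χ.1.2 χ.2.2 hβ₀ hβc hm hpm h1 hpm
    refine ⟨⟨⟨β₀, hβ₀⟩, fun c => ?_⟩, m, hm, hpm⟩
    exact Complex.conj_eq_iff_im.1 (congrFun h3 c).symm
  choose Φ hΦ using hex
  apply Nat.card_congr (Equiv.ofBijective Φ ⟨?_, ?_⟩)
  · intro χ χ' h
    obtain ⟨m, hm, hpm⟩ := hΦ χ
    obtain ⟨m', hm', hpm'⟩ := hΦ χ'
    rw [← h] at hm'
    have h1 := gl.2.1 χ.1.1 χ'.1.1 χ.1.2 χ'.1.2 χ.2.2 χ'.2.2 (Φ χ).1.1 (Φ χ).1.2 m m' hm hpm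
      hm' hpm'
    exact Subtype.ext (Subtype.ext h1)
  · intro β
    obtain ⟨χ, hχ, hI, m, hm, hpm⟩ := gl.2.2 β.1.1 β.1.2
    have hχc : Cfsg.IsIrrCharacter G (fun g => conj (χ g)) := Helper80.isIrrCharacter_conj hχ
    have h1 : Cfsg.classInner (fun c => conj (χ (ι c))) (β.1 : C → ℂ) = (m : ℂ) := by
      have h2 := classInner_conj_conj (fun c => χ (ι c)) (β.1 : C → ℂ)
      rw [hm, Complex.conj_natCast, hreal _ β.2] at h2
      exact h2
    have h3 := gl.2.1 χ (fun g => conj (χ g)) hχ hχc hI (hconj χ hI) β.1.1 β.1.2 m m hm hpm h1 hpm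
    have hr : ∀ g : G, (χ g).im = 0 := fun g => Complex.conj_eq_iff_im.1 (congrFun h3 g).symm
    refine ⟨⟨⟨χ, hχ⟩, hr, hI⟩, ?_⟩
    obtain ⟨m', hm', hpm'⟩ := hΦ ⟨⟨χ, hχ⟩, hr, hI⟩
    have h4 := glaub_unique gl hχ hI (Φ ⟨⟨χ, hχ⟩, hr, hI⟩).1.2 β.1.2 hm' hpm' hm hpm
    exact Subtype.ext (Subtype.ext h4)

section RealClasses

variable {Γ : Type u} [Group Γ] [Finite Γ]

/-- a class containing a real element is real -/
theorem real_class_of_real {X : Type*} [Group X] {k : X} (h : IsConj k k⁻¹) (g : X)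
    (hg : ConjClasses.mk g = ConjClasses.mk k) : IsConj g g⁻¹ := by
  rw [ConjClasses.mk_eq_mk_iff_isConj] at hg
  obtain ⟨c, hc⟩ := isConj_iff.1 hg
  have h1 : IsConj g⁻¹ k⁻¹ := by
    rw [isConj_iff]
    refine ⟨c, ?_⟩
    rw [← hc]; group
  exact hg.trans (h.trans h1.symm)

/-- the invariant real classes of `G` correspond to the real classes of the fixed points -/
theorem card_real_inv_classes (Q : Subgroup (MulAut Γ)) (G : Subgroup Γ)
    (hQG : ∀ q ∈ Q, ∀ g ∈ G, q g ∈ G) (p : ℕ) (hp : p.Prime) (hpG : ¬ p ∣ Nat.card G)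
    (hQp : IsPGroup p (resAut G Q hQG).range) :
    Nat.card {κ : ConjClasses (G ⊓ fixSub Q : Subgroup Γ) //
        ∀ c : (G ⊓ fixSub Q : Subgroup Γ), ConjClasses.mk c = κ → IsConj c c⁻¹} =
      Nat.card {K : ConjClasses G // (∀ g : G, ConjClasses.mk g = K → IsConj g g⁻¹) ∧
        InvClass Q G K} := by
  classical
  have hfix := isConj_fix G Q hQG p hp hpG hQp
  have hwd : ∀ κ : {κ : ConjClasses (G ⊓ fixSub Q : Subgroup Γ) //
      ∀ c : (G ⊓ fixSub Q : Subgroup Γ), ConjClasses.mk c = κ → IsConj c c⁻¹},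
      (∀ g : G, ConjClasses.mk g =
        ConjClasses.map (Subgroup.inclusion (inf_le_left : G ⊓ fixSub Q ≤ G)) κ.1 →
          IsConj g g⁻¹) ∧
      InvClass Q G (ConjClasses.map (Subgroup.inclusion (inf_le_left : G ⊓ fixSub Q ≤ G)) κ.1) := by
    rintro ⟨κ, hκ⟩
    obtain ⟨c, rfl⟩ := ConjClasses.exists_rep κ
    constructor
    · intro g hg
      have h1 := (Subgroup.inclusion (inf_le_left : G ⊓ fixSub Q ≤ G)).map_isConj (hκ c rfl)
      rw [map_inv] at h1
      exact real_class_of_real h1 g hg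
    · intro a ha g h hg
      show ConjClasses.mk (⟨a g, h⟩ : G) = ConjClasses.mk (Subgroup.inclusion inf_le_left c)
      have hg' : IsConj g (Subgroup.inclusion inf_le_left c) :=
        ConjClasses.mk_eq_mk_iff_isConj.1 hg
      have h1 := (resAut G Q hQG ⟨a, ha⟩ : G ≃* G).toMonoidHom.map_isConj hg'
      have h2 : (resAut G Q hQG ⟨a, ha⟩ : G ≃* G).toMonoidHom (Subgroup.inclusion inf_le_left c) =
          Subgroup.inclusion inf_le_left c := Subtype.ext (c.2.2 a ha)
      rw [h2] at h1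
      exact ConjClasses.mk_eq_mk_iff_isConj.2 h1
  apply Nat.card_congr (Equiv.ofBijective (fun κ => ⟨_, hwd κ⟩) ⟨?_, ?_⟩)
  · rintro ⟨κ, hκ⟩ ⟨κ', hκ'⟩ h
    obtain ⟨c, rfl⟩ := ConjClasses.exists_rep κ
    obtain ⟨c', rfl⟩ := ConjClasses.exists_rep κ'
    have h1 : ConjClasses.mk (Subgroup.inclusion (inf_le_left : G ⊓ fixSub Q ≤ G) c) =
        ConjClasses.mk (Subgroup.inclusion (inf_le_left : G ⊓ fixSub Q ≤ G) c') :=
      congrArg Subtype.val h
    exact Subtype.ext (ConjClasses.mk_eq_mk_iff_isConj.2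
      (hfix c c' (ConjClasses.mk_eq_mk_iff_isConj.1 h1)))
  · rintro ⟨K, hKr, hK⟩
    obtain ⟨c, hc⟩ := exists_fix_of_inv_class G Q hQG p hp hpG hQp K hK
    have hκ : ∀ c₁ : (G ⊓ fixSub Q : Subgroup Γ), ConjClasses.mk c₁ = ConjClasses.mk c →
        IsConj c₁ c₁⁻¹ := by
      have h1 := hKr _ hc
      have h2 : IsConj c c⁻¹ := by
        apply hfix
        rw [map_inv]
        exact h1
      exact fun c₁ hc₁ => real_class_of_real h2 c₁ hc₁
    exact ⟨⟨ConjClasses.mk c, hκ⟩, Subtype.ext hc⟩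

/-- **invariant real characters and invariant real classes** for a `p`-group of operators on
a `p'`-group -/
theorem card_real_inv_irr (Q : Subgroup (MulAut Γ)) (G : Subgroup Γ)
    (hQG : ∀ q ∈ Q, ∀ g ∈ G, q g ∈ G) (p : ℕ) (hp : p.Prime) (hpG : ¬ p ∣ Nat.card G)
    (hQp : IsPGroup p (resAut G Q hQG).range) :
    Nat.card {χ : Cfsg.IrrCharacter G // (∀ g : G, ((χ : G → ℂ) g).im = 0) ∧
        InvR Q G (χ : G → ℂ)} =
      Nat.card {K : ConjClasses G // (∀ g : G, ConjClasses.mk g = K → IsConj g g⁻¹) ∧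
        InvClass Q G K} := by
  classical
  haveI : Fintype (G ⊓ fixSub Q : Subgroup Γ) := Fintype.ofFinite _
  have gl := glaub_rel G Q hQG p hp hpG hQp
  have h1 := glaub_card_real gl hp (fun χ hχ a ha g h => by
    show conj (χ ⟨a g, h⟩) = conj (χ g)
    rw [hχ a ha g h])
  rw [h1, Cfsg.Agent.S0160.result]
  exact card_real_inv_classes Q G hQG p hp hpG hQp

/-- if all real irreducible characters are invariant, so are all real classes -/
theorem real_class_inv_of_real_irr_inv (Q : Subgroup (MulAut Γ)) (G : Subgroup Γ)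
    (hQG : ∀ q ∈ Q, ∀ g ∈ G, q g ∈ G) (p : ℕ) (hp : p.Prime) (hpG : ¬ p ∣ Nat.card G)
    (hQp : IsPGroup p (resAut G Q hQG).range)
    (hall : ∀ χ : Cfsg.IrrCharacter G, (∀ g : G, ((χ : G → ℂ) g).im = 0) → InvR Q G (χ : G → ℂ))
    (K : ConjClasses G) (hK : ∀ g : G, ConjClasses.mk g = K → IsConj g g⁻¹) : InvClass Q G K := by
  classical
  have h1 := card_real_inv_irr Q G hQG p hp hpG hQp
  have h2 : Nat.card {χ : Cfsg.IrrCharacter G // (∀ g : G, ((χ : G → ℂ) g).im = 0) ∧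
      InvR Q G (χ : G → ℂ)} =
      Nat.card {χ : Cfsg.IrrCharacter G // ∀ g : G, ((χ : G → ℂ) g).im = 0} :=
    Nat.card_congr (Equiv.subtypeEquivRight fun χ => ⟨fun h => h.1, fun h => ⟨h, hall χ h⟩⟩)
  have h3 : Nat.card {χ : Cfsg.IrrCharacter G // ∀ g : G, ((χ : G → ℂ) g).im = 0} =
      Nat.card {C : ConjClasses G // ∀ g : G, ConjClasses.mk g = C → IsConj g g⁻¹} :=
    Cfsg.Agent.S0160.result
  have h4 : Nat.card {K : ConjClasses G // (∀ g : G, ConjClasses.mk g = K → IsConj g g⁻¹) ∧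
      InvClass Q G K} =
      Nat.card {C : ConjClasses G // ∀ g : G, ConjClasses.mk g = C → IsConj g g⁻¹} := by
    rw [← h1, h2, h3]
  let f : {K : ConjClasses G // (∀ g : G, ConjClasses.mk g = K → IsConj g g⁻¹) ∧
      InvClass Q G K} → {C : ConjClasses G // ∀ g : G, ConjClasses.mk g = C → IsConj g g⁻¹} :=
    fun K => ⟨K.1, K.2.1⟩
  have hf : Function.Injective f := by
    intro K K' h
    have h' : (f K).1 = (f K').1 := congrArg Subtype.val h
    exact Subtype.ext h'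
  have hbij := (Nat.bijective_iff_injective_and_card f).2 ⟨hf, h4⟩
  obtain ⟨K', hK'⟩ := hbij.2 ⟨K, hK⟩
  have h5 : K'.1 = K := congrArg Subtype.val hK'
  rw [← h5]
  exact K'.2.2

end RealClasses

end Cfsg.Agent.Lib.Helper81
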