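import Mathlib
import Cfsg.Prelude.Def_Blocks
import Cfsg.Agent.Lib.Helper81.OddIndex
import Cfsg.Agent.Lib.Helper81.RealGlaub
import Cfsg.Agent.Lib.Helper81.CliffRel
import Cfsg.Agent.Lib.Helper75.CliffordCorr

set_option autoImplicit false
set_option linter.style.haveILetI false
set_option linter.unusedSectionVars false

/-!
Real characters and normal subgroups of odd index: constituents are real and occur once.
Type-level and relative forms.
-/

namespace Cfsg.Agent.Lib.Helper81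

open scoped ComplexConjugate

universe u

section TypeLevel

variable {G : Type u} [Group G] [Fintype G] (N : Subgroup G) [hN : N.Normal] [Fintype N]

/-- the irreducible constituents of the restriction of a real irreducible character to a normal
subgroup of odd index are real -/
theorem real_constituent (hodd : Odd N.index) {χ : G → ℂ} (hχ : Cfsg.IsIrrCharacter G χ)
    (hre : ∀ g : G, (χ g).im = 0) {θ : N → ℂ} (hθ : Cfsg.IsIrrCharacter N θ)
    (h : Cfsg.classInner (fun n : N => χ n) θ ≠ 0) : ∀ k : N, (θ k).im = 0 := by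
  classical
  have hθbar : Cfsg.IsIrrCharacter N (fun n => conj (θ n)) := Helper80.isIrrCharacter_conj hθ
  have h' : Cfsg.classInner (fun n : N => χ n) (fun n => conj (θ n)) ≠ 0 := by
    have h1 := classInner_conj_conj (fun n : N => χ n) θ
    have h2 : (fun n : N => conj (χ n)) = fun n : N => χ n :=
      funext fun n => Complex.conj_eq_iff_im.2 (hre n)
    rw [h2] at h1
    rw [h1]
    intro h0
    exact h ((map_eq_zero _).1 h0)
  obtain ⟨g, hg⟩ := Helper75.clifford_conj N hχ hθ hθbar h h'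
  have hgg : Helper75.conjChar N θ (g * g) = θ := by
    rw [Helper75.conjChar_mul, hg]
    funext n
    show conj (θ ((MulAut.conjNormal g)⁻¹ n)) = θ n
    have h3 : θ ((MulAut.conjNormal g)⁻¹ n) = conj (θ n) := congrFun hg n
    rw [h3, Complex.conj_conj]
  have hT : g * g ∈ Helper75.inertia N θ := hgg
  have hNT : N ≤ Helper75.inertia N θ :=
    Helper75.le_inertia N (Helper80.isClassFunction_of_isCharacter
      (Helper80.isCharacter_of_isIrrCharacter hθ))
  obtain ⟨r, hr⟩ := hodd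
  have h1 : g ^ N.index ∈ N := N.pow_index_mem g
  have h2 : (g * g) ^ r ∈ Helper75.inertia N θ := Subgroup.pow_mem _ hT r
  have h3 : g = g ^ N.index * ((g * g) ^ r)⁻¹ := by
    rw [hr, ← pow_two, ← pow_mul, pow_succ]
    group
  have hgT : g ∈ Helper75.inertia N θ := by
    rw [h3]
    exact mul_mem (hNT h1) (inv_mem h2)
  have h4 : Helper75.conjChar N θ g = θ := hgT
  intro k
  have h5 : conj (θ k) = θ k := by
    have h6 := congrFun hg k
    rw [h4] at h6
    exact h6.symm
  exact Complex.conj_eq_iff_im.1 h5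

/-- a real irreducible character restricted to a normal subgroup of odd index is
multiplicity free -/
theorem real_mult_one (hodd : Odd N.index) {χ : G → ℂ} (hχ : Cfsg.IsIrrCharacter G χ)
    (hre : ∀ g : G, (χ g).im = 0) {θ : N → ℂ} (hθ : Cfsg.IsIrrCharacter N θ)
    (h : Cfsg.classInner (fun n : N => χ n) θ ≠ 0) :
    Cfsg.classInner (fun n : N => χ n) θ = 1 := by
  classical
  haveI : Fintype (Cfsg.IrrCharacter G) := Fintype.ofFinite _
  haveI : Fintype (Cfsg.IrrCharacter N) := Fintype.ofFinite _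
  have hθre := real_constituent N hodd hχ hre hθ h
  have h1 := sum_fs_mul_restrict N hodd (⟨θ, hθ⟩ : Cfsg.IrrCharacter N)
  rw [Finset.sum_eq_single (⟨χ, hχ⟩ : Cfsg.IrrCharacter G)] at h1
  · obtain ⟨m, hm⟩ := Helper80.classInner_nat
      (Helper80.isCharacter_comp N.subtype (Helper80.isCharacter_of_isIrrCharacter hχ))
      (Helper80.isCharacter_of_isIrrCharacter hθ)
    have hm' : Cfsg.classInner (fun n : N => χ n) θ = (m : ℂ) := hm
    have hχc := fs_cases (⟨χ, hχ⟩ : Cfsg.IrrCharacter G)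
    have hθc := fs_cases (⟨θ, hθ⟩ : Cfsg.IrrCharacter N)
    have hχ0 : (Nat.card G : ℂ)⁻¹ * ∑ s : G, χ (s * s) ≠ 0 := by
      intro h0
      obtain ⟨s, hs⟩ := hχc.2.1 h0
      exact hs (hre s)
    have hθ0 : (Nat.card N : ℂ)⁻¹ * ∑ s : N, θ (s * s) ≠ 0 := by
      intro h0
      obtain ⟨s, hs⟩ := hθc.2.1 h0
      exact hs (hθre s)
    have h1' : ((Nat.card G : ℂ)⁻¹ * ∑ s : G, χ (s * s)) * (m : ℂ) =
        (Nat.card N : ℂ)⁻¹ * ∑ s : N, θ (s * s) := by
      rw [← hm']
      exact h1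
    rw [hm']
    have hχc1 : (Nat.card G : ℂ)⁻¹ * ∑ s : G, χ (s * s) = 1 ∨
        (Nat.card G : ℂ)⁻¹ * ∑ s : G, χ (s * s) = -1 := by
      rcases hχc.1 with h0 | h0 | h0
      · exact absurd h0 hχ0
      · exact Or.inl h0
      · exact Or.inr h0
    have hθc1 : (Nat.card N : ℂ)⁻¹ * ∑ s : N, θ (s * s) = 1 ∨
        (Nat.card N : ℂ)⁻¹ * ∑ s : N, θ (s * s) = -1 := by
      rcases hθc.1 with h0 | h0 | h0
      · exact absurd h0 hθ0
      · exact Or.inl h0
      · exact Or.inr h0
    rcases hχc1 with ha | ha <;> rcases hθc1 with hb | hb <;> rw [ha, hb] at h1'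
    · linear_combination h1'
    · exfalso
      have h2 : ((m : ℤ) : ℂ) = ((-1 : ℤ) : ℂ) := by
        push_cast
        linear_combination h1'
      have h3 : (m : ℤ) = -1 := by exact_mod_cast h2
      omega
    · exfalso
      have h2 : ((m : ℤ) : ℂ) = ((-1 : ℤ) : ℂ) := by
        push_cast
        linear_combination -h1'
      have h3 : (m : ℤ) = -1 := by exact_mod_cast h2
      omega
    · linear_combination -h1'
  · intro χ' _ hne
    by_cases hχ' : ∀ g : G, ((χ' : G → ℂ) g).im = 0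
    · by_cases h0 : Cfsg.classInner (fun n : N => (χ' : G → ℂ) n) θ = 0
      · show _ * Cfsg.classInner (fun n : N => (χ' : G → ℂ) n) θ = 0
        rw [h0, mul_zero]
      · exact absurd (real_over_unique N hodd (⟨θ, hθ⟩ : Cfsg.IrrCharacter N) hθre χ'
          (⟨χ, hχ⟩ : Cfsg.IrrCharacter G) hχ' hre h0 h) hne
    · push Not at hχ'
      rw [((fs_cases χ').2).2 hχ', zero_mul]
  · intro h
    exact absurd (Finset.mem_univ _) h

end TypeLevel

section Rel

variable {Γ : Type u} [Group Γ] [Fintype Γ] (H M : Subgroup Γ) [Fintype H] [Fintype M]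

theorem classInner_subgroupOf_rel (hMH : M ≤ H) [Fintype (M.subgroupOf H)] (ξ : H → ℂ)
    (φ : M → ℂ) :
    Cfsg.classInner (fun n : M.subgroupOf H => ξ n)
        (fun n => φ (Subgroup.subgroupOfEquivOfLe hMH n)) =
      Cfsg.classInner (fun q : M => ξ ⟨q, hMH q.2⟩) φ :=
  classInner_comp_mulEquiv (Subgroup.subgroupOfEquivOfLe hMH) (fun q : M => ξ ⟨q, hMH q.2⟩) φ

theorem normal_subgroupOf_rel (hn : ∀ h ∈ H, ∀ m ∈ M, h * m * h⁻¹ ∈ M) :
    (M.subgroupOf H).Normal := by
  constructor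
  intro n hn' g
  rw [Subgroup.mem_subgroupOf] at hn' ⊢
  exact hn g g.2 n hn'

/-- every real irreducible character of `M` lies under a real irreducible character of `H`
(odd relative index) -/
theorem exists_real_over_rel (hMH : M ≤ H) (hn : ∀ h ∈ H, ∀ m ∈ M, h * m * h⁻¹ ∈ M)
    (hodd : Odd (M.relIndex H)) {φ : M → ℂ} (hφ : Cfsg.IsIrrCharacter M φ)
    (hre : ∀ k : M, (φ k).im = 0) :
    ∃ ξ : H → ℂ, Cfsg.IsIrrCharacter H ξ ∧ (∀ h : H, (ξ h).im = 0) ∧
      Cfsg.classInner (fun m : M => ξ ⟨m, hMH m.2⟩) φ ≠ 0 := by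
  classical
  haveI := normal_subgroupOf_rel H M hn
  haveI : Fintype (M.subgroupOf H) := Fintype.ofFinite _
  haveI : Fintype (Cfsg.IrrCharacter H) := Fintype.ofFinite _
  haveI : Fintype (Cfsg.IrrCharacter (M.subgroupOf H)) := Fintype.ofFinite _
  obtain ⟨ξ, hξre, hξ⟩ := exists_real_over (M.subgroupOf H) hodd
    ⟨fun n => φ (Subgroup.subgroupOfEquivOfLe hMH n),
      Helper80.isIrrCharacter_comp_mulEquiv (Subgroup.subgroupOfEquivOfLe hMH) hφ⟩
    (fun k => hre _)
  refine ⟨ξ.1, ξ.2, hξre, ?_⟩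
  rw [← classInner_subgroupOf_rel H M hMH]
  exact hξ

/-- a real irreducible character of `M` lies under a unique real irreducible character of `H` -/
theorem real_over_unique_rel (hMH : M ≤ H) (hn : ∀ h ∈ H, ∀ m ∈ M, h * m * h⁻¹ ∈ M)
    (hodd : Odd (M.relIndex H)) {φ : M → ℂ} (hφ : Cfsg.IsIrrCharacter M φ)
    (hre : ∀ k : M, (φ k).im = 0) {ξ ξ' : H → ℂ} (hξ : Cfsg.IsIrrCharacter H ξ)
    (hξ' : Cfsg.IsIrrCharacter H ξ') (hξre : ∀ h : H, (ξ h).im = 0)
    (hξ're : ∀ h : H, (ξ' h).im = 0)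
    (h : Cfsg.classInner (fun m : M => ξ ⟨m, hMH m.2⟩) φ ≠ 0)
    (h' : Cfsg.classInner (fun m : M => ξ' ⟨m, hMH m.2⟩) φ ≠ 0) : ξ = ξ' := by
  classical
  haveI := normal_subgroupOf_rel H M hn
  haveI : Fintype (M.subgroupOf H) := Fintype.ofFinite _
  have h0 := real_over_unique (M.subgroupOf H) hodd
    ⟨fun n => φ (Subgroup.subgroupOfEquivOfLe hMH n),
      Helper80.isIrrCharacter_comp_mulEquiv (Subgroup.subgroupOfEquivOfLe hMH) hφ⟩
    (fun k => hre _) ⟨ξ, hξ⟩ ⟨ξ', hξ'⟩ hξre hξ're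
    (by
      show Cfsg.classInner (fun n : M.subgroupOf H => ξ n)
        (fun n => φ (Subgroup.subgroupOfEquivOfLe hMH n)) ≠ 0
      rw [classInner_subgroupOf_rel H M hMH]
      exact h)
    (by
      show Cfsg.classInner (fun n : M.subgroupOf H => ξ' n)
        (fun n => φ (Subgroup.subgroupOfEquivOfLe hMH n)) ≠ 0
      rw [classInner_subgroupOf_rel H M hMH]
      exact h')
  exact congrArg Subtype.val h0

/-- constituents of a real irreducible character of `H` on `M` are real -/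
theorem real_constituent_rel (hMH : M ≤ H) (hn : ∀ h ∈ H, ∀ m ∈ M, h * m * h⁻¹ ∈ M)
    (hodd : Odd (M.relIndex H)) {ξ : H → ℂ} (hξ : Cfsg.IsIrrCharacter H ξ)
    (hξre : ∀ h : H, (ξ h).im = 0) {φ : M → ℂ} (hφ : Cfsg.IsIrrCharacter M φ)
    (h : Cfsg.classInner (fun m : M => ξ ⟨m, hMH m.2⟩) φ ≠ 0) : ∀ k : M, (φ k).im = 0 := by
  classical
  haveI := normal_subgroupOf_rel H M hn
  haveI : Fintype (M.subgroupOf H) := Fintype.ofFinite _
  have h0 := real_constituent (M.subgroupOf H) hodd hξ hξre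
    (Helper80.isIrrCharacter_comp_mulEquiv (Subgroup.subgroupOfEquivOfLe hMH) hφ)
    (by
      rw [classInner_subgroupOf_rel H M hMH]
      exact h)
  intro k
  have h1 := h0 ((Subgroup.subgroupOfEquivOfLe hMH).symm k)
  rw [MulEquiv.apply_symm_apply] at h1
  exact h1

/-- a real irreducible character of `H` is multiplicity free on `M` -/
theorem real_mult_one_rel (hMH : M ≤ H) (hn : ∀ h ∈ H, ∀ m ∈ M, h * m * h⁻¹ ∈ M)
    (hodd : Odd (M.relIndex H)) {ξ : H → ℂ} (hξ : Cfsg.IsIrrCharacter H ξ)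
    (hξre : ∀ h : H, (ξ h).im = 0) {φ : M → ℂ} (hφ : Cfsg.IsIrrCharacter M φ)
    (h : Cfsg.classInner (fun m : M => ξ ⟨m, hMH m.2⟩) φ ≠ 0) :
    Cfsg.classInner (fun m : M => ξ ⟨m, hMH m.2⟩) φ = 1 := by
  classical
  haveI := normal_subgroupOf_rel H M hn
  haveI : Fintype (M.subgroupOf H) := Fintype.ofFinite _
  have h0 := real_mult_one (M.subgroupOf H) hodd hξ hξre
    (Helper80.isIrrCharacter_comp_mulEquiv (Subgroup.subgroupOfEquivOfLe hMH) hφ)
    (by
      rw [classInner_subgroupOf_rel H M hMH]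
      exact h)
  rw [classInner_subgroupOf_rel H M hMH] at h0
  exact h0

end Rel

end Cfsg.Agent.Lib.Helper81
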