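import Mathlib
import Cfsg.Prelude.Def_Characters
import Cfsg.Agent.Lib.Helper81.CliffRel
import Cfsg.Agent.Lib.Helper74.OrbitSum
import Cfsg.Agent.Lib.Helper81.GlaubAbove

/-!
# The relative Glauberman correspondence

A `p`-group `A` acts on `K`, which has a normal Sylow `p`-subgroup `Q`; `C / Q` is the group of
fixed points of `A` on `K / Q`.  The `A`-invariant irreducible characters of `K` correspond to
the `A`-invariant irreducible characters of `C`.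
-/

set_option autoImplicit false
set_option linter.unusedSectionVars false
set_option linter.style.haveILetI false

namespace Cfsg.Agent.Lib.Helper81

open scoped ComplexConjugate

universe u

section InvUnique

variable {Γ : Type u} [Group Γ] [Fintype Γ] (H S : Subgroup Γ) [Fintype H] [Fintype S]
  (A : Subgroup (MulAut Γ))

/-- inner products of restrictions are unchanged by an automorphism -/
theorem classInner_res_aut (hSH : S ≤ H) (hAH : ∀ a ∈ A, ∀ h ∈ H, a h ∈ H)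
    (hAS : ∀ a ∈ A, ∀ s ∈ S, a s ∈ S) (a : MulAut Γ) (ha : a ∈ A) (f : H → ℂ) (g : S → ℂ) :
    Cfsg.classInner (fun s : S => f ⟨a (s : Γ), hAH a ha s (hSH s.2)⟩)
        (fun s : S => g ⟨a (s : Γ), hAS a ha s s.2⟩) =
      Cfsg.classInner (fun s : S => f ⟨s, hSH s.2⟩) g :=
  classInner_comp_mulEquiv (resAut S A hAS ⟨a, ha⟩) (fun s : S => f ⟨s, hSH s.2⟩) g

/-- a constituent of the restriction of an invariant character which is unique with an invariant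
property is invariant -/
theorem inv_of_unique_below (hSH : S ≤ H) (hAH : ∀ a ∈ A, ∀ h ∈ H, a h ∈ H)
    (hAS : ∀ a ∈ A, ∀ s ∈ S, a s ∈ S) {χ : H → ℂ} (hχinv : InvR A H χ) {ψ : S → ℂ}
    (hψ : Cfsg.IsIrrCharacter S ψ)
    (h : Cfsg.classInner (fun s : S => χ ⟨s, hSH s.2⟩) ψ ≠ 0)
    (P : (S → ℂ) → Prop)
    (hPA : ∀ (a : MulAut Γ) (ha : a ∈ A), P (fun s : S => ψ ⟨a (s : Γ), hAS a ha s s.2⟩))
    (huniq : ∀ ψ₁ : S → ℂ, Cfsg.IsIrrCharacter S ψ₁ → P ψ₁ →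
      Cfsg.classInner (fun s : S => χ ⟨s, hSH s.2⟩) ψ₁ ≠ 0 → ψ₁ = ψ) : InvR A S ψ := by
  intro a ha s h'
  have h1 : (fun s : S => ψ ⟨a (s : Γ), hAS a ha s s.2⟩) = ψ := by
    apply huniq _ (Helper80.isIrrCharacter_comp_mulEquiv (resAut S A hAS ⟨a, ha⟩) hψ) (hPA a ha)
    have h2 := classInner_res_aut H S A hSH hAH hAS a ha χ ψ
    have h3 : (fun s : S => χ ⟨a (s : Γ), hAH a ha s (hSH s.2)⟩) =
        fun s : S => χ ⟨s, hSH s.2⟩ := by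
      funext s
      exact hχinv a ha ⟨s, hSH s.2⟩ _
    rw [h3] at h2
    exact fun h0 => h (h2.symm.trans h0)
  exact congrFun h1 s

/-- an irreducible character which is the unique one over an invariant character is invariant -/
theorem inv_of_unique_above (hSH : S ≤ H) (hAH : ∀ a ∈ A, ∀ h ∈ H, a h ∈ H)
    (hAS : ∀ a ∈ A, ∀ s ∈ S, a s ∈ S) {ψ : S → ℂ} (hψinv : InvR A S ψ) {χ : H → ℂ}
    (hχ : Cfsg.IsIrrCharacter H χ)
    (h : Cfsg.classInner (fun s : S => χ ⟨s, hSH s.2⟩) ψ ≠ 0)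
    (huniq : ∀ χ₁ : H → ℂ, Cfsg.IsIrrCharacter H χ₁ →
      Cfsg.classInner (fun s : S => χ₁ ⟨s, hSH s.2⟩) ψ ≠ 0 → χ₁ = χ) : InvR A H χ := by
  intro a ha g h'
  have h1 : (fun g : H => χ ⟨a (g : Γ), hAH a ha g g.2⟩) = χ := by
    apply huniq _ (Helper80.isIrrCharacter_comp_mulEquiv (resAut H A hAH ⟨a, ha⟩) hχ)
    have h2 := classInner_res_aut H S A hSH hAH hAS a ha χ ψ
    have h3 : (fun s : S => ψ ⟨a (s : Γ), hAS a ha s s.2⟩) = ψ :=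
      funext (fun s => hψinv a ha s _)
    rw [h3] at h2
    exact fun h0 => h (h2.symm.trans h0)
  exact congrFun h1 g

end InvUnique

section Key

variable {Γ : Type u} [Group Γ] [Fintype Γ] (K T C D Q : Subgroup Γ) [Fintype K] [Fintype T]
  [Fintype C] [Fintype D] [Fintype Q]

/-- **key formula**: multiplicities in `χ_C` are computed inside the stabiliser -/
theorem clifford_key (hQK : Q ≤ K) (hQn : ∀ k ∈ K, ∀ q ∈ Q, k * q * k⁻¹ ∈ Q) (hTK : T ≤ K)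
    (hQT : Q ≤ T) (hCK : C ≤ K) (hDC : D ≤ C) (hDT : D ≤ T) (hQD : Q ≤ D)
    {θ : Q → ℂ} (hθ : Cfsg.IsIrrCharacter Q θ)
    (hT : ∀ k ∈ K, k ∈ T ↔
      ∀ y : Γ, Cfsg.extendByZero Q θ (k⁻¹ * y * k) = Cfsg.extendByZero Q θ y)
    (hDs : ∀ k ∈ C, k ∈ D ↔
      ∀ y : Γ, Cfsg.extendByZero Q θ (k⁻¹ * y * k) = Cfsg.extendByZero Q θ y)
    {χ : K → ℂ} (hχ : Cfsg.IsIrrCharacter K χ) {ψ : T → ℂ} (hψ : Cfsg.IsIrrCharacter T ψ)
    (h1 : Cfsg.classInner (fun q : Q => ψ ⟨q, hQT q.2⟩) θ ≠ 0)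
    (h2 : Cfsg.classInner (fun t : T => χ ⟨t, hTK t.2⟩) ψ ≠ 0)
    {ξ : C → ℂ} (hξ : Cfsg.IsIrrCharacter C ξ) {η : D → ℂ} (hη : Cfsg.IsIrrCharacter D η)
    (h3 : Cfsg.classInner (fun q : Q => η ⟨q, hQD q.2⟩) θ ≠ 0)
    (h4 : Cfsg.classInner (fun d : D => ξ ⟨d, hDC d.2⟩) η ≠ 0) :
    Cfsg.classInner (fun c : C => χ ⟨c, hCK c.2⟩) ξ =
      Cfsg.classInner (fun d : D => ψ ⟨d, hDT d.2⟩) η := by
  classical
  haveI : Fintype (Cfsg.IrrCharacter T) := Fintype.ofFinite _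
  have hχc := Helper80.isCharacter_of_isIrrCharacter hχ
  have hθc := Helper80.isCharacter_of_isIrrCharacter hθ
  have hQnC : ∀ h ∈ C, ∀ q ∈ Q, h * q * h⁻¹ ∈ Q := fun h hh => hQn h (hCK hh)
  have hχC : Cfsg.IsCharacter C (fun c : C => χ ⟨c, hCK c.2⟩) :=
    Helper80.isCharacter_comp (Subgroup.inclusion hCK) hχc
  have e1 := (clifford_rel_of C Q D (hQD.trans hDC) hQnC hDC hQD hθ hDs hξ hη h3 h4).1
    (fun c : C => χ ⟨c, hCK c.2⟩) (Helper80.isClassFunction_of_isCharacter hχC)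
  rw [e1]
  obtain ⟨m, hm, hsum⟩ := Helper80.character_expansion
    (Helper80.isCharacter_comp (Subgroup.inclusion hTK) hχc)
  have h5 : (fun d : D => χ ⟨d, hCK (hDC d.2)⟩) =
      ∑ ψ₁ : Cfsg.IrrCharacter T, (m ψ₁ : ℂ) • (fun d : D => (ψ₁ : T → ℂ) ⟨d, hDT d.2⟩) := by
    funext d
    have h6 := congrFun hsum ⟨d, hDT d.2⟩
    simp only [Finset.sum_apply, Pi.smul_apply] at h6 ⊢
    exact h6
  have hcl := clifford_rel_of K Q T hQK hQn hTK hQT hθ hT hχ hψ h1 h2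
  have hone := clifford_rel_mult_one K Q T hQK hQn hTK hQT hθ hT hχ hψ h1 h2
  show Cfsg.classInner (fun d : D => χ ⟨d, hCK (hDC d.2)⟩) η = _
  rw [h5, Helper80.classInner_sum_left, Finset.sum_eq_single (⟨ψ, hψ⟩ : Cfsg.IrrCharacter T)]
  · rw [Helper80.classInner_smul_left]
    have h7 : ((m ⟨ψ, hψ⟩ : ℕ) : ℂ) = 1 := (hm ⟨ψ, hψ⟩).symm.trans hone
    rw [h7, one_mul]
  · intro ψ₁ _ hne
    rw [Helper80.classInner_smul_left]
    by_contra h0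
    have hm1 : ((m ψ₁ : ℕ) : ℂ) ≠ 0 := left_ne_zero_of_mul h0
    have hd1 : Cfsg.classInner (fun d : D => (ψ₁ : T → ℂ) ⟨d, hDT d.2⟩) η ≠ 0 :=
      right_ne_zero_of_mul h0
    have hq1 : Cfsg.classInner (fun q : Q => (ψ₁ : T → ℂ) ⟨q, hQT q.2⟩) θ ≠ 0 :=
      constituent_trans (Subgroup.inclusion hQD)
        (Helper80.isCharacter_comp (Subgroup.inclusion hDT)
          (Helper80.isCharacter_of_isIrrCharacter ψ₁.2)) hη hθc hd1 h3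
    have hχ1 : Cfsg.classInner (fun t : T => χ ⟨t, hTK t.2⟩) (ψ₁ : T → ℂ) ≠ 0 :=
      fun h0' => hm1 ((hm ψ₁).symm.trans h0')
    exact hne (Subtype.ext (hcl.2 ψ₁ ψ₁.2 hq1 hχ1))
  · intro h
    exact absurd (Finset.mem_univ _) h

end Key

/-- the preimage of the fixed points on the quotient is invariant -/
theorem fixQuot_inv {Γ : Type u} [Group Γ] (K Q C : Subgroup Γ) (A : Subgroup (MulAut Γ))
    (hAK : ∀ a ∈ A, ∀ k ∈ K, a k ∈ K)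
    (hC : ∀ x : Γ, x ∈ C ↔ x ∈ K ∧ ∀ a ∈ A, a x * x⁻¹ ∈ Q) :
    ∀ a ∈ A, ∀ c ∈ C, a c ∈ C := by
  intro a ha c hc
  obtain ⟨hcK, hcQ⟩ := (hC c).1 hc
  rw [hC]
  refine ⟨hAK a ha c hcK, fun b hb => ?_⟩
  have h1 := hcQ (b * a) (A.mul_mem hb ha)
  have h2 := Q.inv_mem (hcQ a ha)
  have h3 := Q.mul_mem h1 h2
  have e : (b * a) c * c⁻¹ * (a c * c⁻¹)⁻¹ = b (a c) * (a c)⁻¹ := by
    rw [MulAut.mul_apply]
    group
  rwa [e] at h3

section Theta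

variable {Γ : Type u} [Group Γ] [Fintype Γ] (K Q C T D : Subgroup Γ) [Fintype K] [Fintype Q]
  [Fintype C] [Fintype T] [Fintype D] (A : Subgroup (MulAut Γ)) (p : ℕ)

set_option maxHeartbeats 1600000 in
/-- **relative Glauberman correspondence over a fixed invariant character `θ` of `Q`**:
`T` is the stabiliser of `θ` in `K` and `D = T ⊓ C` -/
theorem rel_glaub_theta (hp : p.Prime) (hA : IsPGroup p A)
    (hAK : ∀ a ∈ A, ∀ k ∈ K, a k ∈ K) (hAQ : ∀ a ∈ A, ∀ q ∈ Q, a q ∈ Q)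
    (hQK : Q ≤ K) (hQn : ∀ k ∈ K, ∀ q ∈ Q, k * q * k⁻¹ ∈ Q)
    (hcop : (Q.relIndex K).Coprime (Nat.card Q)) (hpK : ¬ p ∣ Q.relIndex K)
    (hCK : C ≤ K) (hQC : Q ≤ C) (hC : ∀ x : Γ, x ∈ C ↔ x ∈ K ∧ ∀ a ∈ A, a x * x⁻¹ ∈ Q)
    {θ : Q → ℂ} (hθ : Cfsg.IsIrrCharacter Q θ) (hθA : InvR A Q θ)
    (hT : ∀ t : Γ, t ∈ T ↔ t ∈ K ∧
      ∀ y : Γ, Cfsg.extendByZero Q θ (t⁻¹ * y * t) = Cfsg.extendByZero Q θ y)
    (hDdef : ∀ x : Γ, x ∈ D ↔ x ∈ T ∧ x ∈ C) :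
    GlaubCorrOn p (Subgroup.inclusion hCK)
      (fun χ : K → ℂ => InvR A K χ ∧ Cfsg.classInner (fun q : Q => χ ⟨q, hQK q.2⟩) θ ≠ 0)
      (fun ξ : C → ℂ => Cfsg.classInner (fun q : Q => ξ ⟨q, hQC q.2⟩) θ ≠ 0) ∧
    ∀ ξ : C → ℂ, Cfsg.IsIrrCharacter C ξ →
      Cfsg.classInner (fun q : Q => ξ ⟨q, hQC q.2⟩) θ ≠ 0 → InvR A C ξ := by
  classical
  have hθc := Helper80.isCharacter_of_isIrrCharacter hθ
  have hθcf := Helper80.isClassFunction_of_isCharacter hθc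
  have hTK : T ≤ K := fun t ht => ((hT t).1 ht).1
  have hQT : Q ≤ T := fun q hq =>
    (hT q).2 ⟨hQK hq, fun y => extendByZero_conj_mem Q hθcf q hq y⟩
  have hDT : D ≤ T := fun d hd => ((hDdef d).1 hd).1
  have hDC : D ≤ C := fun d hd => ((hDdef d).1 hd).2
  have hQD : Q ≤ D := fun q hq => (hDdef q).2 ⟨hQT hq, hQC hq⟩
  have hAT : ∀ a ∈ A, ∀ t ∈ T, a t ∈ T := fun a ha t ht =>
    (hT _).2 (stabSub_inv K Q A hAK hAQ hθA a ha t ((hT t).1 ht))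
  have hAC := fixQuot_inv K Q C A hAK hC
  have hAD : ∀ a ∈ A, ∀ d ∈ D, a d ∈ D := fun a ha d hd =>
    (hDdef _).2 ⟨hAT a ha d (hDT hd), hAC a ha d (hDC hd)⟩
  have hQnT : ∀ t ∈ T, ∀ q ∈ Q, t * q * t⁻¹ ∈ Q := fun t ht => hQn t (hTK ht)
  have hQnC : ∀ c ∈ C, ∀ q ∈ Q, c * q * c⁻¹ ∈ Q := fun c hc => hQn c (hCK hc)
  have hdvd : Q.relIndex T ∣ Q.relIndex K :=
    Dvd.intro _ (Subgroup.relIndex_mul_relIndex _ _ _ hQT hTK)
  have hpT : ¬ p ∣ Q.relIndex T := fun h => hpK (dvd_trans h hdvd)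
  have hcopT : (Q.relIndex T).Coprime (Nat.card Q) := Nat.Coprime.coprime_dvd_left hdvd hcop
  have hθT : ∀ t ∈ T, ∀ (q : Q) (h : t * (q : Γ) * t⁻¹ ∈ Q), θ ⟨t * q * t⁻¹, h⟩ = θ q := by
    intro t ht q h
    have h1 := ((hT t⁻¹).1 (T.inv_mem ht)).2 (q : Γ)
    rw [inv_inv] at h1
    have h2 := Helper80.extendByZero_apply_mem Q θ ⟨t * q * t⁻¹, h⟩
    have h3 := Helper80.extendByZero_apply_mem Q θ q
    exact (h2.symm.trans h1).trans h3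
  have hD : ∀ x : Γ, x ∈ D ↔ x ∈ T ∧ ∀ a ∈ A, a x * x⁻¹ ∈ Q := fun x =>
    (hDdef x).trans ⟨fun h => ⟨h.1, ((hC x).1 h.2).2⟩, fun h => ⟨h.1, (hC x).2 ⟨hTK h.1, h.2⟩⟩⟩
  have hSK : ∀ k ∈ K, k ∈ T ↔
      ∀ y : Γ, Cfsg.extendByZero Q θ (k⁻¹ * y * k) = Cfsg.extendByZero Q θ y :=
    fun k hk => (hT k).trans ⟨fun h => h.2, fun h => ⟨hk, h⟩⟩
  have hSC : ∀ k ∈ C, k ∈ D ↔
      ∀ y : Γ, Cfsg.extendByZero Q θ (k⁻¹ * y * k) = Cfsg.extendByZero Q θ y :=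
    fun k hk => (hDdef k).trans
      ⟨fun h => ((hT k).1 h.1).2, fun h => ⟨(hT k).2 ⟨hCK hk, h⟩, hk⟩⟩
  obtain ⟨θ', hθ', hθ'Q, hθ'A⟩ :=
    exists_inv_extension T Q A hAT hAQ hQT hQnT hcopT hθ hθT hθA
  have heq : (fun q : Q => θ' ⟨q, hQT q.2⟩) = θ := funext hθ'Q
  have hθ'irr : Cfsg.IsIrrCharacter Q (fun q : Q => θ' ⟨q, hQT q.2⟩) := by
    rw [heq]
    exact hθ
  have O1 : GlaubCorrOn p (Subgroup.inclusion hDT)
      (fun ψ : T → ℂ => InvR A T ψ ∧ Cfsg.classInner (fun q : Q => ψ ⟨q, hQT q.2⟩) θ ≠ 0)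
      (fun η : D → ℂ => Cfsg.classInner (fun q : Q => η ⟨q, hQD q.2⟩) θ ≠ 0) := by
    have h1 := glaub_over_ext T Q D A p hp hA hAT hAQ hQT hQnT hpT hDT hQD hD hθ' hθ'irr hθ'A
    rw [heq] at h1
    exact h1
  have O2 : ∀ η : D → ℂ, Cfsg.IsIrrCharacter D η →
      Cfsg.classInner (fun q : Q => η ⟨q, hQD q.2⟩) θ ≠ 0 → InvR A D η := by
    intro η hη hηθ
    refine inv_of_over_ext T Q D A hQT hQnT hDT hQD hD hθ' hθ'irr hθ'A hη ?_
    rw [heq]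
    exact hηθ
  have P1 : ∀ χ : K → ℂ, Cfsg.IsIrrCharacter K χ → InvR A K χ → ∀ ψ : T → ℂ,
      Cfsg.IsIrrCharacter T ψ → Cfsg.classInner (fun q : Q => ψ ⟨q, hQT q.2⟩) θ ≠ 0 →
      Cfsg.classInner (fun t : T => χ ⟨t, hTK t.2⟩) ψ ≠ 0 → InvR A T ψ := by
    intro χ hχ hχinv ψ hψ h1 h2
    refine inv_of_unique_below K T A hTK hAK hAT hχinv hψ h2
      (fun ψ₁ => Cfsg.classInner (fun q : Q => ψ₁ ⟨q, hQT q.2⟩) θ ≠ 0) ?_
      (fun ψ₁ hψ₁ hP h =>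
        (clifford_rel_of K Q T hQK hQn hTK hQT hθ hSK hχ hψ h1 h2).2 ψ₁ hψ₁ hP h)
    intro a ha
    have h3 := classInner_res_aut T Q A hQT hAT hAQ a ha ψ θ
    have h4 : (fun q : Q => θ ⟨a (q : Γ), hAQ a ha q q.2⟩) = θ :=
      funext (fun q => hθA a ha q _)
    rw [h4] at h3
    exact fun h0 => h1 (h3.symm.trans h0)
  have P2 : ∀ ξ : C → ℂ, Cfsg.IsIrrCharacter C ξ → ∀ η : D → ℂ, Cfsg.IsIrrCharacter D η →
      Cfsg.classInner (fun q : Q => η ⟨q, hQD q.2⟩) θ ≠ 0 →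
      Cfsg.classInner (fun d : D => ξ ⟨d, hDC d.2⟩) η ≠ 0 → InvR A C ξ := by
    intro ξ hξ η hη h3 h4
    exact inv_of_unique_above C D A hDC hAC hAD (O2 η hη h3) hξ h4
      (fun ξ₁ hξ₁ h =>
        clifford_rel_unique_above C Q D hQC hQnC hDC hQD hθ hSC hξ hξ₁ hη h3 h4 h)
  have P3 : ∀ χ : K → ℂ, Cfsg.IsIrrCharacter K χ → ∀ ψ : T → ℂ, Cfsg.IsIrrCharacter T ψ →
      InvR A T ψ → Cfsg.classInner (fun q : Q => ψ ⟨q, hQT q.2⟩) θ ≠ 0 →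
      Cfsg.classInner (fun t : T => χ ⟨t, hTK t.2⟩) ψ ≠ 0 → InvR A K χ := by
    intro χ hχ ψ hψ hψinv h1 h2
    exact inv_of_unique_above K T A hTK hAK hAT hψinv hχ h2
      (fun χ₁ hχ₁ h =>
        clifford_rel_unique_above K Q T hQK hQn hTK hQT hθ hSK hχ hχ₁ hψ h1 h2 h)
  have F1 : ∀ χ : K → ℂ, Cfsg.IsIrrCharacter K χ →
      Cfsg.classInner (fun q : Q => χ ⟨q, hQK q.2⟩) θ ≠ 0 →
      ∃ ψ : T → ℂ, Cfsg.IsIrrCharacter T ψ ∧
        Cfsg.classInner (fun t : T => χ ⟨t, hTK t.2⟩) ψ ≠ 0 ∧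
        Cfsg.classInner (fun q : Q => ψ ⟨q, hQT q.2⟩) θ ≠ 0 :=
    fun χ hχ h => exists_mid_constituent (Subgroup.inclusion hTK) (Subgroup.inclusion hQT)
      (Helper80.isCharacter_of_isIrrCharacter hχ) h
  have F2 : ∀ ξ : C → ℂ, Cfsg.IsIrrCharacter C ξ →
      Cfsg.classInner (fun q : Q => ξ ⟨q, hQC q.2⟩) θ ≠ 0 →
      ∃ η : D → ℂ, Cfsg.IsIrrCharacter D η ∧
        Cfsg.classInner (fun d : D => ξ ⟨d, hDC d.2⟩) η ≠ 0 ∧
        Cfsg.classInner (fun q : Q => η ⟨q, hQD q.2⟩) θ ≠ 0 :=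
    fun ξ hξ h => exists_mid_constituent (Subgroup.inclusion hDC) (Subgroup.inclusion hQD)
      (Helper80.isCharacter_of_isIrrCharacter hξ) h
  refine ⟨⟨?_, ?_, ?_⟩, ?_⟩
  · rintro χ hχ ⟨hχinv, hχθ⟩
    obtain ⟨ψ, hψ, hχψ, hψθ⟩ := F1 χ hχ hχθ
    have hψinv := P1 χ hχ hχinv ψ hψ hψθ hχψ
    obtain ⟨η, ε, hη, hηθ, hε, hall⟩ := O1.1 ψ hψ ⟨hψinv, hψθ⟩
    obtain ⟨ξ, hξ, hξη⟩ := exists_irr_over_rel C D hDC hη
    have hξθ : Cfsg.classInner (fun q : Q => ξ ⟨q, hQC q.2⟩) θ ≠ 0 :=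
      constituent_trans (Subgroup.inclusion hQD)
        (Helper80.isCharacter_comp (Subgroup.inclusion hDC)
          (Helper80.isCharacter_of_isIrrCharacter hξ)) hη hθc hξη hηθ
    refine ⟨ξ, ε, hξ, hξθ, hε, ?_⟩
    intro ξ₁ hξ₁ hξ₁θ
    obtain ⟨η₁, hη₁, hξ₁η₁, hη₁θ⟩ := F2 ξ₁ hξ₁ hξ₁θ
    obtain ⟨m, hm, hm1, hm2⟩ := hall η₁ hη₁ hη₁θ
    have hk := clifford_key K T C D Q hQK hQn hTK hQT hCK hDC hDT hQD hθ hSK hSC hχ hψ hψθ hχψ
      hξ₁ hη₁ hη₁θ hξ₁η₁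
    refine ⟨m, hk.trans hm, ?_, ?_⟩
    · intro h
      subst h
      apply hm1
      exact (clifford_rel_of C Q D hQC hQnC hDC hQD hθ hSC hξ hη hηθ hξη).2 η₁ hη₁ hη₁θ hξ₁η₁
    · intro h
      apply hm2
      intro h'
      subst h'
      exact h (clifford_rel_unique_above C Q D hQC hQnC hDC hQD hθ hSC hξ hξ₁ hη hηθ hξη hξ₁η₁)
  · rintro χ χ' hχ hχ' ⟨hχinv, hχθ⟩ ⟨hχ'inv, hχ'θ⟩ ξ hξ hξθ m m' hm hpm hm' hpm'
    obtain ⟨ψ, hψ, hχψ, hψθ⟩ := F1 χ hχ hχθ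
    obtain ⟨ψ', hψ', hχψ', hψ'θ⟩ := F1 χ' hχ' hχ'θ
    obtain ⟨η, hη, hξη, hηθ⟩ := F2 ξ hξ hξθ
    have hk := clifford_key K T C D Q hQK hQn hTK hQT hCK hDC hDT hQD hθ hSK hSC hχ hψ hψθ hχψ
      hξ hη hηθ hξη
    have hk' := clifford_key K T C D Q hQK hQn hTK hQT hCK hDC hDT hQD hθ hSK hSC hχ' hψ' hψ'θ
      hχψ' hξ hη hηθ hξη
    have h1 := O1.2.1 ψ ψ' hψ hψ' ⟨P1 χ hχ hχinv ψ hψ hψθ hχψ, hψθ⟩
      ⟨P1 χ' hχ' hχ'inv ψ' hψ' hψ'θ hχψ', hψ'θ⟩ η hη hηθ m m' (hk.symm.trans hm) hpm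
      (hk'.symm.trans hm') hpm'
    subst h1
    exact clifford_rel_unique_above K Q T hQK hQn hTK hQT hθ hSK hχ' hχ hψ hψθ hχψ' hχψ
  · intro ξ hξ hξθ
    obtain ⟨η, hη, hξη, hηθ⟩ := F2 ξ hξ hξθ
    obtain ⟨ψ, hψ, ⟨hψinv, hψθ⟩, m, hm, hpm⟩ := O1.2.2 η hη hηθ
    obtain ⟨χ, hχ, hχψ⟩ := exists_irr_over_rel K T hTK hψ
    have hχθ : Cfsg.classInner (fun q : Q => χ ⟨q, hQK q.2⟩) θ ≠ 0 :=
      constituent_trans (Subgroup.inclusion hQT)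
        (Helper80.isCharacter_comp (Subgroup.inclusion hTK)
          (Helper80.isCharacter_of_isIrrCharacter hχ)) hψ hθc hχψ hψθ
    refine ⟨χ, hχ, ⟨P3 χ hχ ψ hψ hψinv hψθ hχψ, hχθ⟩, m, ?_, hpm⟩
    exact (clifford_key K T C D Q hQK hQn hTK hQT hCK hDC hDT hQD hθ hSK hSC hχ hψ hψθ hχψ
      hξ hη hηθ hξη).trans hm
  · intro ξ hξ hξθ
    obtain ⟨η, hη, hξη, hηθ⟩ := F2 ξ hξ hξθ
    exact P2 ξ hξ η hη hηθ hξη

end Theta

section Main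

variable {Γ : Type u} [Group Γ] [Fintype Γ] (K Q C : Subgroup Γ) [Fintype K] [Fintype Q]
  [Fintype C] (A : Subgroup (MulAut Γ)) (p : ℕ) [hpf : Fact p.Prime]

/-- an invariant irreducible constituent of `χ_C` lies over every invariant irreducible
constituent of `χ_Q` -/
theorem over_of_inv (hA : IsPGroup p A)
    (hAK : ∀ a ∈ A, ∀ k ∈ K, a k ∈ K) (hAQ : ∀ a ∈ A, ∀ q ∈ Q, a q ∈ Q)
    (hQK : Q ≤ K) (hQn : ∀ k ∈ K, ∀ q ∈ Q, k * q * k⁻¹ ∈ Q) (hpK : ¬ p ∣ Q.relIndex K)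
    (hCK : C ≤ K) (hQC : Q ≤ C) (hC : ∀ x : Γ, x ∈ C ↔ x ∈ K ∧ ∀ a ∈ A, a x * x⁻¹ ∈ Q)
    {χ : K → ℂ} (hχ : Cfsg.IsIrrCharacter K χ) {θ : Q → ℂ} (hθ : Cfsg.IsIrrCharacter Q θ)
    (hθA : InvR A Q θ) (hχθ : Cfsg.classInner (fun q : Q => χ ⟨q, hQK q.2⟩) θ ≠ 0)
    {ξ₁ : C → ℂ} (hξ₁ : Cfsg.IsIrrCharacter C ξ₁) (hξ₁A : InvR A C ξ₁)
    (h : Cfsg.classInner (fun c : C => χ ⟨c, hCK c.2⟩) ξ₁ ≠ 0) :
    Cfsg.classInner (fun q : Q => ξ₁ ⟨q, hQC q.2⟩) θ ≠ 0 := by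
  classical
  have hp : p.Prime := hpf.out
  have hAC := fixQuot_inv K Q C A hAK hC
  have hQnC : ∀ c ∈ C, ∀ q ∈ Q, c * q * c⁻¹ ∈ Q := fun c hc => hQn c (hCK hc)
  haveI hnC : (Q.subgroupOf C).Normal := by
    constructor
    intro n hn g
    rw [Subgroup.mem_subgroupOf] at hn ⊢
    exact hQnC g g.2 n hn
  have hdvd : Q.relIndex C ∣ Q.relIndex K :=
    Dvd.intro _ (Subgroup.relIndex_mul_relIndex _ _ _ hQC hCK)
  have hpC : ¬ p ∣ Q.relIndex C := fun h => hpK (dvd_trans h hdvd)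
  have hcopA : (Nat.card A).Coprime (Q.relIndex C) := by
    obtain ⟨n, hn⟩ := (IsPGroup.iff_card).1 hA
    rw [hn]
    exact Nat.Coprime.pow_left n ((Nat.Prime.coprime_iff_not_dvd hp).2 hpC)
  have hsolv : Group.IsSolvable A := by
    haveI := hA.isNilpotent
    infer_instance
  obtain ⟨θ₁, hθ₁, hξ₁θ₁, hθ₁A⟩ :=
    inv_constituent_below_rel C Q hQC A hAC hAQ hcopA (Or.inl hsolv) hξ₁ hξ₁A
  have hχc := Helper80.isCharacter_of_isIrrCharacter hχ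
  have hθc := Helper80.isCharacter_of_isIrrCharacter hθ
  have hθ₁c := Helper80.isCharacter_of_isIrrCharacter hθ₁
  have hχθ₁ : Cfsg.classInner (fun q : Q => χ ⟨q, hQK q.2⟩) θ₁ ≠ 0 :=
    constituent_trans (Subgroup.inclusion hQC)
      (Helper80.isCharacter_comp (Subgroup.inclusion hCK) hχc) hξ₁ hθ₁c h hξ₁θ₁
  obtain ⟨k, hk, hconj⟩ := clifford_conj_rel K Q hQK hQn hχ hθ hθ₁ hχθ hχθ₁
  obtain ⟨c, hc, hconj'⟩ := exists_conj_fix K Q C A p hA hAK hAQ hQn hpK hC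
    (Cfsg.extendByZero Q θ) (Cfsg.extendByZero Q θ₁)
    (fun a ha y => extendByZero_inv Q A hAQ hθA a ha y)
    (fun a ha y => extendByZero_inv Q A hAQ hθ₁A a ha y)
    (fun q hq y => extendByZero_conj_mem Q (Helper80.isClassFunction_of_isCharacter hθc) q hq y)
    k hk hconj
  have h1 := classInner_res_conj_rel C Q hQC hQnC
    (Helper80.isClassFunction_of_isCharacter (Helper80.isCharacter_of_isIrrCharacter hξ₁))
    c hc hconj'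
  rw [← h1]
  exact hξ₁θ₁

set_option maxHeartbeats 1600000 in
/-- **the relative Glauberman correspondence**: a `p`-group `A` acts on `K` with normal Sylow
`p`-subgroup `Q`, and `C / Q` is the group of fixed points of `A` on `K / Q` -/
theorem rel_glauberman (hA : IsPGroup p A)
    (hAK : ∀ a ∈ A, ∀ k ∈ K, a k ∈ K) (hAQ : ∀ a ∈ A, ∀ q ∈ Q, a q ∈ Q)
    (hQK : Q ≤ K) (hQn : ∀ k ∈ K, ∀ q ∈ Q, k * q * k⁻¹ ∈ Q)
    (hQp : ∃ n : ℕ, Nat.card Q = p ^ n) (hpK : ¬ p ∣ Q.relIndex K)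
    (hCK : C ≤ K) (hC : ∀ x : Γ, x ∈ C ↔ x ∈ K ∧ ∀ a ∈ A, a x * x⁻¹ ∈ Q) :
    GlaubCorrOn p (Subgroup.inclusion hCK) (InvR A K) (InvR A C) := by
  classical
  have hp : p.Prime := hpf.out
  have hQC : Q ≤ C := fun q hq =>
    (hC q).2 ⟨hQK hq, fun a ha => Q.mul_mem (hAQ a ha q hq) (Q.inv_mem hq)⟩
  have hcop : (Q.relIndex K).Coprime (Nat.card Q) := by
    obtain ⟨n, hn⟩ := hQp
    rw [hn]
    exact Nat.Coprime.pow_right n ((Nat.Prime.coprime_iff_not_dvd hp).2 hpK).symm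
  have hAC := fixQuot_inv K Q C A hAK hC
  have hQnC : ∀ c ∈ C, ∀ q ∈ Q, c * q * c⁻¹ ∈ Q := fun c hc => hQn c (hCK hc)
  haveI hnK : (Q.subgroupOf K).Normal := by
    constructor
    intro n hn g
    rw [Subgroup.mem_subgroupOf] at hn ⊢
    exact hQn g g.2 n hn
  haveI hnC : (Q.subgroupOf C).Normal := by
    constructor
    intro n hn g
    rw [Subgroup.mem_subgroupOf] at hn ⊢
    exact hQnC g g.2 n hn
  have hdvd : Q.relIndex C ∣ Q.relIndex K :=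
    Dvd.intro _ (Subgroup.relIndex_mul_relIndex _ _ _ hQC hCK)
  have hpC : ¬ p ∣ Q.relIndex C := fun h => hpK (dvd_trans h hdvd)
  obtain ⟨n, hn⟩ := (IsPGroup.iff_card).1 hA
  have hcopAK : (Nat.card A).Coprime (Q.relIndex K) := by
    rw [hn]
    exact Nat.Coprime.pow_left n ((Nat.Prime.coprime_iff_not_dvd hp).2 hpK)
  have hcopAC : (Nat.card A).Coprime (Q.relIndex C) := by
    rw [hn]
    exact Nat.Coprime.pow_left n ((Nat.Prime.coprime_iff_not_dvd hp).2 hpC)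
  have hsolv : Group.IsSolvable A := by
    haveI := hA.isNilpotent
    infer_instance
  letI : ∀ θ : Q → ℂ, Fintype (stabSub K Q θ) := fun θ => Fintype.ofFinite _
  letI : ∀ θ : Q → ℂ, Fintype (stabSub K Q θ ⊓ C : Subgroup Γ) := fun θ => Fintype.ofFinite _
  have theta := fun (θ : Q → ℂ) (hθ : Cfsg.IsIrrCharacter Q θ) (hθA : InvR A Q θ) =>
    rel_glaub_theta K Q C (stabSub K Q θ) (stabSub K Q θ ⊓ C) A p hp hA hAK hAQ hQK hQn hcop hpK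
      hCK hQC hC hθ hθA (fun t => Iff.rfl) (fun x => Subgroup.mem_inf)
  refine ⟨?_, ?_, ?_⟩
  · intro χ hχ hχinv
    obtain ⟨θ, hθ, hχθ, hθA⟩ :=
      inv_constituent_below_rel K Q hQK A hAK hAQ hcopAK (Or.inl hsolv) hχ hχinv
    obtain ⟨gθ, hinvθ⟩ := theta θ hθ hθA
    obtain ⟨ξ, ε, hξ, hξθ, hε, hall⟩ := gθ.1 χ hχ ⟨hχinv, hχθ⟩
    refine ⟨ξ, ε, hξ, hinvθ ξ hξ hξθ, hε, ?_⟩
    intro ξ₁ hξ₁ hξ₁A
    by_cases hov : Cfsg.classInner (fun q : Q => ξ₁ ⟨q, hQC q.2⟩) θ = 0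
    · have h0 : Cfsg.classInner (fun c => χ (Subgroup.inclusion hCK c)) ξ₁ = 0 := by
        by_contra hne
        exact over_of_inv K Q C A p hA hAK hAQ hQK hQn hpK hCK hQC hC hχ hθ hθA hχθ hξ₁ hξ₁A
          hne hov
      refine ⟨0, ?_, ?_, ?_⟩
      · rw [h0, Nat.cast_zero]
      · intro h
        subst h
        exact absurd hov hξθ
      · intro _
        simp
    · exact hall ξ₁ hξ₁ hov
  · intro χ χ' hχ hχ' hχinv hχ'inv ξ hξ hξA m m' hm hpm hm' hpm'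
    obtain ⟨θ, hθ, hξθ, hθA⟩ :=
      inv_constituent_below_rel C Q hQC A hAC hAQ hcopAC (Or.inl hsolv) hξ hξA
    obtain ⟨gθ, -⟩ := theta θ hθ hθA
    have hθc := Helper80.isCharacter_of_isIrrCharacter hθ
    have hm0 : Cfsg.classInner (fun c => χ (Subgroup.inclusion hCK c)) ξ ≠ 0 := by
      rw [hm]
      intro h0
      have h1 : m = 0 := by exact_mod_cast h0
      exact hpm (h1 ▸ dvd_zero p)
    have hm0' : Cfsg.classInner (fun c => χ' (Subgroup.inclusion hCK c)) ξ ≠ 0 := by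
      rw [hm']
      intro h0
      have h1 : m' = 0 := by exact_mod_cast h0
      exact hpm' (h1 ▸ dvd_zero p)
    have hχθ : Cfsg.classInner (fun q : Q => χ ⟨q, hQK q.2⟩) θ ≠ 0 :=
      constituent_trans (Subgroup.inclusion hQC)
        (Helper80.isCharacter_comp (Subgroup.inclusion hCK)
          (Helper80.isCharacter_of_isIrrCharacter hχ)) hξ hθc hm0 hξθ
    have hχ'θ : Cfsg.classInner (fun q : Q => χ' ⟨q, hQK q.2⟩) θ ≠ 0 :=
      constituent_trans (Subgroup.inclusion hQC)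
        (Helper80.isCharacter_comp (Subgroup.inclusion hCK)
          (Helper80.isCharacter_of_isIrrCharacter hχ')) hξ hθc hm0' hξθ
    exact gθ.2.1 χ χ' hχ hχ' ⟨hχinv, hχθ⟩ ⟨hχ'inv, hχ'θ⟩ ξ hξ hξθ m m' hm hpm hm' hpm'
  · intro ξ hξ hξA
    obtain ⟨θ, hθ, hξθ, hθA⟩ :=
      inv_constituent_below_rel C Q hQC A hAC hAQ hcopAC (Or.inl hsolv) hξ hξA
    obtain ⟨gθ, -⟩ := theta θ hθ hθA
    obtain ⟨χ, hχ, ⟨hχinv, -⟩, m, hm, hpm⟩ := gθ.2.2 ξ hξ hξθ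
    exact ⟨χ, hχ, hχinv, m, hm, hpm⟩

end Main

section Degree

variable {Γ : Type u} [Group Γ] [Fintype Γ] (C : Subgroup Γ) [Fintype C]
  (A : Subgroup (MulAut Γ)) (p : ℕ) [hpf : Fact p.Prime]

/-- the degree of an invariant character of `C`, modulo `p`, is read off from the multiplicities
of its invariant irreducible constituents when only one of them is prime to `p` -/
theorem degree_congr_of_mult (hAC : ∀ a ∈ A, ∀ c ∈ C, a c ∈ C) (hA : IsPGroup p A)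
    {α : C → ℂ} (hα : Cfsg.IsCharacter C α) (hαinv : InvR A C α) {ξ : C → ℂ}
    (hξ : Cfsg.IsIrrCharacter C ξ) (hξinv : InvR A C ξ) (ε : ℤ)
    (hall : ∀ ξ₁ : C → ℂ, Cfsg.IsIrrCharacter C ξ₁ → InvR A C ξ₁ →
      ∃ m : ℕ, Cfsg.classInner α ξ₁ = (m : ℂ) ∧
        (ξ₁ = ξ → (m : ℤ) ≡ ε [ZMOD p]) ∧ (ξ₁ ≠ ξ → (p : ℤ) ∣ m)) :
    (Cfsg.charDegree α : ℤ) ≡ ε * (Cfsg.charDegree ξ : ℤ) [ZMOD p] := by
  classical
  haveI : Fintype (Cfsg.IrrCharacter C) := Fintype.ofFinite _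
  obtain ⟨av, hav, hexp⟩ := Helper80.character_expansion hα
  have hdeg := Helper80.charDegree_eq_sum hα av hexp
  have hQp : IsPGroup p (resAut C A hAC).range :=
    hA.of_surjective (resAut C A hAC).rangeRestrict (MonoidHom.rangeRestrict_surjective _)
  letI : MulAction (resAut C A hAC).range (Cfsg.IrrCharacter C) :=
    MulAction.compHom _ ((autPerm C).comp (resAut C A hAC).range.subtype)
  have hsmul : ∀ (a : (resAut C A hAC).range) (φ : Cfsg.IrrCharacter C) (n : C),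
      ((a • φ : Cfsg.IrrCharacter C) : C → ℂ) n = (φ : C → ℂ) ((a : MulAut C)⁻¹ n) :=
    fun _ _ _ => rfl
  have hαP : ∀ (a : (resAut C A hAC).range) (n : C), α ((a : MulAut C) n) = α n := by
    rintro ⟨_, q, rfl⟩ n
    exact hαinv q.1 q.2 n _
  have hξP : ∀ (a : (resAut C A hAC).range) (n : C), ξ ((a : MulAut C) n) = ξ n := by
    rintro ⟨_, q, rfl⟩ n
    exact hξinv q.1 q.2 n _
  have hf : ∀ (a : (resAut C A hAC).range) (φ : Cfsg.IrrCharacter C),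
      av (a • φ) * Cfsg.charDegree ((a • φ : Cfsg.IrrCharacter C) : C → ℂ) =
        av φ * Cfsg.charDegree (φ : C → ℂ) := by
    intro a φ
    have h1 : av (a • φ) = av φ := by
      have h2 := hav (a • φ)
      have h3 : Cfsg.classInner (fun n : C => α (((a⁻¹ : (resAut C A hAC).range) : MulAut C) n))
          (fun n : C => (φ : C → ℂ) (((a⁻¹ : (resAut C A hAC).range) : MulAut C) n)) =
          Cfsg.classInner α (φ : C → ℂ) :=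
        classInner_comp_mulEquiv (((a⁻¹ : (resAut C A hAC).range) : MulAut C) : C ≃* C) α
          (φ : C → ℂ)
      have h4 : (fun n : C => α (((a⁻¹ : (resAut C A hAC).range) : MulAut C) n)) = α :=
        funext (fun n => hαP a⁻¹ n)
      have h5 : (fun n : C => (φ : C → ℂ) (((a⁻¹ : (resAut C A hAC).range) : MulAut C) n)) =
          ((a • φ : Cfsg.IrrCharacter C) : C → ℂ) := by
        funext n
        rw [hsmul]
        rfl
      rw [h4, h5, h2, hav φ] at h3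
      exact_mod_cast h3
    have h2 : Cfsg.charDegree ((a • φ : Cfsg.IrrCharacter C) : C → ℂ) =
        Cfsg.charDegree (φ : C → ℂ) := by
      unfold Cfsg.charDegree
      rw [hsmul, map_one]
    rw [h1, h2]
  have hmod := Helper74.sum_modEq_sum_fixed p hQp
    (fun φ => av φ * Cfsg.charDegree (φ : C → ℂ)) hf
    (Finset.univ.filter (fun φ : Cfsg.IrrCharacter C =>
      ∀ a : (resAut C A hAC).range, a • φ = φ)) (fun φ => by simp)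
  have hξmem : (⟨ξ, hξ⟩ : Cfsg.IrrCharacter C) ∈ Finset.univ.filter
      (fun φ : Cfsg.IrrCharacter C => ∀ a : (resAut C A hAC).range, a • φ = φ) := by
    rw [Finset.mem_filter]
    refine ⟨Finset.mem_univ _, fun a => ?_⟩
    apply Subtype.ext
    funext n
    rw [hsmul]
    exact hξP a⁻¹ n
  have hdvd : ∀ φ ∈ (Finset.univ.filter (fun φ : Cfsg.IrrCharacter C =>
      ∀ a : (resAut C A hAC).range, a • φ = φ)).erase ⟨ξ, hξ⟩,
      p ∣ av φ * Cfsg.charDegree (φ : C → ℂ) := by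
    intro φ hφ
    have hne := Finset.ne_of_mem_erase hφ
    have hfix := (Finset.mem_filter.1 (Finset.mem_of_mem_erase hφ)).2
    apply Dvd.dvd.mul_right
    have hφinv : InvR A C (φ : C → ℂ) := by
      intro q hq n h
      have h1 := congrArg (fun ψ : Cfsg.IrrCharacter C => (ψ : C → ℂ) ⟨q n, h⟩)
        (hfix ⟨resAut C A hAC ⟨q, hq⟩, ⟨_, rfl⟩⟩)
      have h2 : (resAut C A hAC ⟨q, hq⟩)⁻¹ ⟨q n, h⟩ = n := by
        apply Subtype.ext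
        rw [resAut_inv_apply]
        exact MulAut.inv_apply_self _ _ _
      simp only [hsmul] at h1
      rw [h2] at h1
      exact h1.symm
    obtain ⟨m, hm, -, hm2⟩ := hall (φ : C → ℂ) φ.2 hφinv
    have h3 : av φ = m := by
      have h4 := hav φ
      rw [hm] at h4
      exact_mod_cast h4.symm
    rw [h3]
    exact Int.natCast_dvd_natCast.1 (hm2 (fun h => hne (Subtype.ext h)))
  obtain ⟨m, hm, hm1, -⟩ := hall ξ hξ hξinv
  have havξ : av ⟨ξ, hξ⟩ = m := by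
    have h4 := hav ⟨ξ, hξ⟩
    rw [hm] at h4
    exact_mod_cast h4.symm
  have h5 : Cfsg.charDegree α ≡ m * Cfsg.charDegree ξ [MOD p] := by
    rw [hdeg]
    refine hmod.trans ?_
    rw [← Finset.add_sum_erase _ (fun φ => av φ * Cfsg.charDegree (φ : C → ℂ)) hξmem, havξ]
    have h6 : m * Cfsg.charDegree ξ + 0 = m * Cfsg.charDegree ξ := add_zero _
    rw [← h6]
    exact Nat.ModEq.add_left _ ((Nat.modEq_zero_iff_dvd).2 (Finset.dvd_sum hdvd))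
  have h7 : (Cfsg.charDegree α : ℤ) ≡ ((m * Cfsg.charDegree ξ : ℕ) : ℤ) [ZMOD p] :=
    Int.natCast_modEq_iff.2 h5
  rw [Nat.cast_mul] at h7
  exact h7.trans (Int.ModEq.mul_right _ (hm1 rfl))

end Degree

/-- an element of `K` of `p`-power order lies in the normal Sylow `p`-subgroup `Q` -/
theorem mem_of_pow_eq_one {Γ : Type*} [Group Γ] [Finite Γ] (K Q : Subgroup Γ) (p : ℕ)
    [hpf : Fact p.Prime] (hQn : ∀ k ∈ K, ∀ q ∈ Q, k * q * k⁻¹ ∈ Q) (hpK : ¬ p ∣ Q.relIndex K)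
    (r : Γ) (hr : r ∈ K) (a : ℕ) (hpow : r ^ (p ^ a) = 1) : r ∈ Q := by
  haveI hn : (Q.subgroupOf K).Normal := by
    constructor
    intro n hn g
    rw [Subgroup.mem_subgroupOf] at hn ⊢
    exact hQn g g.2 n hn
  have h1 : ((⟨r, hr⟩ : K) : K ⧸ Q.subgroupOf K) ^ (p ^ a) = 1 := by
    rw [← QuotientGroup.mk_pow]
    have h0 : (⟨r, hr⟩ : K) ^ (p ^ a) = 1 := Subtype.ext (by simpa using hpow)
    rw [h0]
    rfl
  have h2 : ((⟨r, hr⟩ : K) : K ⧸ Q.subgroupOf K) ^ (Q.relIndex K) = 1 := by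
    have h0 := pow_card_eq_one' (G := K ⧸ Q.subgroupOf K)
      (x := ((⟨r, hr⟩ : K) : K ⧸ Q.subgroupOf K))
    rwa [← Subgroup.index_eq_card] at h0
  have hcop : Nat.Coprime (p ^ a) (Q.relIndex K) :=
    Nat.Coprime.pow_left a ((Nat.Prime.coprime_iff_not_dvd hpf.out).2 hpK)
  have h3 : ((⟨r, hr⟩ : K) : K ⧸ Q.subgroupOf K) = 1 := by
    have h4 : orderOf ((⟨r, hr⟩ : K) : K ⧸ Q.subgroupOf K) ∣ Nat.gcd (p ^ a) (Q.relIndex K) :=
      Nat.dvd_gcd (orderOf_dvd_of_pow_eq_one h1) (orderOf_dvd_of_pow_eq_one h2)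
    rw [Nat.Coprime.gcd_eq_one hcop] at h4
    exact orderOf_eq_one_iff.1 (Nat.dvd_one.1 h4)
  exact (QuotientGroup.eq_one_iff (⟨r, hr⟩ : K)).1 h3

end Cfsg.Agent.Lib.Helper81
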