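import Mathlib
import Cfsg.Prelude.Def_Blocks
import Cfsg.Agent.Lib.Helper81.RealBij1
import Cfsg.Agent.Lib.Helper81.RelGlaub

set_option autoImplicit false
set_option linter.style.haveILetI false
set_option linter.unusedSectionVars false

/-!
Tools for the Isaacs–Navarro bijection: conjugation of functions on a subgroup by normalizing
elements, transitivity of the Sylow normalizer on invariant constituents, reality and the
Glauberman correspondence, and a degree count modulo `p`.
-/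

namespace Cfsg.Agent.Lib.Helper81

open scoped ComplexConjugate

universe u

section ConjFun

variable {Γ : Type u} [Group Γ] (M : Subgroup Γ)

/-- conjugation `m ↦ g⁻¹ m g` by a normalizing element, as an automorphism of the subgroup -/
def conjEquiv (g : Γ) (hg : g ∈ Subgroup.normalizer (M : Set Γ)) : M ≃* M where
  toFun m := ⟨g⁻¹ * m * g, (Subgroup.mem_normalizer_iff''.1 hg m).1 m.2⟩
  invFun m := ⟨g * m * g⁻¹, (Subgroup.mem_normalizer_iff.1 hg m).1 m.2⟩
  left_inv m := Subtype.ext (by simp [mul_assoc])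
  right_inv m := Subtype.ext (by simp [mul_assoc])
  map_mul' a b := Subtype.ext (by simp [mul_assoc])

theorem conjEquiv_coe (g : Γ) (hg : g ∈ Subgroup.normalizer (M : Set Γ)) (m : M) :
    ((conjEquiv M g hg m : M) : Γ) = g⁻¹ * m * g := rfl

/-- the conjugate `m ↦ φ (g⁻¹ m g)` of a function on a subgroup -/
def conjFun (g : Γ) (hg : g ∈ Subgroup.normalizer (M : Set Γ)) (φ : M → ℂ) : M → ℂ :=
  fun m => φ (conjEquiv M g hg m)

theorem conjFun_apply (g : Γ) (hg : g ∈ Subgroup.normalizer (M : Set Γ)) (φ : M → ℂ) (m : M) :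
    conjFun M g hg φ m = φ (conjEquiv M g hg m) := rfl

theorem isIrrCharacter_conjFun (g : Γ) (hg : g ∈ Subgroup.normalizer (M : Set Γ)) {φ : M → ℂ}
    (hφ : Cfsg.IsIrrCharacter M φ) : Cfsg.IsIrrCharacter M (conjFun M g hg φ) :=
  Helper80.isIrrCharacter_comp_mulEquiv (conjEquiv M g hg) hφ

theorem conjFun_one (g : Γ) (hg : g ∈ Subgroup.normalizer (M : Set Γ)) (φ : M → ℂ) :
    conjFun M g hg φ 1 = φ 1 := by
  rw [conjFun_apply, map_one]

theorem charDegree_conjFun (g : Γ) (hg : g ∈ Subgroup.normalizer (M : Set Γ)) (φ : M → ℂ) :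
    Cfsg.charDegree (conjFun M g hg φ) = Cfsg.charDegree φ := by
  unfold Cfsg.charDegree
  rw [conjFun_one]

theorem classInner_conjFun_both [Fintype M] (g : Γ) (hg : g ∈ Subgroup.normalizer (M : Set Γ))
    (F φ : M → ℂ) :
    Cfsg.classInner (conjFun M g hg F) (conjFun M g hg φ) = Cfsg.classInner F φ :=
  classInner_comp_mulEquiv (conjEquiv M g hg) F φ

theorem classInner_conjFun_of_inv [Fintype M] (g : Γ) (hg : g ∈ Subgroup.normalizer (M : Set Γ))
    (F φ : M → ℂ) (hF : conjFun M g hg F = F) :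
    Cfsg.classInner F (conjFun M g hg φ) = Cfsg.classInner F φ := by
  conv_lhs => rw [← hF]
  exact classInner_conjFun_both M g hg F φ

/-- the restriction to `M` of a class function of a larger subgroup is invariant under
conjugation by elements of that subgroup -/
theorem conjFun_res {H : Subgroup Γ} (hMH : M ≤ H) (g : Γ) (hgH : g ∈ H)
    (hg : g ∈ Subgroup.normalizer (M : Set Γ)) {ξ : H → ℂ} (hξ : Cfsg.IsClassFunction H ξ) :
    conjFun M g hg (fun m : M => ξ ⟨m, hMH m.2⟩) = fun m : M => ξ ⟨m, hMH m.2⟩ := by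
  funext m
  show ξ ⟨(conjEquiv M g hg m : M), hMH (conjEquiv M g hg m).2⟩ = ξ ⟨m, hMH m.2⟩
  have h1 := hξ ⟨m, hMH m.2⟩ (⟨g, hgH⟩ : H)⁻¹
  rw [← h1]
  congr 1
  apply Subtype.ext
  simp [conjEquiv_coe]

/-- restricting a conjugate -/
theorem conjFun_restrict {K C : Subgroup Γ} (hCK : C ≤ K) (g : Γ)
    (hgK : g ∈ Subgroup.normalizer (K : Set Γ)) (hgC : g ∈ Subgroup.normalizer (C : Set Γ))
    (θ : K → ℂ) :
    (fun c : C => conjFun K g hgK θ (Subgroup.inclusion hCK c)) =
      conjFun C g hgC (fun c : C => θ (Subgroup.inclusion hCK c)) := by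
  funext c
  show θ (conjEquiv K g hgK (Subgroup.inclusion hCK c)) =
    θ (Subgroup.inclusion hCK (conjEquiv C g hgC c))
  congr 1

/-- the extension-by-zero form of conjugation -/
theorem eq_conjFun_of_extendByZero (g : Γ) (hg : g ∈ Subgroup.normalizer (M : Set Γ))
    {η η' : M → ℂ}
    (h : ∀ y : Γ, Cfsg.extendByZero M η' y = Cfsg.extendByZero M η (g⁻¹ * y * g)) :
    η' = conjFun M g hg η := by
  funext c
  rw [← Helper80.extendByZero_apply_mem M η' c, h]
  exact Helper80.extendByZero_apply_mem M η (conjEquiv M g hg c)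

/-- invariance under a group of automorphisms normalized by `g` passes to conjugates -/
theorem invR_conjFun (A : Subgroup (MulAut Γ)) (g : Γ)
    (hg : g ∈ Subgroup.normalizer (M : Set Γ))
    (hgA : ∀ a ∈ A, (MulAut.conj g)⁻¹ * a * MulAut.conj g ∈ A) {φ : M → ℂ}
    (hφ : InvR A M φ) : InvR A M (conjFun M g hg φ) := by
  intro a ha m h
  show φ (conjEquiv M g hg ⟨a m, h⟩) = φ (conjEquiv M g hg m)
  have h1 : ((conjEquiv M g hg ⟨a m, h⟩ : M) : Γ) =
      ((MulAut.conj g)⁻¹ * a * MulAut.conj g) ((conjEquiv M g hg m : M) : Γ) := by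
    rw [conjEquiv_coe, conjEquiv_coe]
    simp [MulAut.mul_apply, MulAut.conj_apply, mul_assoc]
  have h2 : ((MulAut.conj g)⁻¹ * a * MulAut.conj g) ((conjEquiv M g hg m : M) : Γ) ∈ M := by
    rw [← h1]
    exact (conjEquiv M g hg ⟨a m, h⟩).2
  have h3 := hφ _ (hgA a ha) (conjEquiv M g hg m) h2
  rw [← h3]
  congr 1
  exact Subtype.ext h1

theorem invR_conj (A : Subgroup (MulAut Γ)) {φ : M → ℂ} (hφ : InvR A M φ) :
    InvR A M (fun m => conj (φ m)) := by
  intro a ha m h
  show conj (φ ⟨a m, h⟩) = conj (φ m)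
  rw [hφ a ha m h]

end ConjFun

section Normal

variable {G : Type u} [Group G] (K : Subgroup G) [hK : K.Normal]

theorem mem_normalizer_of_normal (g : G) : g ∈ Subgroup.normalizer (K : Set G) := by
  rw [Subgroup.normalizer_eq_top]
  exact Subgroup.mem_top g

theorem conjChar_eq_conjFun (θ : K → ℂ) (g : G) :
    Helper75.conjChar K θ g = conjFun K g (mem_normalizer_of_normal K g) θ := by
  funext n
  rw [Helper75.conjChar_val K θ g n (conjEquiv K g (mem_normalizer_of_normal K g) n).2]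
  rfl

/-- **transitivity of the Sylow normalizer**: two `P`-invariant conjugate functions on a normal
subgroup are conjugate under the normalizer of the Sylow subgroup `P` -/
theorem exists_normalizer_conjChar [Finite G] (p : ℕ) [Fact p.Prime] (P : Sylow p G)
    (θ θ' : K → ℂ) (hP : (P : Subgroup G) ≤ Helper75.inertia K θ)
    (hP' : (P : Subgroup G) ≤ Helper75.inertia K θ') (g : G)
    (hg : Helper75.conjChar K θ g = θ') :
    ∃ n ∈ Subgroup.normalizer ((P : Subgroup G) : Set G), Helper75.conjChar K θ n = θ' := by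
  have h2 : ((g⁻¹ • P : Sylow p G) : Subgroup G) ≤ Helper75.inertia K θ := by
    intro x hx
    rw [Sylow.coe_subgroup_smul, Subgroup.mem_pointwise_smul_iff_inv_smul_mem] at hx
    have hu : g * x * g⁻¹ ∈ (P : Subgroup G) := by
      have h3 : (MulAut.conj g⁻¹)⁻¹ • x = g * x * g⁻¹ := by
        simp [MulAut.smul_def, MulAut.conj_apply]
      rwa [h3] at hx
    have hu' : Helper75.conjChar K θ' (g * x * g⁻¹) = θ' := hP' hu
    rw [Helper75.mem_inertia_iff]
    have h4 : x = g⁻¹ * ((g * x * g⁻¹) * g) := by group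
    rw [h4, Helper75.conjChar_mul, Helper75.conjChar_mul, hg, hu', ← hg,
      ← Helper75.conjChar_mul, inv_mul_cancel, Helper75.conjChar_one]
  obtain ⟨h, hh⟩ := MulAction.exists_smul_eq (Helper75.inertia K θ)
    ((g⁻¹ • P : Sylow p G).subtype h2) (P.subtype hP)
  simp_rw [Sylow.smul_subtype, Subgroup.smul_def, smul_smul] at hh
  have hn : (h : G) * g⁻¹ ∈ Subgroup.normalizer ((P : Subgroup G) : Set G) :=
    Sylow.smul_eq_iff_mem_normalizer.mp (Sylow.subtype_injective hh)
  refine ⟨((h : G) * g⁻¹)⁻¹, inv_mem hn, ?_⟩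
  have h5 : Helper75.conjChar K θ (h : G)⁻¹ = θ := inv_mem h.2
  rw [mul_inv_rev, inv_inv, Helper75.conjChar_mul, h5, hg]

/-- invariance under `P` in the two formulations -/
theorem le_inertia_of_invR (P : Subgroup G) {θ : K → ℂ}
    (hθ : InvR (P.map (MulAut.conj : G →* MulAut G)) K θ) : P ≤ Helper75.inertia K θ := by
  intro u hu
  rw [Helper75.mem_inertia_iff']
  intro n
  have h1 := hθ (MulAut.conj u) ⟨u, hu, rfl⟩ n (by
    rw [MulAut.conj_apply]
    exact hK.conj_mem n n.2 u)
  rw [← h1]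
  congr 1

end Normal

section GlaubOn

variable {p : ℕ} {G : Type u} {C : Type u} [Group G] [Group C] [Fintype C]
  {ι : C →* G} {Inv : (G → ℂ) → Prop} {Tgt : (C → ℂ) → Prop}

/-- uniqueness of the Glauberman correspondent -/
theorem glaubOn_unique (gl : GlaubCorrOn p ι Inv Tgt) {χ : G → ℂ}
    (hχ : Cfsg.IsIrrCharacter G χ) (hI : Inv χ) {β β' : C → ℂ}
    (hβ : Cfsg.IsIrrCharacter C β) (hT : Tgt β) (hβ' : Cfsg.IsIrrCharacter C β') (hT' : Tgt β')
    {m m' : ℕ} (hm : Cfsg.classInner (fun c => χ (ι c)) β = (m : ℂ)) (hpm : ¬ p ∣ m)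
    (hm' : Cfsg.classInner (fun c => χ (ι c)) β' = (m' : ℂ)) (hpm' : ¬ p ∣ m') : β = β' := by
  obtain ⟨β₀, ε, hβ₀, hT₀, hε, h⟩ := gl.1 χ hχ hI
  have key : ∀ (β₁ : C → ℂ), Cfsg.IsIrrCharacter C β₁ → Tgt β₁ → ∀ k : ℕ,
      Cfsg.classInner (fun c => χ (ι c)) β₁ = (k : ℂ) → ¬ p ∣ k → β₁ = β₀ := by
    intro β₁ hβ₁ hT₁ k hk hpk
    by_contra hne
    obtain ⟨k', hk', -, hk2⟩ := h β₁ hβ₁ hT₁
    have h1 := hk2 hne
    rw [hk] at hk'
    have h2 : k = k' := by exact_mod_cast hk'
    rw [← h2] at h1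
    exact hpk (Int.natCast_dvd_natCast.1 h1)
  rw [key β hβ hT m hm hpm, key β' hβ' hT' m' hm' hpm']

/-- the Glauberman correspondent of a real character is real -/
theorem glaubOn_real_down [Finite C] (gl : GlaubCorrOn p ι Inv Tgt)
    (hTconj : ∀ β : C → ℂ, Tgt β → Tgt (fun c => conj (β c))) {χ : G → ℂ}
    (hχ : Cfsg.IsIrrCharacter G χ) (hI : Inv χ) (hre : ∀ g : G, (χ g).im = 0) {β : C → ℂ}
    (hβ : Cfsg.IsIrrCharacter C β) (hT : Tgt β)
    {m : ℕ} (hm : Cfsg.classInner (fun c => χ (ι c)) β = (m : ℂ)) (hpm : ¬ p ∣ m) :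
    ∀ c : C, (β c).im = 0 := by
  have h1 := classInner_conj_conj (fun c => χ (ι c)) β
  have h2 : (fun c : C => conj (χ (ι c))) = fun c => χ (ι c) :=
    funext fun c => Complex.conj_eq_iff_im.2 (hre _)
  rw [h2, hm, Complex.conj_natCast] at h1
  have h3 := glaubOn_unique gl hχ hI hβ hT (Helper80.isIrrCharacter_conj hβ) (hTconj β hT)
    hm hpm h1 hpm
  intro c
  exact Complex.conj_eq_iff_im.1 (congrFun h3 c).symm

/-- a character whose Glauberman correspondent is real is real -/
theorem glaubOn_real_up [Finite G] (gl : GlaubCorrOn p ι Inv Tgt)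
    (hIconj : ∀ χ : G → ℂ, Inv χ → Inv (fun g => conj (χ g))) {χ : G → ℂ}
    (hχ : Cfsg.IsIrrCharacter G χ) (hI : Inv χ) {β : C → ℂ}
    (hβ : Cfsg.IsIrrCharacter C β) (hT : Tgt β) (hre : ∀ c : C, (β c).im = 0)
    {m : ℕ} (hm : Cfsg.classInner (fun c => χ (ι c)) β = (m : ℂ)) (hpm : ¬ p ∣ m) :
    ∀ g : G, (χ g).im = 0 := by
  have h1 := classInner_conj_conj (fun c => χ (ι c)) β
  have h2 : (fun c : C => conj (β c)) = β :=
    funext fun c => Complex.conj_eq_iff_im.2 (hre _)
  rw [h2, hm, Complex.conj_natCast] at h1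
  have h3 := gl.2.1 χ (fun g => conj (χ g)) hχ (Helper80.isIrrCharacter_conj hχ) hI
    (hIconj χ hI) β hβ hT m m hm hpm h1 hpm
  intro g
  exact Complex.conj_eq_iff_im.1 (congrFun h3 g).symm

end GlaubOn

/-- two finite types related by a relation that is a bijection have the same cardinality -/
theorem card_eq_of_rel {α β : Type*} (R : α → β → Prop) (h1 : ∀ a, ∃ b, R a b)
    (h2 : ∀ b, ∃ a, R a b) (h3 : ∀ a b b', R a b → R a b' → b = b')
    (h4 : ∀ a a' b, R a b → R a' b → a = a') : Nat.card α = Nat.card β := by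
  choose f hf using h1
  have hinj : Function.Injective f := fun a a' h => h4 a a' (f a) (hf a) (h ▸ hf a')
  have hsurj : Function.Surjective f := fun b => by
    obtain ⟨a, ha⟩ := h2 b
    exact ⟨a, h3 a _ _ (hf a) ha⟩
  exact Nat.card_congr (Equiv.ofBijective f ⟨hinj, hsurj⟩)

section Degree

variable {Γ : Type u} [Group Γ] [Fintype Γ] (C : Subgroup Γ) [Fintype C]
  (A : Subgroup (MulAut Γ)) (p : ℕ) [hpf : Fact p.Prime]

/-- the degree of an invariant character all of whose invariant irreducible constituents occur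
once and have the same degree `d`: modulo `p` it is `d` times their number -/
theorem degree_congr_card (hAC : ∀ a ∈ A, ∀ c ∈ C, a c ∈ C) (hA : IsPGroup p A)
    {α : C → ℂ} (hα : Cfsg.IsCharacter C α) (hαinv : InvR A C α) (d : ℕ)
    (hmult : ∀ φ : C → ℂ, Cfsg.IsIrrCharacter C φ → InvR A C φ → Cfsg.classInner α φ ≠ 0 →
      Cfsg.classInner α φ = 1 ∧ Cfsg.charDegree φ = d) :
    Cfsg.charDegree α ≡ Nat.card {φ : Cfsg.IrrCharacter C //
      InvR A C (φ : C → ℂ) ∧ Cfsg.classInner α (φ : C → ℂ) ≠ 0} * d [MOD p] := by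
  classical
  haveI : Fintype (Cfsg.IrrCharacter C) := Fintype.ofFinite _
  obtain ⟨av, hav, hexp⟩ := Helper80.character_expansion hα
  have hdeg := Helper80.charDegree_eq_sum hα av hexp
  have hQp : IsPGroup p (resAut C A hAC).range :=
    hA.of_surjective (resAut C A hAC).rangeRestrict (MonoidHom.rangeRestrict_surjective _)
  letI : MulAction (resAut C A hAC).range (Cfsg.IrrCharacter C) :=
    MulAction.compHom _ ((autPerm C).comp (resAut C A hAC).range.subtype)
  have hsmul : ∀ (a : (resAut C A hAC).range) (φ : Cfsg.IrrCharacter C) (n : C),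
      ((a • φ : Cfsg.IrrCharacter C) : C → ℂ) n = (φ : C → ℂ) ((a : MulAut C)⁻¹ n) :=
    fun _ _ _ => rfl
  have hαP : ∀ (a : (resAut C A hAC).range) (n : C), α ((a : MulAut C) n) = α n := by
    rintro ⟨_, q, rfl⟩ n
    exact hαinv q.1 q.2 n _
  have hf : ∀ (a : (resAut C A hAC).range) (φ : Cfsg.IrrCharacter C),
      av (a • φ) * Cfsg.charDegree ((a • φ : Cfsg.IrrCharacter C) : C → ℂ) =
        av φ * Cfsg.charDegree (φ : C → ℂ) := by
    intro a φ
    have h1 : av (a • φ) = av φ := by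
      have h2 := hav (a • φ)
      have h3 : Cfsg.classInner (fun n : C => α (((a⁻¹ : (resAut C A hAC).range) : MulAut C) n))
          (fun n : C => (φ : C → ℂ) (((a⁻¹ : (resAut C A hAC).range) : MulAut C) n)) =
          Cfsg.classInner α (φ : C → ℂ) :=
        classInner_comp_mulEquiv (((a⁻¹ : (resAut C A hAC).range) : MulAut C) : C ≃* C) α
          (φ : C → ℂ)
      have h4 : (fun n : C => α (((a⁻¹ : (resAut C A hAC).range) : MulAut C) n)) = α :=
        funext (fun n => hαP a⁻¹ n)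
      have h5 : (fun n : C => (φ : C → ℂ) (((a⁻¹ : (resAut C A hAC).range) : MulAut C) n)) =
          ((a • φ : Cfsg.IrrCharacter C) : C → ℂ) := by
        funext n
        rw [hsmul]
        rfl
      rw [h4, h5, h2, hav φ] at h3
      exact_mod_cast h3
    have h2 : Cfsg.charDegree ((a • φ : Cfsg.IrrCharacter C) : C → ℂ) =
        Cfsg.charDegree (φ : C → ℂ) := by
      unfold Cfsg.charDegree
      rw [hsmul, map_one]
    rw [h1, h2]
  have hmod := Helper74.sum_modEq_sum_fixed p hQp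
    (fun φ => av φ * Cfsg.charDegree (φ : C → ℂ)) hf
    (Finset.univ.filter (fun φ : Cfsg.IrrCharacter C =>
      ∀ a : (resAut C A hAC).range, a • φ = φ)) (fun φ => by simp)
  -- fixed points are the invariant characters
  have hfix_iff : ∀ φ : Cfsg.IrrCharacter C,
      (∀ a : (resAut C A hAC).range, a • φ = φ) ↔ InvR A C (φ : C → ℂ) := by
    intro φ
    constructor
    · intro hfix q hq n h
      have h1 := congrArg (fun ψ : Cfsg.IrrCharacter C => (ψ : C → ℂ) ⟨q n, h⟩)
        (hfix ⟨resAut C A hAC ⟨q, hq⟩, ⟨_, rfl⟩⟩)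
      have h2 : (resAut C A hAC ⟨q, hq⟩)⁻¹ ⟨q n, h⟩ = n := by
        apply Subtype.ext
        rw [resAut_inv_apply]
        exact MulAut.inv_apply_self _ _ _
      simp only [hsmul] at h1
      rw [h2] at h1
      exact h1.symm
    · intro hinv a
      have hφP : ∀ (a : (resAut C A hAC).range) (n : C),
          (φ : C → ℂ) ((a : MulAut C) n) = (φ : C → ℂ) n := by
        rintro ⟨_, q, rfl⟩ n
        exact hinv q.1 q.2 n _
      apply Subtype.ext
      funext n
      rw [hsmul]
      exact hφP a⁻¹ n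
  have hS : ∑ φ ∈ Finset.univ.filter (fun φ : Cfsg.IrrCharacter C =>
        ∀ a : (resAut C A hAC).range, a • φ = φ), av φ * Cfsg.charDegree (φ : C → ℂ) =
      ∑ _φ ∈ Finset.univ.filter (fun φ : Cfsg.IrrCharacter C =>
        InvR A C (φ : C → ℂ) ∧ Cfsg.classInner α (φ : C → ℂ) ≠ 0), d := by
    symm
    rw [← Finset.sum_subset (s₁ := Finset.univ.filter (fun φ : Cfsg.IrrCharacter C =>
        InvR A C (φ : C → ℂ) ∧ Cfsg.classInner α (φ : C → ℂ) ≠ 0))
      (s₂ := Finset.univ.filter (fun φ : Cfsg.IrrCharacter C =>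
        ∀ a : (resAut C A hAC).range, a • φ = φ))
      (f := fun φ => av φ * Cfsg.charDegree (φ : C → ℂ))]
    · refine Finset.sum_congr rfl (fun φ hφ => ?_)
      obtain ⟨hinv, hne⟩ := (Finset.mem_filter.1 hφ).2
      obtain ⟨h1, h2⟩ := hmult φ.1 φ.2 hinv hne
      have h3 : av φ = 1 := by
        have h4 := hav φ
        rw [h1] at h4
        exact_mod_cast h4.symm
      rw [h3, h2, one_mul]
    · intro φ hφ
      rw [Finset.mem_filter] at hφ ⊢
      exact ⟨Finset.mem_univ _, (hfix_iff φ).2 hφ.2.1⟩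
    · intro φ hφ hφ'
      have hinv := (hfix_iff φ).1 (Finset.mem_filter.1 hφ).2
      have h0 : Cfsg.classInner α (φ : C → ℂ) = 0 := by
        by_contra hne
        exact hφ' (Finset.mem_filter.2 ⟨Finset.mem_univ _, hinv, hne⟩)
      have h3 : av φ = 0 := by
        have h4 := hav φ
        rw [h0] at h4
        exact_mod_cast h4.symm
      rw [h3, zero_mul]
  rw [hS, Finset.sum_const, smul_eq_mul, ← hdeg] at hmod
  have hcard : Nat.card {φ : Cfsg.IrrCharacter C //
      InvR A C (φ : C → ℂ) ∧ Cfsg.classInner α (φ : C → ℂ) ≠ 0} =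
      (Finset.univ.filter (fun φ : Cfsg.IrrCharacter C =>
        InvR A C (φ : C → ℂ) ∧ Cfsg.classInner α (φ : C → ℂ) ≠ 0)).card := by
    rw [Nat.card_eq_fintype_card, Fintype.card_subtype]
  rw [hcard]
  exact hmod

end Degree

end Cfsg.Agent.Lib.Helper81
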