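import Mathlib
import Cfsg.Prelude.Def_Blocks
import Cfsg.Agent.Lib.Helper81.RealPrime
import Cfsg.Agent.Lib.Helper81.RealPrimeGrp
import Cfsg.Agent.Lib.Helper81.RealGlaub
import Cfsg.Agent.Lib.Helper81.RelGlaub
import Cfsg.Agent.S4866

set_option autoImplicit false
set_option linter.style.haveILetI false
set_option linter.unusedSectionVars false

/-!
Real classes and the Sylow normalizer (Isaacs–Navarro): every real class meets `N_G(P)`.
-/

namespace Cfsg.Agent.Lib.Helper81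

open scoped ComplexConjugate

universe u

/-- the orbit count of S4866 for a subgroup `N` normalizing a subgroup `C ≤ N` of odd index -/
theorem orbits_real_rel {G : Type u} [Group G] [Finite G] (N C : Subgroup G) (hCN : C ≤ N)
    (hnorm : ∀ n ∈ N, ∀ c ∈ C, n * c * n⁻¹ ∈ C) (hodd : Odd (C.relIndex N)) :
    Nat.card (Quot (fun θ η : {θ : Cfsg.IrrCharacter ↥C // (∀ k : ↥C, ((θ : ↥C → ℂ) k).im = 0)} =>
      ∃ g ∈ N, ∀ k k' : ↥C, (k' : G) = g * (k : G) * g⁻¹ →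
        (η.1 : ↥C → ℂ) k' = (θ.1 : ↥C → ℂ) k)) =
    Nat.card (Quot (fun x y : {x : ↥C // IsConj x x⁻¹} =>
      ∃ g ∈ N, (y.1 : G) = g * x.1 * g⁻¹)) := by
  classical
  haveI hn : (C.subgroupOf N).Normal := by
    refine ⟨fun c hc n => ?_⟩
    rw [Subgroup.mem_subgroupOf] at hc ⊢
    exact hnorm n n.2 c hc
  have h0 := Cfsg.Agent.S4866.result (C.subgroupOf N) hodd
  let e : ↥(C.subgroupOf N) ≃* ↥C := Subgroup.subgroupOfEquivOfLe hCN
  have he : ∀ c : ↥(C.subgroupOf N), ((e c : ↥C) : G) = ((c : ↥N) : G) := fun _ => rfl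
  have hes : ∀ c : ↥C, (((e.symm c : ↥(C.subgroupOf N)) : ↥N) : G) = (c : G) := fun _ => rfl
  -- characters
  let E₁ : {θ : Cfsg.IrrCharacter ↥(C.subgroupOf N) //
        (∀ k : ↥(C.subgroupOf N), ((θ : ↥(C.subgroupOf N) → ℂ) k).im = 0)} ≃
      {θ : Cfsg.IrrCharacter ↥C // (∀ k : ↥C, ((θ : ↥C → ℂ) k).im = 0)} :=
    { toFun := fun θ => ⟨⟨fun c => (θ.1 : ↥(C.subgroupOf N) → ℂ) (e.symm c),
        Helper80.isIrrCharacter_comp_mulEquiv e.symm θ.1.2⟩, fun k => θ.2 _⟩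
      invFun := fun θ => ⟨⟨fun c => (θ.1 : ↥C → ℂ) (e c),
        Helper80.isIrrCharacter_comp_mulEquiv e θ.1.2⟩, fun k => θ.2 _⟩
      left_inv := fun θ => by
        apply Subtype.ext
        apply Subtype.ext
        funext c
        show (θ.1 : ↥(C.subgroupOf N) → ℂ) (e.symm (e c)) = _
        rw [MulEquiv.symm_apply_apply]
      right_inv := fun θ => by
        apply Subtype.ext
        apply Subtype.ext
        funext c
        show (θ.1 : ↥C → ℂ) (e (e.symm c)) = _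
        rw [MulEquiv.apply_symm_apply] }
  have hE₁ : ∀ (θ : {θ : Cfsg.IrrCharacter ↥(C.subgroupOf N) //
        (∀ k : ↥(C.subgroupOf N), ((θ : ↥(C.subgroupOf N) → ℂ) k).im = 0)}) (c : ↥C),
      ((E₁ θ).1 : ↥C → ℂ) c = (θ.1 : ↥(C.subgroupOf N) → ℂ) (e.symm c) := fun _ _ => rfl
  have q1 := Nat.card_congr (Quot.congr (ra := fun θ η : {θ : Cfsg.IrrCharacter ↥(C.subgroupOf N) //
        (∀ k : ↥(C.subgroupOf N), ((θ : ↥(C.subgroupOf N) → ℂ) k).im = 0)} =>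
        ∃ g : ↥N, ∀ k k' : ↥(C.subgroupOf N), (k' : ↥N) = g * (k : ↥N) * g⁻¹ →
          (η.1 : ↥(C.subgroupOf N) → ℂ) k' = (θ.1 : ↥(C.subgroupOf N) → ℂ) k)
      (rb := fun θ η : {θ : Cfsg.IrrCharacter ↥C // (∀ k : ↥C, ((θ : ↥C → ℂ) k).im = 0)} =>
        ∃ g ∈ N, ∀ k k' : ↥C, (k' : G) = g * (k : G) * g⁻¹ →
          (η.1 : ↥C → ℂ) k' = (θ.1 : ↥C → ℂ) k) E₁ (by
    intro θ η
    constructor
    · rintro ⟨g, hg⟩
      refine ⟨(g : G), g.2, fun k k' hk => ?_⟩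
      rw [hE₁, hE₁]
      apply hg
      apply Subtype.ext
      rw [hes]
      exact hk
    · rintro ⟨g, hgN, hg⟩
      refine ⟨⟨g, hgN⟩, fun k k' hk => ?_⟩
      have h1 := hg (e k) (e k') (by
        rw [he, he, hk]
        rfl)
      rw [hE₁, hE₁, MulEquiv.symm_apply_apply, MulEquiv.symm_apply_apply] at h1
      exact h1))
  -- elements
  let E₂ : {x : ↥(C.subgroupOf N) // IsConj x x⁻¹} ≃ {x : ↥C // IsConj x x⁻¹} :=
    { toFun := fun x => ⟨e x.1, by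
        have := e.toMonoidHom.map_isConj x.2
        simpa using this⟩
      invFun := fun x => ⟨e.symm x.1, by
        have := e.symm.toMonoidHom.map_isConj x.2
        simpa using this⟩
      left_inv := fun x => Subtype.ext (MulEquiv.symm_apply_apply e x.1)
      right_inv := fun x => Subtype.ext (MulEquiv.apply_symm_apply e x.1) }
  have q2 := Nat.card_congr (Quot.congr (ra := fun x y : {x : ↥(C.subgroupOf N) // IsConj x x⁻¹} =>
        ∃ g : ↥N, (y.1 : ↥N) = g * x.1 * g⁻¹)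
      (rb := fun x y : {x : ↥C // IsConj x x⁻¹} => ∃ g ∈ N, (y.1 : G) = g * x.1 * g⁻¹) E₂ (by
    intro x y
    constructor
    · rintro ⟨g, hg⟩
      refine ⟨(g : G), g.2, ?_⟩
      have := congrArg (fun z : ↥N => (z : G)) hg
      exact this
    · rintro ⟨g, hgN, hg⟩
      refine ⟨⟨g, hgN⟩, ?_⟩
      apply Subtype.ext
      exact hg))
  rw [← q1, ← q2]
  exact h0


/-- an invariant character of degree prime to `p` has an invariant irreducible constituent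
(the acting group being a `p`-group) -/
theorem exists_inv_constituent {Γ : Type u} [Group Γ] (N : Subgroup Γ) [Fintype N]
    (Q : Subgroup (MulAut Γ)) (hQN : ∀ q ∈ Q, ∀ n ∈ N, q n ∈ N) (p : ℕ) (hp : p.Prime)
    (hQp : IsPGroup p (resAut N Q hQN).range)
    {α : N → ℂ} (hα : Cfsg.IsCharacter N α) (hαinv : InvR Q N α)
    (hdeg : ¬ p ∣ Cfsg.charDegree α) :
    ∃ θ : N → ℂ, Cfsg.IsIrrCharacter N θ ∧ InvR Q N θ ∧ Cfsg.classInner α θ ≠ 0 := by
  classical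
  haveI : Fact p.Prime := ⟨hp⟩
  haveI : Fintype (Cfsg.IrrCharacter N) := Fintype.ofFinite _
  obtain ⟨av, hav, hexp⟩ := Helper80.character_expansion hα
  have hsum := Helper80.charDegree_eq_sum hα av hexp
  letI : MulAction (resAut N Q hQN).range (Cfsg.IrrCharacter N) :=
    MulAction.compHom _ ((autPerm N).comp (resAut N Q hQN).range.subtype)
  have hsmul : ∀ (a : (resAut N Q hQN).range) (φ : Cfsg.IrrCharacter N) (n : N),
      ((a • φ : Cfsg.IrrCharacter N) : N → ℂ) n = (φ : N → ℂ) ((a : MulAut N)⁻¹ n) :=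
    fun _ _ _ => rfl
  have hαP : ∀ (a : (resAut N Q hQN).range) (n : N), α ((a : MulAut N) n) = α n := by
    rintro ⟨_, q, rfl⟩ n
    exact hαinv q.1 q.2 n _
  have hf : ∀ (a : (resAut N Q hQN).range) (φ : Cfsg.IrrCharacter N),
      av (a • φ) * Cfsg.charDegree ((a • φ : Cfsg.IrrCharacter N) : N → ℂ) =
        av φ * Cfsg.charDegree (φ : N → ℂ) := by
    intro a φ
    have h1 : av (a • φ) = av φ := by
      have h2 := hav (a • φ)
      have h3 : Cfsg.classInner (fun n : N => α (((a⁻¹ : (resAut N Q hQN).range) : MulAut N) n))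
          (fun n : N => (φ : N → ℂ) (((a⁻¹ : (resAut N Q hQN).range) : MulAut N) n)) =
          Cfsg.classInner α (φ : N → ℂ) :=
        classInner_comp_mulEquiv (((a⁻¹ : (resAut N Q hQN).range) : MulAut N) : N ≃* N) α
          (φ : N → ℂ)
      have h4 : (fun n : N => α (((a⁻¹ : (resAut N Q hQN).range) : MulAut N) n)) = α :=
        funext (fun n => hαP a⁻¹ n)
      have h5 : (fun n : N => (φ : N → ℂ) (((a⁻¹ : (resAut N Q hQN).range) : MulAut N) n)) =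
          ((a • φ : Cfsg.IrrCharacter N) : N → ℂ) := by
        funext n
        rw [hsmul]
        rfl
      rw [h4, h5, h2, hav φ] at h3
      exact_mod_cast h3
    have h2 : Cfsg.charDegree ((a • φ : Cfsg.IrrCharacter N) : N → ℂ) =
        Cfsg.charDegree (φ : N → ℂ) := by
      unfold Cfsg.charDegree
      rw [hsmul, map_one]
    rw [h1, h2]
  have hmod := Helper74.sum_modEq_sum_fixed p hQp
    (fun φ => av φ * Cfsg.charDegree (φ : N → ℂ)) hf
    (Finset.univ.filter (fun φ : Cfsg.IrrCharacter N =>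
      ∀ a : (resAut N Q hQN).range, a • φ = φ)) (fun φ => by simp)
  rw [← hsum] at hmod
  have hex : ∃ φ ∈ Finset.univ.filter (fun φ : Cfsg.IrrCharacter N =>
      ∀ a : (resAut N Q hQN).range, a • φ = φ), av φ ≠ 0 := by
    by_contra hcon
    push Not at hcon
    have h0 : ∑ φ ∈ Finset.univ.filter (fun φ : Cfsg.IrrCharacter N =>
        ∀ a : (resAut N Q hQN).range, a • φ = φ), av φ * Cfsg.charDegree (φ : N → ℂ) = 0 :=
      Finset.sum_eq_zero (fun φ hφ => by rw [hcon φ hφ, zero_mul])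
    rw [h0] at hmod
    exact hdeg ((Nat.modEq_zero_iff_dvd).1 hmod)
  obtain ⟨φ, hφ, hne⟩ := hex
  have hfix := (Finset.mem_filter.1 hφ).2
  refine ⟨φ.1, φ.2, ?_, ?_⟩
  · intro q hq n h
    have h1 := congrArg (fun ψ : Cfsg.IrrCharacter N => (ψ : N → ℂ) ⟨q n, h⟩)
      (hfix ⟨resAut N Q hQN ⟨q, hq⟩, ⟨_, rfl⟩⟩)
    have h2 : (resAut N Q hQN ⟨q, hq⟩)⁻¹ ⟨q n, h⟩ = n := by
      apply Subtype.ext
      rw [resAut_inv_apply]
      exact MulAut.inv_apply_self _ _ _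
    simp only [hsmul] at h1
    rw [h2] at h1
    exact h1.symm
  · rw [hav φ]
    exact_mod_cast hne


/-- **Special case**: `K` normal of odd index and of order prime to `p`; every real element is
conjugate to an element centralizing the Sylow `p`-subgroup `P`. -/
theorem real_conj_centralizer {G : Type u} [Group G] [Finite G] (K : Subgroup G) [hKn : K.Normal]
    (hodd : Odd K.index) (p : ℕ) [hp : Fact p.Prime] (hpK : ¬ p ∣ Nat.card K)
    (hreal : ∀ χ : Cfsg.IrrCharacter G, (∀ g : G, ((χ : G → ℂ) g).im = 0) →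
      ¬ p ∣ Cfsg.charDegree (χ : G → ℂ))
    (P : Sylow p G) (x : G) (hx : IsConj x x⁻¹) :
    ∃ g : G, ∀ u ∈ P, u * (g * x * g⁻¹) = g * x * g⁻¹ * u := by
  classical
  haveI := Fintype.ofFinite G
  haveI : Fintype (Cfsg.IrrCharacter G) := Fintype.ofFinite _
  haveI : Fintype (Cfsg.IrrCharacter ↥K) := Fintype.ofFinite _
  let A : Subgroup (MulAut G) := (P : Subgroup G).map (MulAut.conj : G →* MulAut G)
  have hAK : ∀ q ∈ A, ∀ g ∈ K, q g ∈ K := by
    rintro _ ⟨u, hu, rfl⟩ g hg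
    rw [MulAut.conj_apply]
    exact hKn.conj_mem g hg u
  have hAp : IsPGroup p (resAut K A hAK).range :=
    IsPGroup.of_surjective (P.2.map _) (resAut K A hAK).rangeRestrict
      (MonoidHom.rangeRestrict_surjective _)
  haveI : Fintype (K ⊓ fixSub A : Subgroup G) := Fintype.ofFinite _
  have gl := glaub_rel K A hAK p hp.out hpK hAp
  have hfix : ∀ c : G, c ∈ fixSub A ↔ ∀ u ∈ P, u * c = c * u := by
    intro c
    rw [mem_fixSub]
    constructor
    · intro h u hu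
      have h1 := h (MulAut.conj u) ⟨u, hu, rfl⟩
      rw [MulAut.conj_apply] at h1
      calc u * c = u * c * u⁻¹ * u := by group
        _ = c * u := by rw [h1]
    · rintro h _ ⟨u, hu, rfl⟩
      rw [MulAut.conj_apply, h u hu]
      group
  have hCN : K ⊓ fixSub A ≤ Subgroup.normalizer ((P : Subgroup G) : Set G) := by
    intro c hc
    have hcf := (hfix c).1 hc.2
    rw [Subgroup.mem_normalizer_iff]
    intro h
    constructor
    · intro hh
      have h1 : c * h * c⁻¹ = h := by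
        rw [← hcf h hh]
        group
      rw [h1]
      exact hh
    · intro hh
      have h1 := hcf _ hh
      have h2 : h = c * h * c⁻¹ := by
        have h3 : c * h = c * (c * h * c⁻¹) := by
          rw [← h1]
          group
        exact mul_left_cancel h3
      rw [h2]
      exact hh
  have hnorm : ∀ n ∈ Subgroup.normalizer ((P : Subgroup G) : Set G),
      ∀ c ∈ K ⊓ fixSub A, n * c * n⁻¹ ∈ K ⊓ fixSub A := by
    intro n hn c hc
    refine ⟨hKn.conj_mem c hc.1 n, (hfix _).2 ?_⟩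
    intro u hu
    have hcf := (hfix c).1 hc.2
    have hu' : n⁻¹ * u * n ∈ (P : Subgroup G) := (Subgroup.mem_normalizer_iff''.1 hn u).1 hu
    have h1 := hcf _ hu'
    calc u * (n * c * n⁻¹) = n * ((n⁻¹ * u * n) * c) * n⁻¹ := by group
      _ = n * (c * (n⁻¹ * u * n)) * n⁻¹ := by rw [h1]
      _ = n * c * n⁻¹ * u := by group
  have hPK : (P : Subgroup G) ⊓ K = ⊥ := by
    have h1 : IsPGroup p ((P : Subgroup G) ⊓ K : Subgroup G) := P.2.to_le inf_le_left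
    obtain ⟨n, hn⟩ := IsPGroup.iff_card.1 h1
    have h2 : Nat.card ((P : Subgroup G) ⊓ K : Subgroup G) ∣ Nat.card K :=
      Subgroup.card_dvd_of_le inf_le_right
    rw [hn] at h2
    rcases Nat.eq_zero_or_pos n with h0 | hpos
    · rw [h0, pow_zero] at hn
      exact Subgroup.eq_bot_of_card_eq _ hn
    · exact absurd ((dvd_pow_self p hpos.ne').trans h2) hpK
  have hKNC : K ⊓ Subgroup.normalizer ((P : Subgroup G) : Set G) ≤ K ⊓ fixSub A := by
    intro k hk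
    refine ⟨hk.1, (hfix _).2 ?_⟩
    intro u hu
    have h1 : k * u * k⁻¹ * u⁻¹ ∈ (P : Subgroup G) :=
      mul_mem ((Subgroup.mem_normalizer_iff.1 hk.2 u).1 hu) (inv_mem hu)
    have h2 : k * u * k⁻¹ * u⁻¹ ∈ K := by
      have h3 : k * u * k⁻¹ * u⁻¹ = k * (u * k⁻¹ * u⁻¹) := by group
      rw [h3]
      exact mul_mem hk.1 (hKn.conj_mem _ (inv_mem hk.1) u)
    have h3 : k * u * k⁻¹ * u⁻¹ ∈ (P : Subgroup G) ⊓ K := ⟨h1, h2⟩
    rw [hPK, Subgroup.mem_bot] at h3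
    calc u * k = (k * u * k⁻¹ * u⁻¹)⁻¹ * (k * u) := by group
      _ = k * u := by rw [h3]; group
  have hoddC : Odd ((K ⊓ fixSub A).relIndex (Subgroup.normalizer ((P : Subgroup G) : Set G))) := by
    have h1 : (K ⊓ fixSub A).relIndex (Subgroup.normalizer ((P : Subgroup G) : Set G)) ∣
        (K ⊓ Subgroup.normalizer ((P : Subgroup G) : Set G)).relIndex
          (Subgroup.normalizer ((P : Subgroup G) : Set G)) :=
      Subgroup.relIndex_dvd_of_le_left _ hKNC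
    rw [Subgroup.inf_relIndex_right] at h1
    exact Odd.of_dvd_nat hodd (h1.trans (Subgroup.relIndex_dvd_index_of_normal K _))
  have e1 := Cfsg.Agent.S4866.result K hodd
  have e2 := orbits_real_rel (Subgroup.normalizer ((P : Subgroup G) : Set G)) (K ⊓ fixSub A)
    hCN hnorm hoddC
  -- conjugation of invariant functions
  have hconj : ∀ χ : ↥K → ℂ, InvR A K χ → InvR A K (fun g => conj (χ g)) := by
    intro χ hχ a ha g h
    show conj (χ ⟨a g, h⟩) = conj (χ g)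
    rw [hχ a ha g h]
  -- the Glauberman inverse on real characters
  have hinvex : ∀ θ : {θ : Cfsg.IrrCharacter ↥(K ⊓ fixSub A : Subgroup G) //
        (∀ k : ↥(K ⊓ fixSub A : Subgroup G), ((θ : ↥(K ⊓ fixSub A : Subgroup G) → ℂ) k).im = 0)},
      ∃ χ : {χ : Cfsg.IrrCharacter ↥K // (∀ k : ↥K, ((χ : ↥K → ℂ) k).im = 0)},
        InvR A K (χ.1 : ↥K → ℂ) ∧ ∃ m : ℕ,
          Cfsg.classInner (fun c : ↥(K ⊓ fixSub A : Subgroup G) =>
            (χ.1 : ↥K → ℂ) (Subgroup.inclusion inf_le_left c))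
            (θ.1 : ↥(K ⊓ fixSub A : Subgroup G) → ℂ) = (m : ℂ) ∧ ¬ p ∣ m := by
    intro β
    obtain ⟨χ, hχ, hI, m, hm, hpm⟩ := gl.2.2 β.1.1 β.1.2
    have hχc : Cfsg.IsIrrCharacter K (fun g => conj (χ g)) := Helper80.isIrrCharacter_conj hχ
    have h1 : Cfsg.classInner (fun c : ↥(K ⊓ fixSub A : Subgroup G) =>
        conj (χ (Subgroup.inclusion inf_le_left c)))
        (β.1 : ↥(K ⊓ fixSub A : Subgroup G) → ℂ) = (m : ℂ) := by
      have h2 := classInner_conj_conj (fun c : ↥(K ⊓ fixSub A : Subgroup G) =>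
        χ (Subgroup.inclusion inf_le_left c)) (β.1 : ↥(K ⊓ fixSub A : Subgroup G) → ℂ)
      rw [hm, Complex.conj_natCast] at h2
      rw [← h2]
      congr 1
      funext c
      exact (Complex.conj_eq_iff_im.2 (β.2 c)).symm
    have h3 := gl.2.1 χ (fun g => conj (χ g)) hχ hχc hI (hconj χ hI) β.1.1 β.1.2 m m hm hpm
      h1 hpm
    have hr : ∀ g : ↥K, (χ g).im = 0 := fun g => Complex.conj_eq_iff_im.1 (congrFun h3 g).symm
    exact ⟨⟨⟨χ, hχ⟩, hr⟩, hI, m, hm, hpm⟩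
  choose inv hinvI hinvm using hinvex
  -- well-definedness on orbits
  have hwd : ∀ θ θ' : {θ : Cfsg.IrrCharacter ↥(K ⊓ fixSub A : Subgroup G) //
        (∀ k : ↥(K ⊓ fixSub A : Subgroup G), ((θ : ↥(K ⊓ fixSub A : Subgroup G) → ℂ) k).im = 0)},
      (∃ g ∈ Subgroup.normalizer ((P : Subgroup G) : Set G),
        ∀ k k' : ↥(K ⊓ fixSub A : Subgroup G), (k' : G) = g * (k : G) * g⁻¹ →
          (θ'.1 : ↥(K ⊓ fixSub A : Subgroup G) → ℂ) k' =
            (θ.1 : ↥(K ⊓ fixSub A : Subgroup G) → ℂ) k) →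
      ∃ g : G, ∀ k k' : ↥K, (k' : G) = g * (k : G) * g⁻¹ →
        ((inv θ').1 : ↥K → ℂ) k' = ((inv θ).1 : ↥K → ℂ) k := by
    rintro θ θ' ⟨n, hn, hnθ⟩
    obtain ⟨m, hm, hpm⟩ := hinvm θ
    obtain ⟨m', hm', hpm'⟩ := hinvm θ'
    let B : Subgroup (MulAut G) :=
      (Subgroup.normalizer ((P : Subgroup G) : Set G)).map (MulAut.conj : G →* MulAut G)
    have hBK : ∀ a ∈ B, ∀ h ∈ K, a h ∈ K := by
      rintro _ ⟨u, hu, rfl⟩ g hg
      rw [MulAut.conj_apply]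
      exact hKn.conj_mem g hg u
    have hBC : ∀ a ∈ B, ∀ s ∈ (K ⊓ fixSub A : Subgroup G), a s ∈ (K ⊓ fixSub A : Subgroup G) := by
      rintro _ ⟨u, hu, rfl⟩ g hg
      rw [MulAut.conj_apply]
      exact hnorm u hu g hg
    have hmem : MulAut.conj n⁻¹ ∈ B := ⟨n⁻¹, inv_mem hn, rfl⟩
    have key := classInner_res_aut K (K ⊓ fixSub A) B inf_le_left hBK hBC (MulAut.conj n⁻¹) hmem
      ((inv θ).1 : ↥K → ℂ) (θ.1 : ↥(K ⊓ fixSub A : Subgroup G) → ℂ)
    let χ₁ : ↥K → ℂ := fun k => ((inv θ).1 : ↥K → ℂ) (resAut K B hBK ⟨MulAut.conj n⁻¹, hmem⟩ k)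
    have hχ₁ : Cfsg.IsIrrCharacter K χ₁ :=
      Helper80.isIrrCharacter_comp_mulEquiv (resAut K B hBK ⟨_, hmem⟩) (inv θ).1.2
    have hχ₁I : InvR A K χ₁ := by
      rintro _ ⟨u, hu, rfl⟩ k h
      have hu' : n⁻¹ * u * n ∈ (P : Subgroup G) := (Subgroup.mem_normalizer_iff''.1 hn u).1 hu
      have h1 := hinvI θ (MulAut.conj (n⁻¹ * u * n)) ⟨_, hu', rfl⟩
        (resAut K B hBK ⟨_, hmem⟩ k) (hAK _ ⟨_, hu', rfl⟩ _ (SetLike.coe_mem _))
      show ((inv θ).1 : ↥K → ℂ) _ = ((inv θ).1 : ↥K → ℂ) _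
      rw [← h1]
      refine congrArg _ (Subtype.ext ?_)
      show MulAut.conj n⁻¹ (MulAut.conj u (k : G)) =
        MulAut.conj (n⁻¹ * u * n) (MulAut.conj n⁻¹ (k : G))
      simp only [MulAut.conj_apply]
      group
    have hθ' : (fun s : ↥(K ⊓ fixSub A : Subgroup G) =>
        (θ.1 : ↥(K ⊓ fixSub A : Subgroup G) → ℂ)
          ⟨MulAut.conj n⁻¹ (s : G), hBC _ hmem s s.2⟩) =
        (θ'.1 : ↥(K ⊓ fixSub A : Subgroup G) → ℂ) := by
      funext s
      refine (hnθ ⟨MulAut.conj n⁻¹ (s : G), hBC _ hmem s s.2⟩ s ?_).symm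
      show (s : G) = n * (MulAut.conj n⁻¹ (s : G)) * n⁻¹
      rw [MulAut.conj_apply]
      group
    have h4 : Cfsg.classInner (fun c : ↥(K ⊓ fixSub A : Subgroup G) =>
        χ₁ (Subgroup.inclusion inf_le_left c))
        (θ'.1 : ↥(K ⊓ fixSub A : Subgroup G) → ℂ) = (m : ℂ) := by
      rw [← hθ', ← hm]
      exact key
    have h5 := gl.2.1 χ₁ (inv θ').1.1 hχ₁ (inv θ').1.2 hχ₁I (hinvI θ') θ'.1.1 θ'.1.2 m m'
      h4 hpm hm' hpm'
    refine ⟨n, fun k k' hk => ?_⟩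
    rw [← h5]
    show ((inv θ).1 : ↥K → ℂ) _ = _
    refine congrArg _ (Subtype.ext ?_)
    show MulAut.conj n⁻¹ (k' : G) = k
    rw [hk, MulAut.conj_apply]
    group
  -- surjectivity on orbits
  have hsurj : ∀ η : {χ : Cfsg.IrrCharacter ↥K // (∀ k : ↥K, ((χ : ↥K → ℂ) k).im = 0)},
      ∃ θ : {θ : Cfsg.IrrCharacter ↥(K ⊓ fixSub A : Subgroup G) //
        (∀ k : ↥(K ⊓ fixSub A : Subgroup G), ((θ : ↥(K ⊓ fixSub A : Subgroup G) → ℂ) k).im = 0)},
      ∃ g : G, ∀ k k' : ↥K, (k' : G) = g * (k : G) * g⁻¹ →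
        (η.1 : ↥K → ℂ) k' = ((inv θ).1 : ↥K → ℂ) k := by
    intro η
    obtain ⟨χ, hχr, hχη⟩ := exists_real_over K hodd η.1 η.2
    have hdeg := hreal χ hχr
    have hχc := Helper80.isCharacter_of_isIrrCharacter χ.2
    have hα : Cfsg.IsCharacter K (fun k : ↥K => (χ : G → ℂ) k) :=
      Helper80.isCharacter_comp K.subtype hχc
    have hαI : InvR A K (fun k : ↥K => (χ : G → ℂ) k) := by
      rintro _ ⟨u, hu, rfl⟩ k h
      show (χ : G → ℂ) (MulAut.conj u (k : G)) = (χ : G → ℂ) k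
      rw [MulAut.conj_apply]
      exact Helper80.char_conj_eq hχc _ _
    have hαd : ¬ p ∣ Cfsg.charDegree (fun k : ↥K => (χ : G → ℂ) k) := hdeg
    obtain ⟨η', hη', hη'I, hη'ne⟩ := exists_inv_constituent K A hAK p hp.out hAp hα hαI hαd
    obtain ⟨g, hg⟩ := Helper75.clifford_conj K χ.2 η.1.2 hη' hχη hη'ne
    have hη'r : ∀ k : ↥K, (η' k).im = 0 := by
      intro k
      rw [← hg]
      exact η.2 _
    obtain ⟨β₀, ε, hβ₀, hε, h⟩ := gl.1 η' hη' hη'I
    obtain ⟨m, hm, hm1, -⟩ := h β₀ hβ₀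
    have hpm : ¬ p ∣ m := Helper75.not_dvd_of_modEq_sign hp.out hε (hm1 rfl)
    have hβc : Cfsg.IsIrrCharacter ↥(K ⊓ fixSub A : Subgroup G) (fun c => conj (β₀ c)) :=
      Helper80.isIrrCharacter_conj hβ₀
    have h1 : Cfsg.classInner (fun c : ↥(K ⊓ fixSub A : Subgroup G) =>
        η' (Subgroup.inclusion inf_le_left c)) (fun c => conj (β₀ c)) = (m : ℂ) := by
      have h2 := classInner_conj_conj (fun c : ↥(K ⊓ fixSub A : Subgroup G) =>
        η' (Subgroup.inclusion inf_le_left c)) β₀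
      rw [hm, Complex.conj_natCast] at h2
      rw [← h2]
      congr 1
      funext c
      exact (Complex.conj_eq_iff_im.2 (hη'r _)).symm
    have h3 := glaub_unique gl hη' hη'I hβ₀ hβc hm hpm h1 hpm
    have hβr : ∀ c : ↥(K ⊓ fixSub A : Subgroup G), (β₀ c).im = 0 :=
      fun c => Complex.conj_eq_iff_im.1 (congrFun h3 c).symm
    refine ⟨⟨⟨β₀, hβ₀⟩, hβr⟩, ?_⟩
    obtain ⟨m', hm', hpm'⟩ := hinvm ⟨⟨β₀, hβ₀⟩, hβr⟩
    have h6 := gl.2.1 (inv ⟨⟨β₀, hβ₀⟩, hβr⟩).1.1 η' (inv ⟨⟨β₀, hβ₀⟩, hβr⟩).1.2 hη'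
      (hinvI _) hη'I β₀ hβ₀ m' m hm' hpm' hm hpm
    refine ⟨g⁻¹, fun k k' hk => ?_⟩
    rw [h6, ← hg]
    have hmem : g⁻¹ * (k : G) * g ∈ K := by
      have := hKn.conj_mem (k : G) k.2 g⁻¹
      rwa [inv_inv] at this
    rw [Helper75.conjChar_val K _ g k hmem]
    refine congrArg _ (Subtype.ext ?_)
    rw [hk, inv_inv]
  -- the maps on orbits
  have hle : Nat.card (Quot (fun θ η : {θ : Cfsg.IrrCharacter ↥K //
      (∀ k : ↥K, ((θ : ↥K → ℂ) k).im = 0)} => ∃ g : G, ∀ k k' : ↥K,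
        (k' : G) = g * (k : G) * g⁻¹ → (η.1 : ↥K → ℂ) k' = (θ.1 : ↥K → ℂ) k)) ≤
      Nat.card (Quot (fun θ η : {θ : Cfsg.IrrCharacter ↥(K ⊓ fixSub A : Subgroup G) //
        (∀ k : ↥(K ⊓ fixSub A : Subgroup G), ((θ : ↥(K ⊓ fixSub A : Subgroup G) → ℂ) k).im = 0)} =>
        ∃ g ∈ Subgroup.normalizer ((P : Subgroup G) : Set G),
          ∀ k k' : ↥(K ⊓ fixSub A : Subgroup G), (k' : G) = g * (k : G) * g⁻¹ →
            (η.1 : ↥(K ⊓ fixSub A : Subgroup G) → ℂ) k' =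
              (θ.1 : ↥(K ⊓ fixSub A : Subgroup G) → ℂ) k)) := by
    apply Nat.card_le_card_of_surjective (Quot.lift (fun θ => Quot.mk _ (inv θ))
      (fun θ θ' h => Quot.sound (hwd θ θ' h)))
    intro q
    obtain ⟨η, rfl⟩ := Quot.exists_rep q
    obtain ⟨θ, hθ⟩ := hsurj η
    exact ⟨Quot.mk _ θ, Quot.sound hθ⟩
  rw [e1, e2] at hle
  -- the map on classes
  have hsKeq : Equivalence (fun x y : {x : ↥K // IsConj x x⁻¹} =>
      ∃ g : G, (y.1 : G) = g * x.1 * g⁻¹) :=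
    ⟨fun x => ⟨1, by simp⟩, fun {x y} ⟨g, hg⟩ => ⟨g⁻¹, by rw [hg]; group⟩,
      fun {x y z} ⟨g, hg⟩ ⟨h, hh⟩ => ⟨h * g, by rw [hh, hg]; group⟩⟩
  let ι : {x : ↥(K ⊓ fixSub A : Subgroup G) // IsConj x x⁻¹} → {x : ↥K // IsConj x x⁻¹} :=
    fun x => ⟨Subgroup.inclusion inf_le_left x.1, by
      have := (Subgroup.inclusion (inf_le_left : K ⊓ fixSub A ≤ K)).map_isConj x.2
      rwa [map_inv] at this⟩
  let Φ : Quot (fun x y : {x : ↥(K ⊓ fixSub A : Subgroup G) // IsConj x x⁻¹} =>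
      ∃ g ∈ Subgroup.normalizer ((P : Subgroup G) : Set G), (y.1 : G) = g * x.1 * g⁻¹) →
      Quot (fun x y : {x : ↥K // IsConj x x⁻¹} => ∃ g : G, (y.1 : G) = g * x.1 * g⁻¹) :=
    Quot.lift (fun x => Quot.mk _ (ι x)) (fun x y h => Quot.sound (by
      obtain ⟨g, -, hg⟩ := h
      exact ⟨g, hg⟩))
  have hcent : ∀ c : G, c ∈ fixSub A → c ∈ Subgroup.centralizer ((P : Subgroup G) : Set G) := by
    intro c hc
    rw [Subgroup.mem_centralizer_iff]
    intro u hu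
    exact (hfix c).1 hc u hu
  have hΦ : Function.Injective Φ := by
    intro a b hab
    obtain ⟨x, rfl⟩ := Quot.exists_rep a
    obtain ⟨y, rfl⟩ := Quot.exists_rep b
    obtain ⟨g, hg⟩ := (Equivalence.eqvGen_iff hsKeq).1 (Quot.eq.1 hab)
    have hg' : (y.1 : G) = g * (x.1 : G) * g⁻¹ := hg
    have hxg : g⁻¹ * (y.1 : G) * g = (x.1 : G) := by
      rw [hg']
      group
    obtain ⟨n, hn, hn'⟩ := Sylow.conj_eq_normalizer_conj_of_mem_centralizer P (y.1 : G) g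
      (hcent _ y.1.2.2) (by rw [hxg]; exact hcent _ x.1.2.2)
    apply Quot.sound
    refine ⟨n, hn, ?_⟩
    rw [← hxg, hn']
    group
  have hbij := hΦ.bijective_of_nat_card_le hle
  obtain ⟨c, hc⟩ := isConj_iff.1 hx
  have hxK : x ∈ K := mem_of_real K hodd hc
  obtain ⟨n, hn, hnx⟩ := exists_mem_inverting K hodd hc
  have hxr : IsConj (⟨x, hxK⟩ : ↥K) (⟨x, hxK⟩ : ↥K)⁻¹ :=
    isConj_iff.2 ⟨⟨n, hn⟩, Subtype.ext hnx⟩
  obtain ⟨a, ha⟩ := hbij.2 (Quot.mk _ ⟨⟨x, hxK⟩, hxr⟩)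
  obtain ⟨y, rfl⟩ := Quot.exists_rep a
  obtain ⟨g, hg⟩ := (Equivalence.eqvGen_iff hsKeq).1 (Quot.eq.1 ha)
  have hg' : x = g * (y.1 : G) * g⁻¹ := hg
  refine ⟨g⁻¹, fun u hu => ?_⟩
  have hy : g⁻¹ * x * g⁻¹⁻¹ = (y.1 : G) := by
    rw [hg']
    group
  rw [hy]
  exact (hfix _).1 y.1.2.2 u hu


/-- the subgroup generated by the `q`-elements has index prime to `q` -/
theorem not_dvd_index_closure_ppow {G : Type*} [Group G] [Finite G] (q : ℕ) (hq : q.Prime) :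
    ¬ q ∣ (Subgroup.closure {g : G | ∃ k : ℕ, orderOf g = q ^ k}).index := by
  intro hdvd
  haveI := normal_closure_ppow G q
  haveI : Fact q.Prime := ⟨hq⟩
  rw [Subgroup.index_eq_card] at hdvd
  obtain ⟨xb, hxb⟩ := exists_prime_orderOf_dvd_card' q hdvd
  obtain ⟨g₀, rfl⟩ := QuotientGroup.mk'_surjective _ xb
  have hy : (QuotientGroup.mk' (Subgroup.closure {g : G | ∃ k : ℕ, orderOf g = q ^ k}) g₀) ^
      (q ^ 1) = 1 := by
    have h0 := pow_orderOf_eq_one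
      (QuotientGroup.mk' (Subgroup.closure {g : G | ∃ k : ℕ, orderOf g = q ^ k}) g₀)
    rw [hxb] at h0
    rw [pow_one]
    exact h0
  obtain ⟨x, hx, a, ha⟩ := exists_lift_ppow81 (QuotientGroup.mk' _) hq g₀ hy
  have hxK : x ∈ Subgroup.closure {g : G | ∃ k : ℕ, orderOf g = q ^ k} :=
    Subgroup.subset_closure ⟨a, ha⟩
  have h1 : QuotientGroup.mk' (Subgroup.closure {g : G | ∃ k : ℕ, orderOf g = q ^ k}) x = 1 :=
    (QuotientGroup.eq_one_iff x).2 hxK
  rw [hx] at h1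
  rw [h1, orderOf_one] at hxb
  exact hq.one_lt.ne hxb

/-- **Isaacs–Navarro**: if `O^{p'}(G)` is solvable and the real irreducible characters have
degree prime to `p`, every real class meets the normalizer of a Sylow `p`-subgroup -/
theorem real_class_meets_normalizer {G : Type u} [Group G] [Finite G] (p : ℕ) [hp : Fact p.Prime]
    (hsolv : Group.IsSolvable ↥(Subgroup.closure {g : G | ∃ k : ℕ, orderOf g = p ^ k}))
    (hreal : ∀ χ : Cfsg.IrrCharacter G, (∀ g : G, ((χ : G → ℂ) g).im = 0) →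
      ¬ p ∣ Cfsg.charDegree (χ : G → ℂ))
    (P : Sylow p G) (x : G) (hx : IsConj x x⁻¹) :
    ∃ y ∈ Subgroup.normalizer ((P : Subgroup G) : Set G), IsConj x y := by
  classical
  haveI hK₀n : (Subgroup.closure {g : G | ∃ k : ℕ, orderOf g = 2 ^ k}).Normal :=
    normal_closure_ppow G 2
  obtain ⟨Q₁, hQ₁n, hQ₁p, hQ₁⟩ := real_pprime p hsolv hreal
    (Subgroup.closure {g : G | ∃ k : ℕ, orderOf g = 2 ^ k}) hK₀n le_rfl
    (fun u hu => ⟨0, by simpa using hu⟩)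
  haveI := hQ₁n
  have hπ : Function.Surjective (QuotientGroup.mk' Q₁) := QuotientGroup.mk'_surjective Q₁
  haveI hKbn : ((Subgroup.closure {g : G | ∃ k : ℕ, orderOf g = 2 ^ k}).map
      (QuotientGroup.mk' Q₁)).Normal := Subgroup.Normal.map hK₀n _ hπ
  have hoddK₀ : Odd (Subgroup.closure {g : G | ∃ k : ℕ, orderOf g = 2 ^ k}).index := by
    rw [← Nat.not_even_iff_odd, even_iff_two_dvd]
    exact not_dvd_index_closure_ppow 2 Nat.prime_two
  have hoddKb : Odd ((Subgroup.closure {g : G | ∃ k : ℕ, orderOf g = 2 ^ k}).map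
      (QuotientGroup.mk' Q₁)).index :=
    Odd.of_dvd_nat hoddK₀ (Subgroup.index_map_dvd _ hπ)
  have hpKb : ¬ p ∣ Nat.card ((Subgroup.closure {g : G | ∃ k : ℕ, orderOf g = 2 ^ k}).map
      (QuotientGroup.mk' Q₁)) := by
    intro hdvd
    obtain ⟨kb, hkb⟩ := exists_prime_orderOf_dvd_card' p hdvd
    obtain ⟨k, hk, hkk⟩ := kb.2
    have hy : ((QuotientGroup.mk' Q₁).comp
        (Subgroup.closure {g : G | ∃ k : ℕ, orderOf g = 2 ^ k}).subtype ⟨k, hk⟩) ^ (p ^ 1) = 1 := by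
      show (QuotientGroup.mk' Q₁ k) ^ (p ^ 1) = 1
      rw [hkk, pow_one]
      have h0 := pow_orderOf_eq_one kb
      rw [hkb] at h0
      have h00 := congrArg Subtype.val h0
      simpa using h00
    obtain ⟨x', hx', a, ha⟩ := exists_lift_ppow81 ((QuotientGroup.mk' Q₁).comp
      (Subgroup.closure {g : G | ∃ k : ℕ, orderOf g = 2 ^ k}).subtype) hp.out ⟨k, hk⟩ hy
    have h1 : (x' : G) ∈ Q₁ := hQ₁ x' x'.2 ⟨a, by rw [Subgroup.orderOf_coe, ha]⟩
    have h2 : QuotientGroup.mk' Q₁ (x' : G) = 1 := (QuotientGroup.eq_one_iff _).2 h1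
    have h3 : QuotientGroup.mk' Q₁ (x' : G) = QuotientGroup.mk' Q₁ k := hx'
    rw [h2, hkk] at h3
    have h4 : kb = 1 := Subtype.ext h3.symm
    rw [h4, orderOf_one] at hkb
    exact hp.out.one_lt.ne hkb
  have hrealb := real_quot Q₁ p hreal
  have hxb : IsConj (QuotientGroup.mk' Q₁ x) (QuotientGroup.mk' Q₁ x)⁻¹ := by
    have h1 := (QuotientGroup.mk' Q₁).map_isConj hx
    rwa [map_inv] at h1
  obtain ⟨gb, hgb⟩ := real_conj_centralizer _ hoddKb p hpKb hrealb (P.mapSurjective hπ)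
    (QuotientGroup.mk' Q₁ x) hxb
  obtain ⟨g, rfl⟩ := hπ gb
  have hQ₁P : Q₁ ≤ (P : Subgroup G) := hQ₁p.le_sylow_of_normal P
  have hcomm : ∀ y : G, (∀ ub ∈ P.mapSurjective hπ,
      ub * QuotientGroup.mk' Q₁ y = QuotientGroup.mk' Q₁ y * ub) →
      ∀ u ∈ P, y * u * y⁻¹ ∈ P := by
    intro y hy u hu
    have h1 : QuotientGroup.mk' Q₁ u ∈ P.mapSurjective hπ := ⟨u, hu, rfl⟩
    have h2 := hy _ h1
    have h3 : y * u * y⁻¹ * u⁻¹ ∈ Q₁ := by
      rw [← QuotientGroup.eq_one_iff]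
      have h4 : ((y * u * y⁻¹ * u⁻¹ : G) : G ⧸ Q₁) =
          QuotientGroup.mk' Q₁ y * QuotientGroup.mk' Q₁ u * (QuotientGroup.mk' Q₁ y)⁻¹ *
            (QuotientGroup.mk' Q₁ u)⁻¹ := by
        simp
      rw [h4, ← h2]
      group
    have h5 : y * u * y⁻¹ = (y * u * y⁻¹ * u⁻¹) * u := by group
    rw [h5]
    exact mul_mem (hQ₁P h3) hu
  have hgb' : ∀ ub ∈ P.mapSurjective hπ,
      ub * QuotientGroup.mk' Q₁ (g * x * g⁻¹) = QuotientGroup.mk' Q₁ (g * x * g⁻¹) * ub := by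
    intro ub hub
    have h1 := hgb ub hub
    rw [map_mul, map_mul, map_inv]
    exact h1
  have hgb'' : ∀ ub ∈ P.mapSurjective hπ,
      ub * QuotientGroup.mk' Q₁ (g * x * g⁻¹)⁻¹ = QuotientGroup.mk' Q₁ (g * x * g⁻¹)⁻¹ * ub := by
    intro ub hub
    have h1 := hgb' ub hub
    rw [map_inv]
    generalize QuotientGroup.mk' Q₁ (g * x * g⁻¹) = a at h1 ⊢
    calc ub * a⁻¹ = a⁻¹ * (a * ub) * a⁻¹ := by group
      _ = a⁻¹ * (ub * a) * a⁻¹ := by rw [h1]
      _ = a⁻¹ * ub := by group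
  refine ⟨g * x * g⁻¹, ?_, isConj_iff.2 ⟨g, rfl⟩⟩
  rw [Subgroup.mem_normalizer_iff]
  intro h
  constructor
  · intro hh
    exact hcomm _ hgb' h hh
  · intro hh
    have h1 := hcomm _ hgb'' _ hh
    have h2 : (g * x * g⁻¹)⁻¹ * (g * x * g⁻¹ * h * (g * x * g⁻¹)⁻¹) * (g * x * g⁻¹)⁻¹⁻¹ = h := by
      group
    rw [h2] at h1
    exact h1

end Cfsg.Agent.Lib.Helper81
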