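import Mathlib
import Cfsg.Prelude.Def_Blocks
import Cfsg.Agent.Lib.Helper81.RealBij2
import Cfsg.Agent.Lib.Helper81.RealNorm

set_option autoImplicit false
set_option linter.style.haveILetI false
set_option linter.unusedSectionVars false
set_option linter.unusedVariables false

/-!
The Isaacs–Navarro bijection between the real irreducible characters of `G` and the real
irreducible characters of `p'`-degree of the normalizer of a Sylow `p`-subgroup: the structural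
core.
-/

namespace Cfsg.Agent.Lib.Helper81

open scoped ComplexConjugate

universe u

set_option maxHeartbeats 1600000 in
/-- the core: `K` normal of odd index with normal Sylow `p`-subgroup `Q = P ∩ K` -/
theorem real_bij_core {G : Type u} [Group G] [Finite G] (p : ℕ) [hp : Fact p.Prime]
    (hreal : ∀ χ : Cfsg.IrrCharacter G, (∀ g : G, ((χ : G → ℂ) g).im = 0) →
      ¬ p ∣ Cfsg.charDegree (χ : G → ℂ))
    (P : Sylow p G) (N C : Subgroup G) (A : Subgroup (MulAut G))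
    (hN : N = Subgroup.normalizer ((P : Subgroup G) : Set G))
    (K Q : Subgroup G) [hKn : K.Normal] (hC : C = K ⊓ N)
    (hA : A = (P : Subgroup G).map (MulAut.conj : G →* MulAut G))
    (hodd : Odd K.index)
    (hQK : Q ≤ K) (hQn : ∀ g : G, ∀ q ∈ Q, g * q * g⁻¹ ∈ Q) (hQP : Q ≤ (P : Subgroup G))
    (hPKQ : (P : Subgroup G) ⊓ K ≤ Q) (hQsyl : ¬ p ∣ Q.relIndex K) :
    ∃ f : {χ : Cfsg.IrrCharacter G // ∀ g : G, ((χ : G → ℂ) g).im = 0} →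
      {ξ : Cfsg.IrrCharacter ↥N // (∀ n, ((ξ : ↥N → ℂ) n).im = 0) ∧
        ¬ p ∣ Cfsg.charDegree (ξ : ↥N → ℂ)},
      Function.Bijective f ∧ ∀ χ,
        ((Cfsg.charDegree ((f χ).1 : ↥N → ℂ) : ZMod p) = (Cfsg.charDegree (χ.1 : G → ℂ) : ZMod p) ∨
          (Cfsg.charDegree ((f χ).1 : ↥N → ℂ) : ZMod p) =
            -(Cfsg.charDegree (χ.1 : G → ℂ) : ZMod p)) := by
  classical
  have hpp : p.Prime := hp.out
  haveI := Fintype.ofFinite G
  haveI : Fintype K := Fintype.ofFinite _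
  haveI : Fintype N := Fintype.ofFinite _
  haveI : Fintype C := Fintype.ofFinite _
  haveI : Fintype Q := Fintype.ofFinite _
  have hmemN : ∀ g : G, g ∈ N ↔ g ∈ Subgroup.normalizer ((P : Subgroup G) : Set G) :=
    fun g => by rw [hN]
  have hCK : C ≤ K := hC ▸ inf_le_left
  have hCN : C ≤ N := hC ▸ inf_le_right
  have hPN : (P : Subgroup G) ≤ N := hN ▸ Subgroup.le_normalizer
  have hnormC : ∀ n ∈ N, ∀ c ∈ C, n * c * n⁻¹ ∈ C := by
    intro n hn c hc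
    rw [hC] at hc ⊢
    exact ⟨hKn.conj_mem c hc.1 n, N.mul_mem (N.mul_mem hn hc.2) (N.inv_mem hn)⟩
  have hNC : ∀ n ∈ N, n ∈ Subgroup.normalizer (C : Set G) := by
    intro n hn
    rw [Subgroup.mem_normalizer_iff]
    intro c
    constructor
    · exact fun hc => hnormC n hn c hc
    · intro hc
      have h1 := hnormC n⁻¹ (N.inv_mem hn) _ hc
      have h2 : n⁻¹ * (n * c * n⁻¹) * n⁻¹⁻¹ = c := by group
      rwa [h2] at h1
  have hoddC : Odd (C.relIndex N) := by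
    rw [hC, Subgroup.inf_relIndex_right]
    exact Odd.of_dvd_nat hodd (Subgroup.relIndex_dvd_index_of_normal K N)
  have hAp : IsPGroup p A := by
    rw [hA]
    exact P.2.map _
  have hAK : ∀ a ∈ A, ∀ k ∈ K, a k ∈ K := by
    rw [hA]
    rintro _ ⟨u, hu, rfl⟩ k hk
    rw [MulAut.conj_apply]
    exact hKn.conj_mem k hk u
  have hAQ : ∀ a ∈ A, ∀ q ∈ Q, a q ∈ Q := by
    rw [hA]
    rintro _ ⟨u, hu, rfl⟩ q hq
    rw [MulAut.conj_apply]
    exact hQn u q hq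
  have hQnK : ∀ k ∈ K, ∀ q ∈ Q, k * q * k⁻¹ ∈ Q := fun k _ q hq => hQn k q hq
  have hQp : ∃ a : ℕ, Nat.card Q = p ^ a := IsPGroup.iff_card.1 (P.2.to_le hQP)
  have hC' : ∀ x : G, x ∈ C ↔ x ∈ K ∧ ∀ a ∈ A, a x * x⁻¹ ∈ Q := by
    intro x
    constructor
    · intro hx
      rw [hC] at hx
      refine ⟨hx.1, ?_⟩
      rw [hA]
      rintro _ ⟨u, hu, rfl⟩
      rw [MulAut.conj_apply]
      apply hPKQ
      have hxN : x ∈ Subgroup.normalizer ((P : Subgroup G) : Set G) := (hmemN x).1 hx.2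
      refine ⟨?_, ?_⟩
      · have h1 : x * u⁻¹ * x⁻¹ ∈ (P : Subgroup G) :=
          (Subgroup.mem_normalizer_iff.1 hxN u⁻¹).1 (inv_mem hu)
        have h2 : u * x * u⁻¹ * x⁻¹ = u * (x * u⁻¹ * x⁻¹) := by group
        rw [h2]
        exact mul_mem hu h1
      · exact K.mul_mem (hKn.conj_mem x hx.1 u) (K.inv_mem hx.1)
    · rintro ⟨hxK, hx⟩
      rw [hC]
      refine ⟨hxK, (hmemN x).2 ?_⟩
      have hxq : ∀ u ∈ (P : Subgroup G), u * x * u⁻¹ * x⁻¹ ∈ Q := by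
        intro u hu
        have h1 := hx (MulAut.conj u) (by
          rw [hA]
          exact ⟨u, hu, rfl⟩)
        rwa [MulAut.conj_apply] at h1
      rw [Subgroup.mem_normalizer_iff]
      intro h
      constructor
      · intro hh
        have h1 := hxq h⁻¹ (inv_mem hh)
        have h2 : x * h * x⁻¹ = h * (h⁻¹ * x * h⁻¹⁻¹ * x⁻¹) := by group
        rw [h2]
        exact mul_mem hh (hQP h1)
      · intro hh
        have h1 := hxq (x * h * x⁻¹)⁻¹ (inv_mem hh)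
        have h2 := hQn x⁻¹ _ h1
        have h3 : x⁻¹ * ((x * h * x⁻¹)⁻¹ * x * (x * h * x⁻¹)⁻¹⁻¹ * x⁻¹) * x⁻¹⁻¹ =
            h⁻¹ * (x * h * x⁻¹) := by group
        rw [h3] at h2
        have h4 : h⁻¹ ∈ (P : Subgroup G) := by
          have h5 : h⁻¹ = (h⁻¹ * (x * h * x⁻¹)) * (x * h * x⁻¹)⁻¹ := by group
          rw [h5]
          exact mul_mem (hQP h2) (inv_mem hh)
        exact inv_mem_iff.1 h4
  have gl := rel_glauberman K Q C A p hAp hAK hAQ hQK hQnK hQp hQsyl hCK hC'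
  have hAC := fixQuot_inv K Q C A hAK hC'
  have hnK : ∀ g : G, g ∈ Subgroup.normalizer (K : Set G) := mem_normalizer_of_normal K
  have hNA : ∀ n ∈ N, ∀ a ∈ A, (MulAut.conj n)⁻¹ * a * MulAut.conj n ∈ A := by
    intro n hn
    rw [hA]
    rintro _ ⟨u, hu, rfl⟩
    refine ⟨n⁻¹ * u * n, (Subgroup.mem_normalizer_iff''.1 ((hmemN n).1 hn) u).1 hu, ?_⟩
    rw [map_mul, map_mul, map_inv]
  have hQpK : IsPGroup p (resAut K A hAK).range :=
    hAp.of_surjective (resAut K A hAK).rangeRestrict (MonoidHom.rangeRestrict_surjective _)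
  have hQpC : IsPGroup p (resAut C A hAC).range :=
    hAp.of_surjective (resAut C A hAC).rangeRestrict (MonoidHom.rangeRestrict_surjective _)
  -- restrictions of class functions are invariant
  have hχinv : ∀ χ : G → ℂ, Cfsg.IsClassFunction G χ → InvR A K (fun k : K => χ k) := by
    intro χ hχ
    rw [hA]
    rintro _ ⟨u, hu, rfl⟩ k h
    show χ ((MulAut.conj u) (k : G)) = χ k
    rw [MulAut.conj_apply]
    exact hχ k u
  have hξinv : ∀ ξ : N → ℂ, Cfsg.IsClassFunction N ξ →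
      InvR A C (fun c : C => ξ ⟨c, hCN c.2⟩) := by
    intro ξ hξ
    rw [hA]
    rintro _ ⟨u, hu, rfl⟩ c h
    show ξ ⟨(MulAut.conj u) (c : G), hCN h⟩ = ξ ⟨(c : G), hCN c.2⟩
    have h1 := hξ ⟨c, hCN c.2⟩ ⟨u, hPN hu⟩
    rw [← h1]
    congr 1
  have hθCinv : ∀ θ : K → ℂ, InvR A K θ → InvR A C (fun c : C => θ (Subgroup.inclusion hCK c)) := by
    intro θ hθ a ha c h
    exact hθ a ha (Subgroup.inclusion hCK c) _
  have hclsG : ∀ χ : G → ℂ, Cfsg.IsIrrCharacter G χ → Cfsg.IsClassFunction G χ := fun χ hχ =>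
    Helper80.isClassFunction_of_isCharacter (Helper80.isCharacter_of_isIrrCharacter hχ)
  have hclsN : ∀ ξ : N → ℂ, Cfsg.IsIrrCharacter N ξ → Cfsg.IsClassFunction N ξ := fun ξ hξ =>
    Helper80.isClassFunction_of_isCharacter (Helper80.isCharacter_of_isIrrCharacter hξ)
  have hchK : ∀ χ : G → ℂ, Cfsg.IsIrrCharacter G χ → Cfsg.IsCharacter K (fun k : K => χ k) :=
    fun χ hχ => Helper80.isCharacter_comp K.subtype (Helper80.isCharacter_of_isIrrCharacter hχ)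
  have hchC : ∀ ξ : N → ℂ, Cfsg.IsIrrCharacter N ξ →
      Cfsg.IsCharacter C (fun c : C => ξ ⟨c, hCN c.2⟩) :=
    fun ξ hξ => Helper80.isCharacter_comp (Subgroup.inclusion hCN)
      (Helper80.isCharacter_of_isIrrCharacter hξ)
  have hchθC : ∀ θ : K → ℂ, Cfsg.IsIrrCharacter K θ →
      Cfsg.IsCharacter C (fun c : C => θ (Subgroup.inclusion hCK c)) :=
    fun θ hθ => Helper80.isCharacter_comp (Subgroup.inclusion hCK)
      (Helper80.isCharacter_of_isIrrCharacter hθ)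
  -- conjugation lemmas
  have Lb : ∀ (χ : G → ℂ), Cfsg.IsIrrCharacter G χ → ∀ θ θ' : K → ℂ,
      Cfsg.IsIrrCharacter K θ → Cfsg.IsIrrCharacter K θ' → InvR A K θ → InvR A K θ' →
      Cfsg.classInner (fun k : K => χ k) θ ≠ 0 → Cfsg.classInner (fun k : K => χ k) θ' ≠ 0 →
      ∃ n, ∃ hn : n ∈ N, θ' = conjFun K n (hnK n) θ := by
    intro χ hχ θ θ' hθ hθ' hθi hθ'i h h'
    obtain ⟨g, hg⟩ := Helper75.clifford_conj K hχ hθ hθ' h h'
    have hP1 : (P : Subgroup G) ≤ Helper75.inertia K θ := le_inertia_of_invR K _ (hA ▸ hθi)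
    have hP2 : (P : Subgroup G) ≤ Helper75.inertia K θ' := le_inertia_of_invR K _ (hA ▸ hθ'i)
    obtain ⟨n, hn, hn'⟩ := exists_normalizer_conjChar K p P θ θ' hP1 hP2 g hg
    refine ⟨n, (hmemN n).2 hn, ?_⟩
    rw [← hn', conjChar_eq_conjFun]
  have Lc : ∀ (ξ : N → ℂ), Cfsg.IsIrrCharacter N ξ → ∀ η η' : C → ℂ,
      Cfsg.IsIrrCharacter C η → Cfsg.IsIrrCharacter C η' →
      Cfsg.classInner (fun c : C => ξ ⟨c, hCN c.2⟩) η ≠ 0 →
      Cfsg.classInner (fun c : C => ξ ⟨c, hCN c.2⟩) η' ≠ 0 →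
      ∃ n, ∃ hn : n ∈ N, η' = conjFun C n (hNC n hn) η := by
    intro ξ hξ η η' hη hη' h h'
    obtain ⟨k, hk, hext⟩ := clifford_conj_rel N C hCN hnormC hξ hη hη' h h'
    exact ⟨k, hk, eq_conjFun_of_extendByZero C k (hNC k hk) hext⟩
  have Lgl : ∀ (n : G) (hn : n ∈ N) (θ : K → ℂ) (η : C → ℂ),
      Cfsg.classInner (fun c : C => conjFun K n (hnK n) θ (Subgroup.inclusion hCK c))
        (conjFun C n (hNC n hn) η) =
      Cfsg.classInner (fun c : C => θ (Subgroup.inclusion hCK c)) η := by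
    intro n hn θ η
    rw [conjFun_restrict hCK n (hnK n) (hNC n hn) θ]
    exact classInner_conjFun_both C n _ _ _
  have LinvK : ∀ (χ : G → ℂ), Cfsg.IsClassFunction G χ → ∀ (n : G) (θ : K → ℂ),
      Cfsg.classInner (fun k : K => χ k) (conjFun K n (hnK n) θ) =
        Cfsg.classInner (fun k : K => χ k) θ := by
    intro χ hχ n θ
    rw [← conjChar_eq_conjFun]
    exact Helper75.classInner_res_conjChar K hχ θ n
  have LinvC : ∀ (ξ : N → ℂ), Cfsg.IsClassFunction N ξ → ∀ (n : G) (hn : n ∈ N) (η : C → ℂ),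
      Cfsg.classInner (fun c : C => ξ ⟨c, hCN c.2⟩) (conjFun C n (hNC n hn) η) =
        Cfsg.classInner (fun c : C => ξ ⟨c, hCN c.2⟩) η := by
    intro ξ hξ n hn η
    exact classInner_conjFun_of_inv C n _ _ η (conjFun_res C hCN n hn _ hξ)
  -- the relation
  let R : (G → ℂ) → (N → ℂ) → Prop := fun χ ξ =>
    ∃ (θ : K → ℂ) (η : C → ℂ) (m : ℕ), Cfsg.IsIrrCharacter K θ ∧ InvR A K θ ∧
      Cfsg.classInner (fun k : K => χ k) θ ≠ 0 ∧ Cfsg.IsIrrCharacter C η ∧ InvR A C η ∧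
      Cfsg.classInner (fun c : C => θ (Subgroup.inclusion hCK c)) η = (m : ℂ) ∧ ¬ p ∣ m ∧
      Cfsg.classInner (fun c : C => ξ ⟨c, hCN c.2⟩) η ≠ 0
  -- totality
  have F_tot : ∀ χ : G → ℂ, Cfsg.IsIrrCharacter G χ → (∀ g : G, (χ g).im = 0) →
      ∃ ξ : N → ℂ, Cfsg.IsIrrCharacter N ξ ∧ (∀ n : N, (ξ n).im = 0) ∧ R χ ξ := by
    intro χ hχ hre
    have hdeg : ¬ p ∣ Cfsg.charDegree (fun k : K => χ k) := hreal ⟨χ, hχ⟩ hre
    obtain ⟨θ, hθ, hθi, hχθ⟩ := exists_inv_constituent K A hAK p hpp hQpK (hchK χ hχ)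
      (hχinv χ (hclsG χ hχ)) hdeg
    obtain ⟨β, ε, hβ, hβi, hε, hall⟩ := gl.1 θ hθ hθi
    obtain ⟨m, hm, hmod, -⟩ := hall β hβ hβi
    have hpm := Helper75.not_dvd_of_modEq_sign hpp hε (hmod rfl)
    have hθre := real_constituent K hodd hχ hre hθ hχθ
    have hβre := glaubOn_real_down gl (fun β hβ => invR_conj C A hβ) hθ hθi hθre hβ hβi hm hpm
    obtain ⟨ξ, hξ, hξre, hξβ⟩ := exists_real_over_rel N C hCN hnormC hoddC hβ hβre
    exact ⟨ξ, hξ, hξre, θ, β, m, hθ, hθi, hχθ, hβ, hβi, hm, hpm, hξβ⟩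
  -- degrees
  have F_deg : ∀ χ : G → ℂ, Cfsg.IsIrrCharacter G χ → (∀ g : G, (χ g).im = 0) →
      ∀ ξ : N → ℂ, Cfsg.IsIrrCharacter N ξ → (∀ n : N, (ξ n).im = 0) → R χ ξ →
      ∃ ε : ℤ, (ε = 1 ∨ ε = -1) ∧
        (Cfsg.charDegree χ : ℤ) ≡ ε * (Cfsg.charDegree ξ : ℤ) [ZMOD p] := by
    rintro χ hχ hre ξ hξ hξre ⟨θ, η, m, hθ, hθi, hχθ, hη, hηi, hm, hpm, hξη⟩
    have hmultK : ∀ φ : K → ℂ, Cfsg.IsIrrCharacter K φ → InvR A K φ →
        Cfsg.classInner (fun k : K => χ k) φ ≠ 0 →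
        Cfsg.classInner (fun k : K => χ k) φ = 1 ∧ Cfsg.charDegree φ = Cfsg.charDegree θ := by
      intro φ hφ hφi hne
      refine ⟨real_mult_one K hodd hχ hre hφ hne, ?_⟩
      obtain ⟨n, hn, hφn⟩ := Lb χ hχ θ φ hθ hφ hθi hφi hχθ hne
      rw [hφn, charDegree_conjFun]
    have d₁ := degree_congr_card K A p hAK hAp (hchK χ hχ) (hχinv χ (hclsG χ hχ))
      (Cfsg.charDegree θ) hmultK
    have hmultC : ∀ ψ : C → ℂ, Cfsg.IsIrrCharacter C ψ → InvR A C ψ →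
        Cfsg.classInner (fun c : C => ξ ⟨c, hCN c.2⟩) ψ ≠ 0 →
        Cfsg.classInner (fun c : C => ξ ⟨c, hCN c.2⟩) ψ = 1 ∧
          Cfsg.charDegree ψ = Cfsg.charDegree η := by
      intro ψ hψ hψi hne
      refine ⟨real_mult_one_rel N C hCN hnormC hoddC hξ hξre hψ hne, ?_⟩
      obtain ⟨n, hn, hψn⟩ := Lc ξ hξ η ψ hη hψ hξη hne
      rw [hψn, charDegree_conjFun]
    have d₂ := degree_congr_card C A p hAC hAp (hchC ξ hξ) (hξinv ξ (hclsN ξ hξ))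
      (Cfsg.charDegree η) hmultC
    have hcard : Nat.card {φ : Cfsg.IrrCharacter K // InvR A K (φ : K → ℂ) ∧
          Cfsg.classInner (fun k : K => χ k) (φ : K → ℂ) ≠ 0} =
        Nat.card {ψ : Cfsg.IrrCharacter C // InvR A C (ψ : C → ℂ) ∧
          Cfsg.classInner (fun c : C => ξ ⟨c, hCN c.2⟩) (ψ : C → ℂ) ≠ 0} := by
      refine card_eq_of_rel (fun φ ψ => ∃ m' : ℕ,
        Cfsg.classInner (fun c : C => (φ.1 : K → ℂ) (Subgroup.inclusion hCK c)) (ψ.1 : C → ℂ) =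
          (m' : ℂ) ∧ ¬ p ∣ m') ?_ ?_ ?_ ?_
      · intro φ
        obtain ⟨n, hn, hφn⟩ := Lb χ hχ θ φ.1.1 hθ φ.1.2 hθi φ.2.1 hχθ φ.2.2
        refine ⟨⟨⟨conjFun C n (hNC n hn) η, isIrrCharacter_conjFun C n _ hη⟩,
          invR_conjFun C A n _ (hNA n hn) hηi, ?_⟩, m, ?_, hpm⟩
        · show Cfsg.classInner (fun c : C => ξ ⟨c, hCN c.2⟩) (conjFun C n (hNC n hn) η) ≠ 0
          rw [LinvC ξ (hclsN ξ hξ) n hn η]
          exact hξη
        · show Cfsg.classInner (fun c : C => (φ.1 : K → ℂ) (Subgroup.inclusion hCK c))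
            (conjFun C n (hNC n hn) η) = (m : ℂ)
          rw [hφn, Lgl n hn θ η]
          exact hm
      · intro ψ
        obtain ⟨n, hn, hψn⟩ := Lc ξ hξ η ψ.1.1 hη ψ.1.2 hξη ψ.2.2
        refine ⟨⟨⟨conjFun K n (hnK n) θ, isIrrCharacter_conjFun K n _ hθ⟩,
          invR_conjFun K A n _ (hNA n hn) hθi, ?_⟩, m, ?_, hpm⟩
        · show Cfsg.classInner (fun k : K => χ k) (conjFun K n (hnK n) θ) ≠ 0
          rw [LinvK χ (hclsG χ hχ) n θ]
          exact hχθ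
        · show Cfsg.classInner (fun c : C => conjFun K n (hnK n) θ (Subgroup.inclusion hCK c))
            (ψ.1 : C → ℂ) = (m : ℂ)
          rw [hψn, Lgl n hn θ η]
          exact hm
      · rintro φ ψ ψ' ⟨m₁, hm₁, hpm₁⟩ ⟨m₂, hm₂, hpm₂⟩
        exact Subtype.ext (Subtype.ext (glaubOn_unique gl φ.1.2 φ.2.1 ψ.1.2 ψ.2.1 ψ'.1.2 ψ'.2.1
          hm₁ hpm₁ hm₂ hpm₂))
      · rintro φ φ' ψ ⟨m₁, hm₁, hpm₁⟩ ⟨m₂, hm₂, hpm₂⟩
        exact Subtype.ext (Subtype.ext (gl.2.1 φ.1.1 φ'.1.1 φ.1.2 φ'.1.2 φ.2.1 φ'.2.1 ψ.1.1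
          ψ.1.2 ψ.2.1 m₁ m₂ hm₁ hpm₁ hm₂ hpm₂))
    obtain ⟨β, ε, hβ, hβi, hε, hall⟩ := gl.1 θ hθ hθi
    obtain ⟨m₁, hm₁, hmod₁, -⟩ := hall β hβ hβi
    have hpm₁ := Helper75.not_dvd_of_modEq_sign hpp hε (hmod₁ rfl)
    have hηβ : η = β := glaubOn_unique gl hθ hθi hη hηi hβ hβi hm hpm hm₁ hpm₁
    have hdegθ := degree_congr_of_mult C A p hAC hAp (hchθC θ hθ) (hθCinv θ hθi) hβ hβi ε hall
    have hd1 : Cfsg.charDegree (fun c : C => θ (Subgroup.inclusion hCK c)) =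
        Cfsg.charDegree θ := by
      show ⌊(θ (Subgroup.inclusion hCK 1)).re⌋₊ = ⌊(θ 1).re⌋₊
      rw [map_one]
    rw [hd1, ← hηβ] at hdegθ
    have hd2 : Cfsg.charDegree (fun k : K => χ k) = Cfsg.charDegree χ := rfl
    have hd3 : Cfsg.charDegree (fun c : C => ξ ⟨c, hCN c.2⟩) = Cfsg.charDegree ξ := rfl
    rw [hd2] at d₁
    rw [hd3, ← hcard] at d₂
    have e₁ : (Cfsg.charDegree χ : ℤ) ≡ ((Nat.card {φ : Cfsg.IrrCharacter K //
        InvR A K (φ : K → ℂ) ∧ Cfsg.classInner (fun k : K => χ k) (φ : K → ℂ) ≠ 0} : ℕ) : ℤ) *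
          (Cfsg.charDegree θ : ℤ) [ZMOD p] := by
      have := Int.natCast_modEq_iff.2 d₁
      rwa [Nat.cast_mul] at this
    have e₂ : (Cfsg.charDegree ξ : ℤ) ≡ ((Nat.card {φ : Cfsg.IrrCharacter K //
        InvR A K (φ : K → ℂ) ∧ Cfsg.classInner (fun k : K => χ k) (φ : K → ℂ) ≠ 0} : ℕ) : ℤ) *
          (Cfsg.charDegree η : ℤ) [ZMOD p] := by
      have := Int.natCast_modEq_iff.2 d₂
      rwa [Nat.cast_mul] at this
    refine ⟨ε, hε, ?_⟩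
    refine e₁.trans ?_
    refine (Int.ModEq.mul_left _ hdegθ).trans ?_
    have e₃ := Int.ModEq.mul_left ε e₂.symm
    refine Int.ModEq.trans ?_ e₃
    rw [mul_left_comm]
  -- functionality
  have F_fun : ∀ χ : G → ℂ, Cfsg.IsIrrCharacter G χ → (∀ g : G, (χ g).im = 0) →
      ∀ ξ ξ' : N → ℂ, Cfsg.IsIrrCharacter N ξ → Cfsg.IsIrrCharacter N ξ' →
      (∀ n : N, (ξ n).im = 0) → (∀ n : N, (ξ' n).im = 0) → R χ ξ → R χ ξ' → ξ = ξ' := by
    rintro χ hχ hre ξ ξ' hξ hξ' hξre hξ're ⟨θ, η, m, hθ, hθi, hχθ, hη, hηi, hm, hpm, hξη⟩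
      ⟨θ', η', m', hθ', hθ'i, hχθ', hη', hη'i, hm', hpm', hξ'η'⟩
    obtain ⟨n, hn, hθn⟩ := Lb χ hχ θ θ' hθ hθ' hθi hθ'i hχθ hχθ'
    have hm'' : Cfsg.classInner (fun c : C => θ' (Subgroup.inclusion hCK c))
        (conjFun C n (hNC n hn) η) = (m : ℂ) := by
      rw [hθn, Lgl n hn θ η]
      exact hm
    have hη'eq : η' = conjFun C n (hNC n hn) η :=
      glaubOn_unique gl hθ' hθ'i hη' hη'i (isIrrCharacter_conjFun C n _ hη)
        (invR_conjFun C A n _ (hNA n hn) hηi) hm' hpm' hm'' hpm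
    have hξη' : Cfsg.classInner (fun c : C => ξ ⟨c, hCN c.2⟩) η' ≠ 0 := by
      rw [hη'eq, LinvC ξ (hclsN ξ hξ) n hn η]
      exact hξη
    have hη're := real_constituent_rel N C hCN hnormC hoddC hξ' hξ're hη' hξ'η'
    exact real_over_unique_rel N C hCN hnormC hoddC hη' hη're hξ hξ' hξre hξ're hξη' hξ'η'
  -- injectivity
  have F_inj : ∀ χ χ' : G → ℂ, Cfsg.IsIrrCharacter G χ → Cfsg.IsIrrCharacter G χ' →
      (∀ g : G, (χ g).im = 0) → (∀ g : G, (χ' g).im = 0) →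
      ∀ ξ : N → ℂ, Cfsg.IsIrrCharacter N ξ → R χ ξ → R χ' ξ → χ = χ' := by
    rintro χ χ' hχ hχ' hre hre' ξ hξ ⟨θ, η, m, hθ, hθi, hχθ, hη, hηi, hm, hpm, hξη⟩
      ⟨θ', η', m', hθ', hθ'i, hχθ', hη', hη'i, hm', hpm', hξη'⟩
    obtain ⟨n, hn, hηn⟩ := Lc ξ hξ η η' hη hη' hξη hξη'
    have hm'' : Cfsg.classInner (fun c : C => conjFun K n (hnK n) θ (Subgroup.inclusion hCK c))
        η' = (m : ℂ) := by
      rw [hηn, Lgl n hn θ η]
      exact hm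
    have hθ'eq : conjFun K n (hnK n) θ = θ' :=
      gl.2.1 _ θ' (isIrrCharacter_conjFun K n _ hθ) hθ' (invR_conjFun K A n _ (hNA n hn) hθi)
        hθ'i η' hη' hη'i m m' hm'' hpm hm' hpm'
    have hχθ'' : Cfsg.classInner (fun k : K => χ k) θ' ≠ 0 := by
      rw [← hθ'eq, LinvK χ (hclsG χ hχ) n θ]
      exact hχθ
    have hθ're := real_constituent K hodd hχ' hre' hθ' hχθ'
    have h0 := real_over_unique K hodd (⟨θ', hθ'⟩ : Cfsg.IrrCharacter K) hθ're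
      (⟨χ, hχ⟩ : Cfsg.IrrCharacter G) (⟨χ', hχ'⟩ : Cfsg.IrrCharacter G) hre hre' hχθ'' hχθ'
    exact congrArg Subtype.val h0
  -- surjectivity
  have F_surj : ∀ ξ : N → ℂ, Cfsg.IsIrrCharacter N ξ → (∀ n : N, (ξ n).im = 0) →
      ¬ p ∣ Cfsg.charDegree ξ →
      ∃ χ : G → ℂ, Cfsg.IsIrrCharacter G χ ∧ (∀ g : G, (χ g).im = 0) ∧ R χ ξ := by
    intro ξ hξ hξre hdeg
    have hdeg' : ¬ p ∣ Cfsg.charDegree (fun c : C => ξ ⟨c, hCN c.2⟩) := hdeg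
    obtain ⟨η, hη, hηi, hξη⟩ := exists_inv_constituent C A hAC p hpp hQpC (hchC ξ hξ)
      (hξinv ξ (hclsN ξ hξ)) hdeg'
    obtain ⟨θ, hθ, hθi, m, hm, hpm⟩ := gl.2.2 η hη hηi
    have hηre := real_constituent_rel N C hCN hnormC hoddC hξ hξre hη hξη
    have hθre := glaubOn_real_up gl (fun χ h => invR_conj K A h) hθ hθi hη hηi hηre hm hpm
    haveI : Fintype (Cfsg.IrrCharacter G) := Fintype.ofFinite _
    haveI : Fintype (Cfsg.IrrCharacter K) := Fintype.ofFinite _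
    obtain ⟨χ, hχre, hχθ⟩ := exists_real_over K hodd (⟨θ, hθ⟩ : Cfsg.IrrCharacter K) hθre
    exact ⟨χ.1, χ.2, hχre, θ, η, m, hθ, hθi, hχθ, hη, hηi, hm, hpm, hξη⟩
  -- assembly
  have hdegY : ∀ χ : G → ℂ, Cfsg.IsIrrCharacter G χ → (∀ g : G, (χ g).im = 0) →
      ∀ ξ : N → ℂ, Cfsg.IsIrrCharacter N ξ → (∀ n : N, (ξ n).im = 0) → R χ ξ →
      ¬ p ∣ Cfsg.charDegree ξ := by
    intro χ hχ hre ξ hξ hξre hR hdvd
    obtain ⟨ε, hε, hmod⟩ := F_deg χ hχ hre ξ hξ hξre hR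
    have h1 : (p : ℤ) ∣ ε * (Cfsg.charDegree ξ : ℤ) :=
      Dvd.dvd.mul_left (Int.natCast_dvd_natCast.2 hdvd) ε
    have h2 : (p : ℤ) ∣ (Cfsg.charDegree χ : ℤ) := by
      have h3 := (Int.modEq_iff_dvd.1 hmod)
      have h4 := dvd_sub h1 h3
      have h5 : ε * (Cfsg.charDegree ξ : ℤ) - (ε * (Cfsg.charDegree ξ : ℤ) -
          (Cfsg.charDegree χ : ℤ)) = (Cfsg.charDegree χ : ℤ) := by ring
      rwa [h5] at h4
    exact hreal ⟨χ, hχ⟩ hre (Int.natCast_dvd_natCast.1 h2)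
  have key : ∀ χ : {χ : Cfsg.IrrCharacter G // ∀ g : G, ((χ : G → ℂ) g).im = 0},
      ∃ ξ : N → ℂ, Cfsg.IsIrrCharacter N ξ ∧ (∀ n : N, (ξ n).im = 0) ∧ R (χ.1 : G → ℂ) ξ :=
    fun χ => F_tot χ.1.1 χ.1.2 χ.2
  choose F hFirr hFre hFR using key
  refine ⟨fun χ => ⟨⟨F χ, hFirr χ⟩, hFre χ,
    hdegY χ.1.1 χ.1.2 χ.2 (F χ) (hFirr χ) (hFre χ) (hFR χ)⟩, ⟨?_, ?_⟩, ?_⟩
  · intro χ χ' hff
    have h1 : F χ = F χ' := congrArg (fun z => (z.1.1 : N → ℂ)) hff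
    have h2 := hFR χ'
    rw [← h1] at h2
    exact Subtype.ext (Subtype.ext
      (F_inj χ.1.1 χ'.1.1 χ.1.2 χ'.1.2 χ.2 χ'.2 (F χ) (hFirr χ) (hFR χ) h2))
  · intro ξ₀
    obtain ⟨χ, hχ, hre, hR⟩ := F_surj ξ₀.1.1 ξ₀.1.2 ξ₀.2.1 ξ₀.2.2
    refine ⟨⟨⟨χ, hχ⟩, hre⟩, ?_⟩
    have h1 := F_fun χ hχ hre (F ⟨⟨χ, hχ⟩, hre⟩) ξ₀.1.1 (hFirr _) ξ₀.1.2 (hFre _) ξ₀.2.1
      (hFR ⟨⟨χ, hχ⟩, hre⟩) hR
    exact Subtype.ext (Subtype.ext h1)
  · intro χ
    obtain ⟨ε, hε, hmod⟩ := F_deg χ.1.1 χ.1.2 χ.2 (F χ) (hFirr χ) (hFre χ) (hFR χ)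
    show ((Cfsg.charDegree (F χ) : ZMod p) = (Cfsg.charDegree (χ.1 : G → ℂ) : ZMod p) ∨
      (Cfsg.charDegree (F χ) : ZMod p) = -(Cfsg.charDegree (χ.1 : G → ℂ) : ZMod p))
    have h3 : (((Cfsg.charDegree (χ.1 : G → ℂ) : ℕ) : ℤ) : ZMod p) =
        ((ε * ((Cfsg.charDegree (F χ) : ℕ) : ℤ) : ℤ) : ZMod p) :=
      (ZMod.intCast_eq_intCast_iff _ _ _).2 hmod
    push_cast at h3
    rcases hε with h4 | h4
    · left
      rw [h4] at h3
      simp only [Int.cast_one, one_mul] at h3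
      exact h3.symm
    · right
      rw [h4] at h3
      simp only [Int.cast_neg, Int.cast_one, neg_mul, one_mul] at h3
      rw [h3, neg_neg]

end Cfsg.Agent.Lib.Helper81
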