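import Mathlib
import Cfsg.Prelude.Def_Blocks
import Cfsg.Agent.Lib.Helper81.RealBij3

set_option autoImplicit false
set_option linter.style.haveILetI false
set_option linter.unusedSectionVars false

/-!
The Isaacs–Navarro bijection between the real irreducible characters of `G` and the real
irreducible characters of `p'`-degree of the normalizer of a Sylow `p`-subgroup.
-/

namespace Cfsg.Agent.Lib.Helper81

universe u

/-- **Isaacs–Navarro**: if `O^{p'}(G)` is solvable and the real irreducible characters of `G`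
have degree prime to `p`, they correspond bijectively to the real irreducible characters of
`p'`-degree of the normalizer of a Sylow `p`-subgroup, with degrees congruent up to sign. -/
theorem real_bij {G : Type u} [Group G] [Finite G] (p : ℕ) [hp : Fact p.Prime]
    (hsolv : Group.IsSolvable ↥(Subgroup.closure {g : G | ∃ k : ℕ, orderOf g = p ^ k}))
    (hreal : ∀ χ : Cfsg.IrrCharacter G, (∀ g : G, ((χ : G → ℂ) g).im = 0) →
      ¬ p ∣ Cfsg.charDegree (χ : G → ℂ))
    (P : Sylow p G) :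
    ∃ f : {χ : Cfsg.IrrCharacter G // ∀ g : G, ((χ : G → ℂ) g).im = 0} →
      {ξ : Cfsg.IrrCharacter ↥(Subgroup.normalizer ((P : Subgroup G) : Set G)) //
        (∀ n, ((ξ : ↥(Subgroup.normalizer ((P : Subgroup G) : Set G)) → ℂ) n).im = 0) ∧
        ¬ p ∣ Cfsg.charDegree (ξ : ↥(Subgroup.normalizer ((P : Subgroup G) : Set G)) → ℂ)},
      Function.Bijective f ∧ ∀ χ,
        ((Cfsg.charDegree ((f χ).1 : ↥(Subgroup.normalizer ((P : Subgroup G) : Set G)) → ℂ) :
            ZMod p) = (Cfsg.charDegree (χ.1 : G → ℂ) : ZMod p) ∨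
          (Cfsg.charDegree ((f χ).1 : ↥(Subgroup.normalizer ((P : Subgroup G) : Set G)) → ℂ) :
            ZMod p) = -(Cfsg.charDegree (χ.1 : G → ℂ) : ZMod p)) := by
  classical
  haveI hK₀n : (Subgroup.closure {g : G | ∃ k : ℕ, orderOf g = 2 ^ k}).Normal :=
    normal_closure_ppow G 2
  obtain ⟨Q₁, hQ₁n, hQ₁p, hQ₁⟩ := real_pprime p hsolv hreal
    (Subgroup.closure {g : G | ∃ k : ℕ, orderOf g = 2 ^ k}) hK₀n le_rfl
    (fun u hu => ⟨0, by simpa using hu⟩)
  haveI := hQ₁n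
  have hoddK₀ : Odd (Subgroup.closure {g : G | ∃ k : ℕ, orderOf g = 2 ^ k}).index := by
    rw [← Nat.not_even_iff_odd, even_iff_two_dvd]
    exact not_dvd_index_closure_ppow 2 Nat.prime_two
  have hQ₁P : Q₁ ≤ (P : Subgroup G) := hQ₁p.le_sylow_of_normal P
  refine real_bij_core p hreal P (Subgroup.normalizer ((P : Subgroup G) : Set G))
    (Subgroup.closure {g : G | ∃ k : ℕ, orderOf g = 2 ^ k} ⊓
      Subgroup.normalizer ((P : Subgroup G) : Set G))
    ((P : Subgroup G).map (MulAut.conj : G →* MulAut G)) rfl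
    (Subgroup.closure {g : G | ∃ k : ℕ, orderOf g = 2 ^ k})
    (Q₁ ⊓ Subgroup.closure {g : G | ∃ k : ℕ, orderOf g = 2 ^ k}) rfl rfl hoddK₀ inf_le_right
    ?_ ?_ ?_ ?_
  · intro g q hq
    exact ⟨hQ₁n.conj_mem q hq.1 g, hK₀n.conj_mem q hq.2 g⟩
  · exact inf_le_left.trans hQ₁P
  · intro x hx
    refine ⟨?_, hx.2⟩
    obtain ⟨k, hk⟩ := (IsPGroup.iff_orderOf.1 P.2) ⟨x, hx.1⟩
    refine hQ₁ x hx.2 ⟨k, ?_⟩
    rw [← hk]
    exact (Subgroup.orderOf_mk x hx.1).symm
  · rw [Subgroup.inf_relIndex_right]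
    intro hdvd
    have hdvd' : p ∣ Nat.card (↥(Subgroup.closure {g : G | ∃ k : ℕ, orderOf g = 2 ^ k}) ⧸
        Q₁.subgroupOf (Subgroup.closure {g : G | ∃ k : ℕ, orderOf g = 2 ^ k})) := by
      rw [← Subgroup.index_eq_card]
      exact hdvd
    obtain ⟨xb, hxb⟩ := exists_prime_orderOf_dvd_card' p hdvd'
    obtain ⟨k₀, rfl⟩ := QuotientGroup.mk'_surjective _ xb
    have hy : (QuotientGroup.mk' (Q₁.subgroupOf
        (Subgroup.closure {g : G | ∃ k : ℕ, orderOf g = 2 ^ k})) k₀) ^ (p ^ 1) = 1 := by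
      have h0 := pow_orderOf_eq_one (QuotientGroup.mk' (Q₁.subgroupOf
        (Subgroup.closure {g : G | ∃ k : ℕ, orderOf g = 2 ^ k})) k₀)
      rw [hxb] at h0
      rw [pow_one]
      exact h0
    obtain ⟨x, hx, a, ha⟩ := exists_lift_ppow81 (QuotientGroup.mk' _) hp.out k₀ hy
    have hxQ : (x : G) ∈ Q₁ := hQ₁ x x.2 ⟨a, by rw [Subgroup.orderOf_coe, ha]⟩
    have h1 : QuotientGroup.mk' (Q₁.subgroupOf
        (Subgroup.closure {g : G | ∃ k : ℕ, orderOf g = 2 ^ k})) x = 1 :=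
      (QuotientGroup.eq_one_iff x).2 hxQ
    rw [hx] at h1
    rw [h1, orderOf_one] at hxb
    exact hp.out.one_lt.ne hxb

end Cfsg.Agent.Lib.Helper81
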