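import Mathlib
import Cfsg.Prelude.Def_Blocks
import Cfsg.Prelude.Def_Local
import Cfsg.Prelude.Def_CharExt
import Cfsg.Agent.Lib.Helper80.ItoConverse
import Cfsg.Agent.Lib.Helper15.DetChar
import Cfsg.Agent.Lib.Helper15.LinIrr
import Cfsg.Agent.Lib.Helper81.CliffRel

set_option autoImplicit false
set_option linter.style.haveILetI false
set_option linter.unusedSectionVars false

/-!
Characters of `p'`-degree over a linear character of a normal `p`-subgroup: the Sylow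
`p`-subgroups are abelian modulo the normal subgroup (`p`-solvable groups).
-/

namespace Cfsg.Agent.Lib.Helper81

open scoped ComplexConjugate

universe u

/-- the constant function `d` is a character -/
theorem isCharacter_const81 {N : Type*} [Group N] (d : ℕ) :
    Cfsg.IsCharacter N (fun _ : N => (d : ℂ)) := by
  refine ⟨d, Representation.trivial ℂ N (Fin d → ℂ), ?_⟩
  funext x
  simp [Representation.character]

/-- the determinant of a multiple of the trivial character is trivial -/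
theorem detChar_const81 {N : Type*} [Group N] [Finite N] (d : ℕ) (g : N) :
    Cfsg.detChar (fun _ : N => (d : ℂ)) g = 1 := by
  have h : (Representation.trivial ℂ N (Fin d → ℂ)).character = fun _ : N => (d : ℂ) := by
    funext x
    simp [Representation.character]
  rw [← h, Helper15.detChar_character]
  simp

/-- a linear character of a `p`-group `N` extends along `ι : N →* T` as soon as some character
of `T` restricts to a multiple prime to `p` of it -/
theorem exists_lin_extension {T N : Type u} [Group T] [Finite T] [Group N] [Finite N]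
    (ι : N →* T) (p : ℕ) [hp : Fact p.Prime] (hNp : IsPGroup p N) (lam : N →* ℂˣ) {ψ : T → ℂ}
    (hψ : Cfsg.IsCharacter T ψ) (d : ℕ) (hres : ∀ n : N, ψ (ι n) = (d : ℂ) * ((lam n : ℂˣ) : ℂ))
    (hd : ¬ p ∣ d) : ∃ μ : T →* ℂˣ, ∀ n : N, μ (ι n) = lam n := by
  obtain ⟨k, hk⟩ := IsPGroup.iff_card.1 hNp
  have hlamk : ∀ n : N, lam n ^ (p ^ k) = 1 := by
    intro n
    rw [← map_pow, ← hk, pow_card_eq_one', map_one]
  have h1 : ∀ n : N, Helper15.detCharHom ψ (ι n) = lam n ^ d := by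
    intro n
    apply Units.ext
    rw [Helper15.detCharHom_apply, Units.val_pow_eq_pow_val]
    have h2 := congrFun (Helper15.detChar_comp ι hψ) n
    rw [← h2]
    have h3 : (fun n : N => ψ (ι n)) =
        (fun n : N => ((lam n : ℂˣ) : ℂ)) * (fun _ : N => (d : ℂ)) := by
      funext n
      rw [hres n, Pi.mul_apply, mul_comm]
    rw [h3, Helper15.detChar_lin_mul (Helper15.isCharacter_of_hom lam) (by simp)
      (isCharacter_const81 d) d rfl]
    show ((lam n : ℂˣ) : ℂ) ^ d * Cfsg.detChar (fun _ : N => (d : ℂ)) n = _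
    rw [detChar_const81, mul_one]
  by_cases hk1 : 1 < p ^ k
  · have hcop : Nat.Coprime d (p ^ k) :=
      Nat.Coprime.pow_right k ((Nat.Prime.coprime_iff_not_dvd hp.out).2 hd).symm
    obtain ⟨b, -, hb⟩ := Nat.exists_mul_mod_eq_one_of_coprime hcop hk1
    refine ⟨Helper15.detCharHom ψ ^ b, fun n => ?_⟩
    rw [MonoidHom.pow_apply, h1, ← pow_mul]
    have h4 : d * b = p ^ k * (d * b / p ^ k) + 1 := by
      have := Nat.div_add_mod (d * b) (p ^ k)
      rw [hb] at this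
      exact this.symm
    rw [h4, pow_succ, pow_mul, hlamk, one_pow, one_mul]
  · have hpk : p ^ k = 1 := by
      have : 0 < p ^ k := pow_pos hp.out.pos k
      omega
    refine ⟨1, fun n => ?_⟩
    have := hlamk n
    rw [hpk, pow_one] at this
    rw [this, MonoidHom.one_apply]

set_option maxHeartbeats 1600000 in
/-- auxiliary form with the inertia group `T` as a variable -/
theorem commutator_sylow_of_pprime_over_aux {G : Type u} [Group G] [Fintype G] (p : ℕ)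
    [hp : Fact p.Prime] (hsolv : Cfsg.IsPSolvable p G) (N : Subgroup G) [hNn : N.Normal]
    [Fintype N] (hNp : IsPGroup p N) (lam : N →* ℂˣ)
    (hdeg : ∀ χ : G → ℂ, Cfsg.IsIrrCharacter G χ →
      Cfsg.classInner (fun n : N => χ n) (fun n : N => ((lam n : ℂˣ) : ℂ)) ≠ 0 →
      ¬ p ∣ Cfsg.charDegree χ)
    (T : Subgroup G) [Fintype T]
    (hT : ∀ g : G, g ∈ T ↔ Helper75.conjChar N (fun n : N => ((lam n : ℂˣ) : ℂ)) g =
      (fun n : N => ((lam n : ℂˣ) : ℂ)))
    (P : Sylow p G) : ∀ u ∈ P, ∀ v ∈ P, u * v * u⁻¹ * v⁻¹ ∈ N := by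
  classical
  have hθ : Cfsg.IsIrrCharacter N (fun n : N => ((lam n : ℂˣ) : ℂ)) :=
    Helper80.isIrrCharacter_of_hom lam
  have hθc := Helper80.isCharacter_of_isIrrCharacter hθ
  have hNT : N ≤ T := fun n hn => (hT n).2
    (Helper75.conjChar_of_mem N (Helper80.isClassFunction_of_isCharacter hθc) hn)
  obtain ⟨χ, hχ, hχθ⟩ := Helper80.exists_irr_over N hθ
  have hpχ := hdeg χ hχ hχθ
  obtain ⟨ψ₀, hψ₀, hind, hmult, -⟩ := clifford_pkg N T hNT hχ hθ hT hχθ
  have hψ₀c := Helper80.isCharacter_of_isIrrCharacter hψ₀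
  -- degrees along the Clifford correspondence
  have hdegind : ∀ (χ' : G → ℂ) (ψ' : T → ℂ),
      Cfsg.IsIrrCharacter G χ' → Cfsg.IsIrrCharacter T ψ' → Cfsg.indFun T ψ' = χ' →
      Cfsg.charDegree χ' = T.index * Cfsg.charDegree ψ' := by
    intro χ' ψ' hχ' hψ' hind'
    have h1 : χ' 1 = (T.index : ℂ) * ψ' 1 := by
      rw [← hind', Helper80.indFun_one]
    rw [Helper80.char_one_eq_charDegree (Helper80.isCharacter_of_isIrrCharacter hχ'),
      Helper80.char_one_eq_charDegree (Helper80.isCharacter_of_isIrrCharacter hψ')] at h1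
    exact_mod_cast h1
  have hdeg₀ := hdegind χ ψ₀ hχ hψ₀ hind
  have hpT : ¬ p ∣ T.index := by
    intro h
    exact hpχ (hdeg₀ ▸ Dvd.dvd.mul_right h _)
  have hpψ₀ : ¬ p ∣ Cfsg.charDegree ψ₀ := by
    intro h
    exact hpχ (hdeg₀ ▸ Dvd.dvd.mul_left h _)
  -- the restriction of ψ₀ to N
  have hψ₀θ : Cfsg.classInner (fun n : N => ψ₀ ⟨n, hNT n.2⟩)
      (fun n : N => ((lam n : ℂˣ) : ℂ)) ≠ 0 := by
    rw [hmult]
    exact hχθ
  have hres := Helper75.res_eq_smul_of_invariant_le N T hNT hψ₀ hθ hψ₀θ (fun t ht => (hT t).1 ht)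
  have hc : Cfsg.classInner (fun n : N => ψ₀ ⟨n, hNT n.2⟩)
      (fun n : N => ((lam n : ℂˣ) : ℂ)) = (Cfsg.charDegree ψ₀ : ℂ) := by
    have h1 := congrFun hres 1
    simp only [Pi.smul_apply, smul_eq_mul, map_one, Units.val_one, mul_one] at h1
    rw [← h1]
    exact Helper80.char_one_eq_charDegree hψ₀c
  have hres' : ∀ n : N, ψ₀ (Subgroup.inclusion hNT n) =
      (Cfsg.charDegree ψ₀ : ℂ) * ((lam n : ℂˣ) : ℂ) := by
    intro n
    have h1 := congrFun hres n
    simp only [Pi.smul_apply, smul_eq_mul] at h1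
    rw [hc] at h1
    exact h1
  obtain ⟨μ, hμ⟩ := exists_lin_extension (Subgroup.inclusion hNT) p hNp lam hψ₀c
    (Cfsg.charDegree ψ₀) hres' hpψ₀
  -- the characters of the quotient have degree prime to p
  have hQdeg : ∀ β : Cfsg.IrrCharacter (T ⧸ N.subgroupOf T),
      ¬ p ∣ Cfsg.charDegree (β : T ⧸ N.subgroupOf T → ℂ) := by
    intro β
    have hβt := Helper80.isIrrCharacter_inflate (N.subgroupOf T) β.2
    have hψ := Helper15.isIrrCharacter_lin_mul (Helper15.isCharacter_of_hom μ) (by simp) hβt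
    have hψN : ∀ n : N, ((fun t : T => ((μ t : ℂˣ) : ℂ)) * (fun t : T =>
        (β : T ⧸ N.subgroupOf T → ℂ) (t : T ⧸ N.subgroupOf T))) ⟨n, hNT n.2⟩ =
        (β : T ⧸ N.subgroupOf T → ℂ) 1 * ((lam n : ℂˣ) : ℂ) := by
      intro n
      have h1 : μ ⟨n, hNT n.2⟩ = lam n := hμ n
      have h2 : ((⟨(n : G), hNT n.2⟩ : T) : T ⧸ N.subgroupOf T) = 1 :=
        (QuotientGroup.eq_one_iff _).2 (Subgroup.mem_subgroupOf.2 n.2)
      show ((μ ⟨n, hNT n.2⟩ : ℂˣ) : ℂ) * (β : T ⧸ N.subgroupOf T → ℂ)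
        ((⟨(n : G), hNT n.2⟩ : T) : T ⧸ N.subgroupOf T) =
        (β : T ⧸ N.subgroupOf T → ℂ) 1 * ((lam n : ℂˣ) : ℂ)
      rw [h1, h2, mul_comm]
    have hψθ : Cfsg.classInner (fun n : N => ((fun t : T => ((μ t : ℂˣ) : ℂ)) * (fun t : T =>
        (β : T ⧸ N.subgroupOf T → ℂ) (t : T ⧸ N.subgroupOf T))) ⟨n, hNT n.2⟩)
        (fun n : N => ((lam n : ℂˣ) : ℂ)) ≠ 0 := by
      have h1 : (fun n : N => ((fun t : T => ((μ t : ℂˣ) : ℂ)) * (fun t : T =>
          (β : T ⧸ N.subgroupOf T → ℂ) (t : T ⧸ N.subgroupOf T))) ⟨n, hNT n.2⟩) =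
          (β : T ⧸ N.subgroupOf T → ℂ) 1 • (fun n : N => ((lam n : ℂˣ) : ℂ)) := by
        funext n
        rw [hψN n]
        rfl
      rw [h1, Helper80.classInner_smul_left, Helper80.classInner_self hθ, mul_one]
      exact Helper80.char_one_ne_zero β.2
    obtain ⟨χ', hχ', hχ'ψ⟩ := Helper80.exists_irr_over T hψ
    have hχ'θ : Cfsg.classInner (fun n : N => χ' n) (fun n : N => ((lam n : ℂˣ) : ℂ)) ≠ 0 :=
      constituent_trans (Subgroup.inclusion hNT)
        (Helper80.isCharacter_comp T.subtype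
          (Helper80.isCharacter_of_isIrrCharacter hχ')) hψ hθc hχ'ψ hψθ
    have hpχ' := hdeg χ' hχ' hχ'θ
    obtain ⟨ψ₁, hψ₁, hind₁, -, huniq⟩ := clifford_pkg N T hNT hχ' hθ hT hχ'θ
    have hψeq := huniq _ hψ hψθ hχ'ψ
    have hdeg₁ := hdegind χ' ψ₁ hχ' hψ₁ hind₁
    have hdψ : Cfsg.charDegree ψ₁ = Cfsg.charDegree (β : T ⧸ N.subgroupOf T → ℂ) := by
      rw [← hψeq]
      unfold Cfsg.charDegree
      rw [Pi.mul_apply, map_one, Units.val_one, one_mul]
      rfl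
    intro h
    apply hpχ'
    rw [hdeg₁, hdψ]
    exact Dvd.dvd.mul_left h _
  -- the quotient is p-solvable, so its Sylow p-subgroups are abelian
  have hsolvT := Helper69.isPSolvable_subgroup p hsolv T
  have hsolvQ := Helper69.isPSolvable_of_surj p (QuotientGroup.mk' (N.subgroupOf T))
    (QuotientGroup.mk'_surjective _) hsolvT
  -- move P into the inertia group
  have hpT' : ¬ p ∣ Nat.card (G ⧸ T) := by
    rw [← Subgroup.index_eq_card]
    exact hpT
  obtain ⟨q, hq⟩ := P.2.nonempty_fixed_point_of_prime_not_dvd_card (G ⧸ T) hpT'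
  obtain ⟨g, rfl⟩ := QuotientGroup.mk_surjective q
  have hconj : ∀ u ∈ P, g⁻¹ * u * g ∈ T := by
    intro u hu
    have h1 := hq ⟨u, hu⟩
    have h2 : ((u * g : G) : G ⧸ T) = (g : G ⧸ T) := h1
    have h3 := QuotientGroup.eq.1 h2
    have h4 := inv_mem h3
    have h5 : ((u * g)⁻¹ * g)⁻¹ = g⁻¹ * u * g := by group
    rwa [h5] at h4
  have hP' : IsPGroup p (((P : Subgroup G).map (MulAut.conj g⁻¹).toMonoidHom).subgroupOf T) := by
    have h1 : IsPGroup p ((P : Subgroup G).map (MulAut.conj g⁻¹).toMonoidHom) := P.2.map _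
    exact h1.comap_of_injective _ (Subgroup.subtype_injective _)
  obtain ⟨S, hS⟩ := hP'.exists_le_sylow
  have hIto := (Helper80.sylow_normal_comm_of_not_dvd_charDegree p hsolvQ hQdeg
    (S.mapSurjective (QuotientGroup.mk'_surjective _))).2
  intro u hu v hv
  have hmemS : ∀ w (hw : w ∈ P), (⟨g⁻¹ * w * g, hconj w hw⟩ : T) ∈ S := by
    intro w hw
    apply hS
    rw [Subgroup.mem_subgroupOf]
    refine ⟨w, hw, ?_⟩
    simp
  have hcm := hIto.is_comm.comm
    ⟨QuotientGroup.mk' (N.subgroupOf T) ⟨g⁻¹ * u * g, hconj u hu⟩, ⟨_, hmemS u hu, rfl⟩⟩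
    ⟨QuotientGroup.mk' (N.subgroupOf T) ⟨g⁻¹ * v * g, hconj v hv⟩, ⟨_, hmemS v hv, rfl⟩⟩
  have hcm' : QuotientGroup.mk' (N.subgroupOf T) ⟨g⁻¹ * u * g, hconj u hu⟩ *
      QuotientGroup.mk' (N.subgroupOf T) ⟨g⁻¹ * v * g, hconj v hv⟩ =
      QuotientGroup.mk' (N.subgroupOf T) ⟨g⁻¹ * v * g, hconj v hv⟩ *
      QuotientGroup.mk' (N.subgroupOf T) ⟨g⁻¹ * u * g, hconj u hu⟩ := congrArg Subtype.val hcm
  have h6 : (⟨g⁻¹ * u * g, hconj u hu⟩ : T) * ⟨g⁻¹ * v * g, hconj v hv⟩ *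
      (⟨g⁻¹ * u * g, hconj u hu⟩ : T)⁻¹ * (⟨g⁻¹ * v * g, hconj v hv⟩ : T)⁻¹ ∈
      N.subgroupOf T := by
    rw [← QuotientGroup.eq_one_iff]
    have h7 : ((((⟨g⁻¹ * u * g, hconj u hu⟩ : T) * ⟨g⁻¹ * v * g, hconj v hv⟩ *
        (⟨g⁻¹ * u * g, hconj u hu⟩ : T)⁻¹ * (⟨g⁻¹ * v * g, hconj v hv⟩ : T)⁻¹ : T) :
        T ⧸ N.subgroupOf T)) =
        QuotientGroup.mk' (N.subgroupOf T) ⟨g⁻¹ * u * g, hconj u hu⟩ *
        QuotientGroup.mk' (N.subgroupOf T) ⟨g⁻¹ * v * g, hconj v hv⟩ *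
        (QuotientGroup.mk' (N.subgroupOf T) ⟨g⁻¹ * u * g, hconj u hu⟩)⁻¹ *
        (QuotientGroup.mk' (N.subgroupOf T) ⟨g⁻¹ * v * g, hconj v hv⟩)⁻¹ := rfl
    rw [h7, hcm']
    group
  rw [Subgroup.mem_subgroupOf] at h6
  have h8 : g * (g⁻¹ * u * g * (g⁻¹ * v * g) * (g⁻¹ * u * g)⁻¹ * (g⁻¹ * v * g)⁻¹) * g⁻¹ =
      u * v * u⁻¹ * v⁻¹ := by group
  rw [← h8]
  exact hNn.conj_mem _ h6 g

/-- **relative Ito–Michler, linear case**: if every irreducible character of the `p`-solvable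
group `G` over the linear character `lam` of the normal `p`-subgroup `N` has degree prime to
`p`, the Sylow `p`-subgroups of `G` are abelian modulo `N` -/
theorem commutator_sylow_of_pprime_over {G : Type u} [Group G] [Fintype G] (p : ℕ)
    [hp : Fact p.Prime] (hsolv : Cfsg.IsPSolvable p G) (N : Subgroup G) [hNn : N.Normal]
    [Fintype N] (hNp : IsPGroup p N) (lam : N →* ℂˣ)
    (hdeg : ∀ χ : G → ℂ, Cfsg.IsIrrCharacter G χ →
      Cfsg.classInner (fun n : N => χ n) (fun n : N => ((lam n : ℂˣ) : ℂ)) ≠ 0 →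
      ¬ p ∣ Cfsg.charDegree χ)
    (P : Sylow p G) : ∀ u ∈ P, ∀ v ∈ P, u * v * u⁻¹ * v⁻¹ ∈ N := by
  classical
  haveI : Fintype (Helper75.inertia N (fun n : N => ((lam n : ℂˣ) : ℂ))) := Fintype.ofFinite _
  exact commutator_sylow_of_pprime_over_aux p hsolv N hNp lam hdeg
    (Helper75.inertia N (fun n : N => ((lam n : ℂˣ) : ℂ))) (fun g => Iff.rfl) P

end Cfsg.Agent.Lib.Helper81
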