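import Mathlib
import Cfsg.Prelude.Def_Blocks
import Cfsg.Prelude.Def_Local
import Cfsg.Agent.Lib.Helper81.SylDer1
import Cfsg.Agent.Lib.Helper81.SemiReal

set_option autoImplicit false
set_option linter.style.haveILetI false
set_option linter.unusedSectionVars false

/-!
The derived length of a Sylow `p`-subgroup of a `p`-solvable group is at most one more than
the number of irreducible characters of degree divisible by `p`.
-/

namespace Cfsg.Agent.Lib.Helper81

universe u

/-- elements of a term of the derived series of `P` die in a quotient where that term of the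
image vanishes -/
theorem derived_map_eq_one {G G' : Type*} [Group G] [Group G'] (f : G →* G') (P : Subgroup G)
    (k : ℕ) (h : derivedSeries ↥(P.map f) k = ⊥) :
    ∀ x ∈ derivedSeries ↥P k, f (x : G) = 1 := by
  intro x hx
  have h1 := _root_.map_derivedSeries_eq (f.subgroupMap_surjective P) k
  rw [h] at h1
  have h2 : f.subgroupMap P x ∈ (derivedSeries ↥P k).map (f.subgroupMap P) :=
    Subgroup.mem_map_of_mem _ hx
  rw [h1, Subgroup.mem_bot] at h2
  exact congrArg Subtype.val h2

/-- if a term of the derived series is commutative, the next one is trivial -/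
theorem derived_succ_bot_of_comm {X : Type*} [Group X] (k : ℕ)
    (h : ∀ x ∈ derivedSeries X k, ∀ y ∈ derivedSeries X k, x * y = y * x) :
    derivedSeries X (k + 1) = ⊥ := by
  rw [derivedSeries_succ, eq_bot_iff, Subgroup.commutator_le]
  intro a ha b hb
  rw [Subgroup.mem_bot, commutatorElement_def, h a ha b hb]
  group

/-- a nontrivial `p`-solvable group has a nontrivial normal subgroup that is an abelian
`p`-group or a `p'`-group -/
theorem exists_normal_abelian_or_coprime {G : Type*} [Group G] [Finite G] [Nontrivial G] (p : ℕ)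
    [Fact p.Prime] (h : Cfsg.IsPSolvable p G) :
    ∃ N : Subgroup G, N.Normal ∧ N ≠ ⊥ ∧
      ((IsPGroup p N ∧ ∀ a ∈ N, ∀ b ∈ N, a * b = b * a) ∨ (Nat.card N).Coprime p) := by
  obtain ⟨N₀, hN₀n, hN₀bot, hN₀⟩ := Helper69.exists_normal_of_isPSolv p h
  rcases hN₀ with hp | hcop
  · haveI := hN₀n
    haveI : Nontrivial N₀ := (Subgroup.nontrivial_iff_ne_bot N₀).2 hN₀bot
    haveI := hp.center_nontrivial
    refine ⟨(Subgroup.center ↥N₀).map N₀.subtype, ConjAct.normal_of_characteristic_of_normal,
      ?_, Or.inl ⟨?_, ?_⟩⟩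
    · intro h0
      rw [(Subgroup.map_eq_bot_iff_of_injective _ (Subgroup.subtype_injective _))] at h0
      have h1 := (Subgroup.nontrivial_iff_ne_bot (Subgroup.center ↥N₀)).1 inferInstance
      exact h1 h0
    · exact (hp.to_subgroup (Subgroup.center ↥N₀)).map _
    · rintro _ ⟨a, ha, rfl⟩ _ ⟨b, hb, rfl⟩
      have h1 := Subgroup.mem_center_iff.1 ha b
      have h2 := congrArg Subtype.val h1
      simpa using h2.symm
  · exact ⟨N₀, hN₀n, hN₀bot, Or.inr hcop⟩

section Count

variable {G : Type u} [Group G] [Finite G] (N : Subgroup G) [N.Normal] (p : ℕ)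

/-- inflation of characters of degree divisible by `p` -/
noncomputable def inflDvd :
    {ψ : Cfsg.IrrCharacter (G ⧸ N) // p ∣ Cfsg.charDegree (ψ : G ⧸ N → ℂ)} →
      {χ : Cfsg.IrrCharacter G // p ∣ Cfsg.charDegree (χ : G → ℂ)} :=
  fun ψ => ⟨(Helper80.irrQuotientEquiv N ψ.1 : Cfsg.IrrCharacter G), by
    have h2 : Cfsg.charDegree ((Helper80.irrQuotientEquiv N ψ.1 : Cfsg.IrrCharacter G) : G → ℂ) =
        Cfsg.charDegree (ψ.1 : G ⧸ N → ℂ) := by
      unfold Cfsg.charDegree
      rw [Helper80.irrQuotientEquiv_apply]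
      rfl
    rw [h2]
    exact ψ.2⟩

theorem inflDvd_injective : Function.Injective (inflDvd N p) := by
  intro ψ ψ' h
  have h0 := congrArg (fun z : {χ : Cfsg.IrrCharacter G // p ∣ Cfsg.charDegree (χ : G → ℂ)} =>
    (z.1 : Cfsg.IrrCharacter G)) h
  have h1 : (Helper80.irrQuotientEquiv N ψ.1 : Cfsg.IrrCharacter G) =
      (Helper80.irrQuotientEquiv N ψ'.1 : Cfsg.IrrCharacter G) := h0
  exact Subtype.ext ((Helper80.irrQuotientEquiv N).injective (Subtype.ext h1))

theorem card_dvd_quot_le :
    Nat.card {ψ : Cfsg.IrrCharacter (G ⧸ N) // p ∣ Cfsg.charDegree (ψ : G ⧸ N → ℂ)} ≤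
      Nat.card {χ : Cfsg.IrrCharacter G // p ∣ Cfsg.charDegree (χ : G → ℂ)} :=
  Nat.card_le_card_of_injective _ (inflDvd_injective N p)

/-- if the quotient has as many characters of degree divisible by `p`, all of them are trivial
on `N` -/
theorem ker_of_card_dvd_quot_eq
    (h : Nat.card {ψ : Cfsg.IrrCharacter (G ⧸ N) // p ∣ Cfsg.charDegree (ψ : G ⧸ N → ℂ)} =
      Nat.card {χ : Cfsg.IrrCharacter G // p ∣ Cfsg.charDegree (χ : G → ℂ)})
    (χ : Cfsg.IrrCharacter G) (hχ : p ∣ Cfsg.charDegree (χ : G → ℂ)) :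
    ∀ x ∈ N, (χ : G → ℂ) x = (χ : G → ℂ) 1 := by
  have hbij := (inflDvd_injective N p).bijective_of_nat_card_le (le_of_eq h.symm)
  obtain ⟨ψ, hψ⟩ := hbij.2 ⟨χ, hχ⟩
  have h0 := congrArg (fun z : {χ : Cfsg.IrrCharacter G // p ∣ Cfsg.charDegree (χ : G → ℂ)} =>
    (z.1 : Cfsg.IrrCharacter G)) hψ
  have h1 : (Helper80.irrQuotientEquiv N ψ.1 : Cfsg.IrrCharacter G) = χ := h0
  rw [← h1]
  exact (Helper80.irrQuotientEquiv N ψ.1).2

end Count

set_option maxHeartbeats 1600000 in
theorem sylow_derived_aux (p : ℕ) [hp : Fact p.Prime] :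
    ∀ (m : ℕ) (G : Type u) [Group G] [Finite G], Nat.card G = m → Cfsg.IsPSolvable p G →
      ∀ P : Sylow p G, derivedSeries ↥(P : Subgroup G)
        (Nat.card {χ : Cfsg.IrrCharacter G // p ∣ Cfsg.charDegree (χ : G → ℂ)} + 1) = ⊥ := by
  intro m
  induction m using Nat.strong_induction_on with
  | _ m ih =>
  intro G _ _ hcard hsolv P
  classical
  haveI := Fintype.ofFinite G
  rcases subsingleton_or_nontrivial G with hsub | hnt
  · exact Subsingleton.elim _ _
  by_cases hn0 : Nat.card {χ : Cfsg.IrrCharacter G // p ∣ Cfsg.charDegree (χ : G → ℂ)} = 0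
  · have hdeg : ∀ χ : Cfsg.IrrCharacter G, ¬ p ∣ Cfsg.charDegree (χ : G → ℂ) := by
      intro χ hχ
      have h1 : 0 < Nat.card {χ : Cfsg.IrrCharacter G // p ∣ Cfsg.charDegree (χ : G → ℂ)} :=
        Nat.card_pos_iff.2 ⟨⟨⟨χ, hχ⟩⟩, inferInstance⟩
      omega
    have hc := (Helper80.sylow_normal_comm_of_not_dvd_charDegree p hsolv hdeg P).2
    rw [hn0]
    apply derived_succ_bot_of_comm
    intro a _ b _
    exact hc.is_comm.comm a b
  obtain ⟨N, hNn, hNbot, hN⟩ := exists_normal_abelian_or_coprime p hsolv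
  haveI := hNn
  haveI : Fintype N := Fintype.ofFinite _
  have hπ : Function.Surjective (QuotientGroup.mk' N) := QuotientGroup.mk'_surjective N
  have hQcard : Nat.card (G ⧸ N) < m := by
    rw [← hcard, ← Subgroup.index_eq_card, ← Subgroup.index_mul_card N]
    have h1 : 1 < Nat.card N := N.one_lt_card_iff_ne_bot.mpr hNbot
    have h2 : 0 < N.index := Nat.pos_of_ne_zero Subgroup.index_ne_zero_of_finite
    nlinarith
  have hIH := ih _ hQcard (G ⧸ N) rfl (Helper69.isPSolvable_of_surj p (QuotientGroup.mk' N) hπ hsolv)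
    (P.mapSurjective hπ)
  have hle := card_dvd_quot_le N p
  have hker : ∀ x ∈ derivedSeries ↥(P : Subgroup G)
      (Nat.card {ψ : Cfsg.IrrCharacter (G ⧸ N) // p ∣ Cfsg.charDegree (ψ : G ⧸ N → ℂ)} + 1),
      (x : G) ∈ N := by
    intro x hx
    have h1 := derived_map_eq_one (QuotientGroup.mk' N) (P : Subgroup G) _ hIH x hx
    exact (QuotientGroup.eq_one_iff _).1 h1
  rcases hN with ⟨hNp, hNab⟩ | hNcop
  · have key : ∃ k, k ≤ Nat.card {χ : Cfsg.IrrCharacter G // p ∣ Cfsg.charDegree (χ : G → ℂ)} ∧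
        ∀ x ∈ derivedSeries ↥(P : Subgroup G) k, (x : G) ∈ N := by
      by_cases hlt : Nat.card {ψ : Cfsg.IrrCharacter (G ⧸ N) //
          p ∣ Cfsg.charDegree (ψ : G ⧸ N → ℂ)} <
          Nat.card {χ : Cfsg.IrrCharacter G // p ∣ Cfsg.charDegree (χ : G → ℂ)}
      · exact ⟨_, hlt, hker⟩
      · have heq := le_antisymm hle (not_lt.1 hlt)
        refine ⟨1, Nat.pos_of_ne_zero hn0, ?_⟩
        obtain ⟨a, ha1⟩ := (Subgroup.ne_bot_iff_exists_ne_one).1 hNbot
        obtain ⟨lam, hlam⟩ := exists_hom_ne_one_of_comm (A := N)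
          (fun a b => Subtype.ext (hNab a a.2 b b.2)) (a := a) ha1
        have hdegL : ∀ χ : G → ℂ, Cfsg.IsIrrCharacter G χ →
            Cfsg.classInner (fun n : N => χ n) (fun n : N => ((lam n : ℂˣ) : ℂ)) ≠ 0 →
            ¬ p ∣ Cfsg.charDegree χ := by
          intro χ hχ hne hdvd
          have htriv := ker_of_card_dvd_quot_eq N p heq ⟨χ, hχ⟩ hdvd
          apply hne
          have h1 : (fun n : N => χ n) = χ 1 • (fun _ : N => (1 : ℂ)) := by
            funext n
            rw [Pi.smul_apply, smul_eq_mul, mul_one]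
            exact htriv n n.2
          rw [h1, Helper80.classInner_smul_left,
            Helper80.classInner_irr_fun Helper80.isIrrCharacter_one
              (Helper80.isIrrCharacter_of_hom lam), if_neg, mul_zero]
          intro h
          apply hlam
          ext n
          have h2 := congrFun h n
          rw [MonoidHom.one_apply, Units.val_one]
          exact h2.symm
        have hcomm := commutator_sylow_of_pprime_over p hsolv N hNp lam hdegL P
        intro x hx
        rw [derivedSeries_succ, derivedSeries_zero] at hx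
        have hle' : ⁅(⊤ : Subgroup ↥(P : Subgroup G)), ⊤⁆ ≤ N.subgroupOf (P : Subgroup G) := by
          rw [Subgroup.commutator_le]
          intro a _ b _
          rw [Subgroup.mem_subgroupOf]
          exact hcomm a a.2 b b.2
        exact Subgroup.mem_subgroupOf.1 (hle' hx)
    obtain ⟨k, hk, hkN⟩ := key
    have h1 : derivedSeries ↥(P : Subgroup G) (k + 1) = ⊥ :=
      derived_succ_bot_of_comm k
        (fun x hx y hy => Subtype.ext (hNab _ (hkN x hx) _ (hkN y hy)))
    have h2 := derivedSeries_antitone (G := ↥(P : Subgroup G)) (Nat.succ_le_succ hk)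
    rw [h1] at h2
    exact le_bot_iff.1 h2
  · have h1 : derivedSeries ↥(P : Subgroup G)
        (Nat.card {ψ : Cfsg.IrrCharacter (G ⧸ N) // p ∣ Cfsg.charDegree (ψ : G ⧸ N → ℂ)} + 1) =
        ⊥ := by
      rw [eq_bot_iff]
      intro x hx
      have hxN := hker x hx
      have hinf : (P : Subgroup G) ⊓ N = ⊥ := by
        apply Disjoint.eq_bot
        apply Subgroup.disjoint_of_coprime_natCard
        obtain ⟨k, hk⟩ := IsPGroup.iff_card.1 P.2
        rw [hk]
        exact Nat.Coprime.pow_left k hNcop.symm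
      have h3 : (x : G) ∈ (P : Subgroup G) ⊓ N := ⟨x.2, hxN⟩
      rw [hinf] at h3
      exact Subgroup.mem_bot.2 (Subtype.ext (Subgroup.mem_bot.1 h3))
    have h2 := derivedSeries_antitone (G := ↥(P : Subgroup G)) (Nat.succ_le_succ hle)
    rw [h1] at h2
    exact le_bot_iff.1 h2

/-- the derived length of a Sylow `p`-subgroup of a `p`-solvable group is at most one more than
the number of irreducible characters of degree divisible by `p` -/
theorem sylow_derived {G : Type u} [Group G] [Finite G] (p : ℕ) [Fact p.Prime]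
    (hG : Cfsg.IsPSolvable p G) (P : Sylow p G) :
    derivedSeries ↥(P : Subgroup G)
      (Nat.card {χ : Cfsg.IrrCharacter G // p ∣ Cfsg.charDegree (χ : G → ℂ)} + 1) = ⊥ :=
  sylow_derived_aux p _ G rfl hG P

end Cfsg.Agent.Lib.Helper81
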